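import Cfsg.Agent.StdO8.Mono

/-!
Conjugacy classes of the elements of the Coxeter group of type `E₈` with square in the centre.
-/

set_option autoImplicit false
set_option maxRecDepth 8000

namespace CfsgLib.StdO8

open CfsgLib.O8Mult (W cs Wp sgn sgn_simple)

theorem zW_comm (w : W) : (zW : W) * w = w * (zW : W) := rep_injective (by rw [map_mul, map_mul, rep_zW_comm])

theorem zW_ne_one : (zW : W) ≠ 1 := fun h => rep_zW_ne (by rw [h, map_one])

/-- A mask from a predicate. -/
def maskOf (f : Fin 8 → Bool) : ℕ := ((List.finRange 8).map fun i => bif f i then 2 ^ i.1 else 0).sum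

/-- Whether a permutation is of order at most two. -/
def invB (p : List (Fin 8)) : Bool := (List.finRange 8).all fun i => p.getD (p.getD i.1 0).1 0 == i

/-- The mask of the larger points of the two-cycles. -/
def canon (q : List (Fin 7)) : ℕ :=
  maskOf fun i => decide (((permOf (seqD q)).getD i.1 0).1 < i.1)

/-- The sequences of fixed-point-free involutions. -/
def fpfSeq : List (List (Fin 7)) :=
  invSeq.filter fun q => (List.finRange 8).all fun i => (permOf (seqD q)).getD i.1 0 != i

/-- The check of the conjugation by diagonal elements. -/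
def signCheck : Bool :=
  sylSeq.all fun q =>
    let s := seqD q
    let p := permOf s
    bif invB p then
      (q == [] || invSeq.contains q) &&
        (List.range 256).all fun n =>
          let d := smulD s (dD n)
          let dd := smulD d d
          let c := maskOf fun i => decide (i.1 < (p.getD i.1 0).1) && n.testBit i.1
          let cd := smulD (dD c) d
          (bif dd == oneD then cd == smulD (smulD s (dD (maskOf fun i => (p.getD i.1 0 == i) && n.testBit i.1))) (dD c)
            else true) &&
          (bif dd == dD 255 then fpfSeq.contains q && (cd == smulD (smulD s (dD (canon q))) (dD c)) else true)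
    else true

theorem signCheck_eq : signCheck = true := by decide +kernel

/-- A diagonal element. -/
def IsDiag (w : W) : Prop := ∀ j, ∃ b, rep w (fv j) = sg b (fv j)

theorem IsDiag.one : IsDiag 1 := fun j => ⟨false, by simp [sg]⟩

theorem IsDiag.mul {v w : W} (hv : IsDiag v) (hw : IsDiag w) : IsDiag (v * w) := fun j => by
  obtain ⟨a, ha⟩ := hv j
  obtain ⟨b, hb⟩ := hw j
  exact ⟨b ^^ a, by rw [rep_mul_apply, hb, rep_sg, ha, sg_sg]⟩

theorem IsDiag.exists_mask {w : W} (h : IsDiag w) : ∃ n, n < 256 ∧ w = dW n := by
  choose b hb using h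
  refine ⟨Nat.ofBits b, Nat.ofBits_lt_two_pow b, rep_injective (rep_ext_fv fun j => ?_)⟩
  rw [hb, (mono_dW _).2, img_dD, Nat.testBit_ofBits_lt _ _ j.2]

/-- The word of a product of generators. -/
def seqWord (q : List (Fin 7)) : List (Fin 8) := q.flatMap fun k => genWords.getD k.1 []

theorem seqW_eq (q : List (Fin 7)) : seqW q = wd (seqWord q) := by
  induction q with
  | nil => simp [seqW, seqWord, wd]
  | cons k q ih => rw [seqW, List.map_cons, List.prod_cons, ← seqW, ih]; simp [seqWord, wd_append, genW]

/-- The check of the diagonalising words. -/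
def diagCheck : Bool :=
  (([] : List (Fin 7)), ([] : List (Fin 8))) :: invSeq.zip invWord |>.all fun x =>
    let word := x.2 ++ (seqWord x.1 ++ x.2.reverse)
    ((List.finRange 8).all fun j => decide (act word (fv j) = fv j) || decide (act word (fv j) = Vec.smul (-1) (fv j))) &&
      (List.finRange 8).all fun a =>
        (permOf (seqD x.1)).getD a.1 0 != a || (List.finRange 8).any fun b =>
          decide (act x.2 (fv a) = fv b) || decide (act x.2 (fv a) = Vec.smul (-1) (fv b))

theorem diagCheck_eq : diagCheck = true := by decide +kernel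

theorem invWord_length : invSeq.length = invWord.length := by decide +kernel

theorem isDiag_fr (j : Fin 8) : IsDiag (fr j) := fun i => ⟨decide (j = i), by
  rw [rep_fr]; by_cases h : j = i <;> simp [h, sg]⟩

/-- The masks of the classes of involutions. -/
def repMasks : List ℕ := [3, 15, 23, 252, 1, 7, 254, 248]

/-- The check of the normal forms of masks. -/
def maskCheck : Bool :=
  (List.range 256).all fun n => n == 0 || n == 255 ||
    let s := seqD (normSeq.getD (n - 1) [])
    repMasks.any fun r => smulD s (dD n) == smulD (dD r) s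

theorem maskCheck_eq : maskCheck = true := by decide +kernel

theorem exists_syl_sq {w : W} (h : w * w = 1 ∨ w * w = (zW : W)) :
    ∃ (v : W) (q : List (Fin 7)) (n : ℕ), q ∈ sylSeq ∧ n < 256 ∧ v * w * v⁻¹ = eW q n := by
  refine exists_syl (k := 2) ?_
  have e : w ^ 2 ^ 2 = (w * w) * (w * w) := by simp [pow_succ, mul_assoc]
  rcases h with h | h <;> rw [e, h]
  · simp
  · rw [zW_eq, dW_sq]

theorem invB_of_sq {q : List (Fin 7)} {n m : ℕ} (h : smulD (eD q n) (eD q n) = dD m) :
    invB (permOf (seqD q)) = true := by
  simp only [invB, List.all_eq_true, List.mem_finRange, forall_const, beq_iff_eq]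
  intro i
  have h1 : ∀ j : Fin 8, (permOf (seqD q)).getD j.1 0 = (img (seqD q) j).1 := fun j => by
    have := (mono_seq q).1
    have hj : j.1 < (seqD q).length := by omega
    simp [permOf, img, List.getD_eq_getElem?_getD, hj]
  have := congrArg (fun d => (img d i).1) h
  rw [img_smulD _ _ (mono_eW q n).1] at this
  simp only [eD, img_smulD _ _ (mono_dW n).1, img_dD] at this
  rw [h1, h1, this]

theorem conj_eq_of_data {q : List (Fin 7)} {n m c : ℕ}
    (h : smulD (dD c) (eD q n) = smulD (eD q m) (dD c)) : dW c * eW q n * (dW c)⁻¹ = eW q m := by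
  rw [((mono_dW c).mul (mono_eW q n)).eq (h ▸ (mono_eW q m).mul (mono_dW c)), mul_inv_cancel_right]

theorem zW_conj (v : W) : v * (zW : W) * v⁻¹ = (zW : W) := by rw [← zW_comm, mul_inv_cancel_right]

/-- Elements with square minus one. -/
theorem twisted_class {w : W} (h : w * w = (zW : W)) :
    ∃ (v : W) (q : List (Fin 7)), q ∈ fpfSeq ∧ v * w * v⁻¹ = eW q (canon q) := by
  obtain ⟨v, q, n, hq, hn, e⟩ := exists_syl_sq (Or.inr h)
  have hd : smulD (eD q n) (eD q n) = dD 255 := by
    refine (Mono.eq_iff ((mono_eW q n).mul (mono_eW q n)) (mono_dW 255)).1 ?_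
    rw [← e, ← zW_eq, show v * w * v⁻¹ * (v * w * v⁻¹) = v * (w * w) * v⁻¹ by group, h, zW_conj]
  have hc := signCheck_eq
  simp only [signCheck, List.all_eq_true] at hc
  have := hc q hq
  rw [invB_of_sq hd, cond_true, Bool.and_eq_true, List.all_eq_true] at this
  have h2 := this.2 n (List.mem_range.2 hn)
  simp only [Bool.and_eq_true] at h2
  have h3 := h2.2
  rw [show smulD (smulD (seqD q) (dD n)) (smulD (seqD q) (dD n)) = dD 255 from hd, beq_self_eq_true, cond_true,
    Bool.and_eq_true, beq_iff_eq, List.contains_iff_mem] at h3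
  refine ⟨dW (maskOf fun i => decide (i.1 < ((permOf (seqD q)).getD i.1 0).1) && n.testBit i.1) * v,
    q, h3.1, ?_⟩
  rw [← conj_eq_of_data h3.2, ← e]
  group

/-- Involutions. -/
theorem invol_class {w : W} (h : w * w = 1) :
    w = 1 ∨ w = (zW : W) ∨ ∃ (v : W) (r : ℕ), r ∈ repMasks ∧ v * w * v⁻¹ = dW r := by
  obtain ⟨v, q, n, hq, hn, e⟩ := exists_syl_sq (Or.inl h)
  have hd : smulD (eD q n) (eD q n) = oneD := by
    refine (Mono.eq_iff ((mono_eW q n).mul (mono_eW q n)) mono_one).1 ?_
    rw [← e, show v * w * v⁻¹ * (v * w * v⁻¹) = v * (w * w) * v⁻¹ by group, h, mul_one, mul_inv_cancel]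
  have hc := signCheck_eq
  simp only [signCheck, List.all_eq_true] at hc
  have := hc q hq
  have hone : oneD = dD 0 := rfl
  rw [invB_of_sq (hd.trans hone), cond_true, Bool.and_eq_true, List.all_eq_true] at this
  obtain ⟨hmem, hall⟩ := this
  have h2 := hall n (List.mem_range.2 hn)
  simp only [Bool.and_eq_true] at h2
  have h3 := h2.1
  rw [show smulD (smulD (seqD q) (dD n)) (smulD (seqD q) (dD n)) = oneD from hd, beq_self_eq_true, cond_true,
    beq_iff_eq] at h3
  set p := permOf (seqD q)
  set m := maskOf fun i => (p.getD i.1 0 == i) && n.testBit i.1 with hmdef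
  set c := maskOf fun i => decide (i.1 < (p.getD i.1 0).1) && n.testBit i.1
  have e1 := conj_eq_of_data h3
  obtain ⟨g, hg⟩ : ∃ g, (q, g) ∈ (([] : List (Fin 7)), ([] : List (Fin 8))) :: invSeq.zip invWord := by
    simp only [Bool.or_eq_true, beq_iff_eq, List.contains_iff_mem] at hmem
    rcases hmem with rfl | h'
    · exact ⟨[], List.mem_cons_self⟩
    · obtain ⟨g, hg⟩ := exists_mem_zip invWord_length h'
      exact ⟨g, List.mem_cons_of_mem _ hg⟩
  have hk := diagCheck_eq
  simp only [diagCheck, List.all_eq_true] at hk
  have hk := hk _ hg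
  simp only [Bool.and_eq_true, List.all_eq_true, List.mem_finRange, forall_const, Bool.or_eq_true,
    decide_eq_true_eq, List.any_eq_true, true_and] at hk
  obtain ⟨hdiag, hfix⟩ := hk
  have hA : IsDiag (wd g * seqW q * (wd g)⁻¹) := fun j => by
    rw [seqW_eq, wd_inv, ← wd_append, ← wd_append, rep_wd, List.append_assoc]
    rcases hdiag j with e' | e'
    · exact ⟨false, e'⟩
    · exact ⟨true, e'⟩
  have hbit : ∀ a : Fin 8, m.testBit a.1 = true → p.getD a.1 0 = a := by
    have key : ∀ (f : Fin 8 → Bool) (a : Fin 8), (maskOf f).testBit a.1 = f a := by decide +kernel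
    intro a ha
    rw [hmdef, key, Bool.and_eq_true, beq_iff_eq] at ha
    exact ha.1
  have hB : IsDiag (wd g * dW m * (wd g)⁻¹) := by
    rw [dW, ← MulAut.conj_apply, map_list_prod, List.map_map]
    have : ∀ l : List (Fin 8), IsDiag
        ((l.map ((MulAut.conj (wd g)) ∘ fun j => if m.testBit j.1 then fr j else 1)).prod) := by
      intro l
      induction l with
      | nil => simpa using IsDiag.one
      | cons a l ih =>
        rw [List.map_cons, List.prod_cons]
        refine IsDiag.mul ?_ ih
        cases hm : m.testBit a.1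
        · simpa [Function.comp_apply, hm] using IsDiag.one
        · simp only [Function.comp_apply, hm, if_true, MulAut.conj_apply]
          rcases hfix a with h' | ⟨b, hb⟩
          · simp at h'
            exact absurd (hbit a hm) h'
          · have hr := (reflIn_fr a).conj (wd g)
            rw [rep_wd] at hr
            have : wd g * fr a * (wd g)⁻¹ = fr b := by
              rcases hb with e' | e' <;> rw [e'] at hr
              · exact hr.unique (reflIn_fr b)
              · exact hr.unique (reflIn_fr b).neg
            rw [this]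
            exact isDiag_fr b
    exact this _
  obtain ⟨k, hk256, hk⟩ := (hA.mul hB).exists_mask
  have e2 : wd g * dW c * v * w * (wd g * dW c * v)⁻¹ = dW k := by
    calc _ = wd g * (dW c * (v * w * v⁻¹) * (dW c)⁻¹) * (wd g)⁻¹ := by group
      _ = wd g * (seqW q * dW m) * (wd g)⁻¹ := by rw [e, e1, eW]
      _ = wd g * seqW q * (wd g)⁻¹ * (wd g * dW m * (wd g)⁻¹) := by group
      _ = _ := hk
  set u := wd g * dW c * v
  by_cases k0 : k = 0
  · left
    rw [k0, dW_zero] at e2
    exact conj_eq_one_iff.1 e2
  by_cases k255 : k = 255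
  · right; left
    rw [k255, ← zW_eq, ← zW_conj u] at e2
    exact mul_left_cancel (mul_right_cancel e2)
  right; right
  have hm' := maskCheck_eq
  simp only [maskCheck, List.all_eq_true, List.mem_range, Bool.or_eq_true, beq_iff_eq, List.any_eq_true] at hm'
  rcases hm' k hk256 with (h' | h') | ⟨r, hr, he⟩
  · exact absurd h' k0
  · exact absurd h' k255
  · refine ⟨seqW (normSeq.getD (k - 1) []) * u, r, hr, ?_⟩
    have e3 := ((mono_seq (normSeq.getD (k - 1) [])).mul (mono_dW k)).eq (he ▸ (mono_dW r).mul (mono_seq _))
    rw [← e2] at e3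
    calc _ = seqW (normSeq.getD (k - 1) []) * (u * w * u⁻¹) * (seqW (normSeq.getD (k - 1) []))⁻¹ := by group
      _ = _ := by rw [e3, mul_inv_cancel_right]

end CfsgLib.StdO8
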