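import Cfsg.Agent.StdO8.Lattice

/-! Tables for the quads of the frame. -/

set_option autoImplicit false
set_option maxRecDepth 8000

namespace CfsgLib.StdO8

/-- The quads. -/
def quadMasks : List ℕ := [15, 51, 60, 85, 90, 102, 105, 150, 153, 165, 170, 195, 204, 240]

/-- Words moving the base root to roots supported on the quads. -/
def quadWords : List (List (Fin 8)) := [
  [2],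
  [5, 4, 1, 3, 2],
  [5, 4, 2, 1, 3, 0, 2],
  [5, 4, 3, 2],
  [5, 4, 2, 3, 0, 2],
  [2, 1, 3, 0, 2],
  [1, 3, 2],
  [7, 5, 6, 4, 5, 2, 3, 4, 1, 3, 2],
  [7, 5, 6, 4, 5, 3, 4, 1, 3, 2],
  [7, 6, 5, 4, 3, 2],
  [7, 6, 5, 4, 2, 3, 0, 2],
  [7, 6, 5, 4, 1, 3, 2],
  [7, 6, 5, 4, 2, 1, 3, 0, 2],
  [7, 5, 6, 4, 5, 3, 4, 2, 3, 0, 2]]

/-- Permutations fixing a point of the frame. -/
def stabSeqs : List (List (List (Fin 7))) := [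
  [[3], [5], [3, 6, 4, 6, 5, 6], [5, 3, 6, 5], [5, 6, 5, 6, 5], [3, 6, 4], [4, 6, 6, 4], [3, 6, 4, 6, 5], [3, 6, 5, 3, 6]],
  [[3], [5], [3, 1, 6, 4, 6, 5, 6], [1, 5, 3, 6, 5], [5, 6, 5, 2, 6, 5], [1, 3, 6, 4], [2, 4, 6, 6, 4], [0, 2, 3, 6, 4, 6, 5], [0, 3, 6, 5, 3, 1, 6]],
  [[4], [6, 4, 6, 6], [3, 1, 6, 4, 6, 5, 6], [0, 4, 6, 4, 6, 4], [3, 6, 5, 3, 1, 6, 5], [2, 5, 6, 5], [5, 3, 1, 6, 6], [5, 2, 6, 6, 4, 6, 5], [6, 5, 2, 4, 6]],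
  [[4], [1, 6, 4, 6, 6], [3, 6, 4, 6, 5, 6], [4, 2, 6, 4, 6, 4], [0, 3, 6, 5, 3, 6, 5], [5, 6, 5, 2], [2, 5, 3, 6, 6], [5, 2, 6, 6, 4, 6, 5], [6, 4, 5, 6]],
  [[3], [1, 5], [3, 6, 4, 6, 5, 6], [5, 3, 1, 6, 5], [0, 5, 6, 5, 6, 5], [1, 2, 3, 6, 4], [1, 6, 5, 6, 4], [0, 1, 4, 6, 6, 4], [2, 3, 1, 6, 4, 6], [3, 6, 5, 3, 1, 6]],
  [[3], [1, 5], [3, 1, 6, 4, 6, 5, 6], [0, 5, 3, 6, 5], [5, 2, 6, 5, 6, 5], [2, 3, 6, 4], [3, 6, 4, 6, 5], [4, 6, 6, 4, 2], [0, 3, 6, 5, 3, 6]],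
  [[0, 3], [1, 5], [3, 1, 6, 4, 6, 5, 6], [5, 3, 6, 5, 2], [2, 5, 6, 5, 6, 5], [3, 6, 4], [4, 6, 6, 4], [0, 2, 3, 6, 4, 6, 5], [3, 6, 5, 3, 6]],
  [[0, 3], [1, 5], [3, 6, 4, 6, 5, 6], [0, 2, 5, 3, 6, 5], [0, 1, 5, 6, 5, 6, 5], [1, 3, 6, 4], [6, 5, 6, 4], [2, 4, 6, 6, 4], [1, 3, 6, 4, 6], [0, 3, 6, 5, 3, 1, 6]]]

end CfsgLib.StdO8
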