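import Cfsg.Agent.StdO8.Mono
import Cfsg.Agent.StdO8.QuadData
import Cfsg.Agent.StdO8.Invol

/-!
The quads of the frame: the supports of the reflections not commuting with the whole frame.
-/

set_option autoImplicit false
set_option maxRecDepth 8000

namespace CfsgLib.StdO8

open CfsgLib.O8Mult (W cs Wp sgn)

/-- A mask as a set of points. -/
def ofMask (m : ℕ) : Finset (Fin 8) := Finset.univ.filter fun i => m.testBit i.1

theorem mem_ofMask {m : ℕ} {i : Fin 8} : i ∈ ofMask m ↔ m.testBit i.1 = true := by simp [ofMask]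

theorem quad_inter : ∀ a ∈ quadMasks, ∀ b ∈ quadMasks, (ofMask a ∩ ofMask b).card ≠ 3 := by decide +kernel

theorem quad_cover : ∀ i : Fin 8, ∃ m ∈ quadMasks, i ∈ ofMask m := by decide +kernel

theorem quad_card : ∀ m ∈ quadMasks, (ofMask m).card = 4 := by decide +kernel

theorem quad_nodup : quadMasks.Nodup ∧ quadMasks.length = 14 := by decide +kernel

theorem quad_inj : ∀ a ∈ quadMasks, ∀ b ∈ quadMasks, ofMask a = ofMask b → a = b := by decide +kernel

/-- The check of the supports of roots. -/
def suppCheck : Bool :=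
  rootList.all fun u =>
    let m := maskOf fun i => decide (bil u (fv i) ≠ 0)
    quadMasks.contains m || (List.finRange 8).any fun i => decide (u = fv i) || decide (u = Vec.smul (-1) (fv i))

theorem suppCheck_eq : suppCheck = true := by decide +kernel

theorem maskOf_bit : ∀ (f : Fin 8 → Bool) (a : Fin 8), (maskOf f).testBit a.1 = f a := by decide +kernel

theorem maskOf_lt : ∀ f : Fin 8 → Bool, maskOf f < 256 := by decide +kernel

theorem commute_fr_of_orth {t : W} {u : Vec} (hr : ReflIn t u) {i : Fin 8} (h : bil u (fv i) = 0) :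
    t * fr i = fr i * t := by
  have h2 := (reflIn_fr i).conj t
  have e : rep t (fv i) = fv i := by
    rw [hr, bil_comm, h]
    simp [Vec.smul, Vec.add]
  rw [e] at h2
  exact mul_inv_eq_iff_eq_mul.1 (h2.unique (reflIn_fr i))

/-- The support of a reflection is empty or a quad. -/
theorem refl_supp {t : W} (ht : IsRefl t) :
    (∀ i, t * fr i = fr i * t) ∨ ∃ m ∈ quadMasks, ∀ i, (t * fr i ≠ fr i * t ↔ i ∈ ofMask m) := by
  obtain ⟨u, hu, hr⟩ := ht.exists_root
  have hc := suppCheck_eq
  simp only [suppCheck, List.all_eq_true] at hc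
  have := hc u hu.mem
  simp only [Bool.or_eq_true, List.any_eq_true, List.contains_iff_mem, decide_eq_true_eq] at this
  rcases this with h | ⟨i, -, hi⟩
  · refine Or.inr ⟨_, h, fun i => ?_⟩
    rw [mem_ofMask, maskOf_bit, decide_eq_true_eq]
    refine ⟨fun hne h0 => hne (commute_fr_of_orth hr h0), fun hb hc => hb ?_⟩
    refine CommZ.orth (Or.inl hc) ?_ hu ((isRefl_fr i).exists_root.elim fun v hv => ?_) hr (reflIn_fr i)
    · rintro rfl
      rcases hr.root_unique (reflIn_fr i) hu.norm (by rw [bil_fv, if_pos rfl]) with e | e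
      all_goals
        have hm := h
        have hall : ∀ j : Fin 8, ∀ x ∈ [fv j, Vec.smul (-1) (fv j)],
            maskOf (fun k => decide (bil x (fv k) ≠ 0)) ∉ quadMasks := by decide +kernel
        rw [e] at hm
        exact hall i _ (by simp) hm
    · rcases hv.2.root_unique (reflIn_fr i) hv.1.norm (by rw [bil_fv, if_pos rfl]) with e | e
      · exact e ▸ hv.1
      · have h1 := Root.rep hv.1 (fr i)
        rw [e, rep_smul, rep_fr, if_pos rfl, smul_smul_neg] at h1
        exact h1
  · refine Or.inl fun j => ?_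
    have e : t = fr i := by
      rcases hi with e | e <;> rw [e] at hr
      · exact hr.unique (reflIn_fr i)
      · exact hr.unique (reflIn_fr i).neg
    rw [e, fr_comm]

theorem quadWord_check : ∀ p ∈ quadMasks.zip quadWords,
    maskOf (fun i => decide (bil (act p.2 (fv 0)) (fv i) ≠ 0)) = p.1 := by decide +kernel

theorem quadWord_length : quadMasks.length = quadWords.length := by decide +kernel

/-- Every quad is the support of a reflection. -/
theorem quad_refl {m : ℕ} (hm : m ∈ quadMasks) :
    ∃ t, IsRefl t ∧ ∀ i, (t * fr i ≠ fr i * t ↔ i ∈ ofMask m) := by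
  obtain ⟨w, hw⟩ := exists_mem_zip quadWord_length hm
  have hr := reflIn_zero.conj (wd w)
  rw [rep_wd] at hr
  have ht : IsRefl (wd w * cs.simple 0 * (wd w)⁻¹) := ⟨_, rfl⟩
  refine ⟨_, ht, fun i => ?_⟩
  have hk := quadWord_check _ hw
  simp only at hk
  have hroot : Root (act w (fv 0)) := ⟨wd w, rep_wd w _⟩
  rw [← hk, mem_ofMask, maskOf_bit, decide_eq_true_eq]
  refine ⟨fun hne h0 => hne (commute_fr_of_orth hr h0), fun hb hc => ?_⟩
  rcases refl_supp ht with h' | ⟨m', hm', h'⟩
  · obtain ⟨u', hu', hr'⟩ := (isRefl_fr i).exists_root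
    by_cases e : wd w * cs.simple 0 * (wd w)⁻¹ = fr i
    · rw [e] at hr
      rcases hr.root_unique (reflIn_fr i) hroot.norm (by rw [bil_fv, if_pos rfl]) with e' | e'
      all_goals
        have hall : ∀ j : Fin 8, ∀ x ∈ [fv j, Vec.smul (-1) (fv j)],
            maskOf (fun k => decide (bil x (fv k) ≠ 0)) ∉ quadMasks := by decide +kernel
        rw [e'] at hk
        exact hall i _ (by simp) (hk ▸ hm)
    · have h0 := CommZ.orth (Or.inl hc) e hroot hu' hr hr'
      rcases hr'.root_unique (reflIn_fr i) hu'.norm (by rw [bil_fv, if_pos rfl]) with e' | e' <;> rw [e'] at h0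
      · exact hb h0
      · rw [bil_smul_right] at h0; exact hb (by omega)
  · by_cases e : wd w * cs.simple 0 * (wd w)⁻¹ = fr i
    · have : ∀ j, wd w * cs.simple 0 * (wd w)⁻¹ * fr j = fr j * (wd w * cs.simple 0 * (wd w)⁻¹) := fun j => by
        rw [e, fr_comm]
      have hne : (ofMask m').Nonempty := by rw [← Finset.card_pos, quad_card m' hm']; norm_num
      obtain ⟨j, hj⟩ := hne
      exact (h' j).2 hj (this j)
    · obtain ⟨u', hu', hr'⟩ := (isRefl_fr i).exists_root
      have h0 := CommZ.orth (Or.inl hc) e hroot hu' hr hr'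
      rcases hr'.root_unique (reflIn_fr i) hu'.norm (by rw [bil_fv, if_pos rfl]) with e' | e' <;> rw [e'] at h0
      · exact hb h0
      · rw [bil_smul_right] at h0; exact hb (by omega)

/-- The permutation of a product of generators. -/
def seqPerm (q : List (Fin 7)) (i : Fin 8) : Fin 8 := (img (seqD q) i).1

/-- The image of a mask. -/
def imgMask (q : List (Fin 7)) (m : ℕ) : ℕ :=
  maskOf fun i => (List.finRange 8).any fun k => m.testBit k.1 && seqPerm q k == i

/-- The check of the permutations fixing a point. -/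
def stabCheck : Bool :=
  (List.finRange 8).all fun j =>
    let L := stabSeqs.getD j.1 []
    let lines := (quadMasks.filter fun m => m.testBit j.1).map (· ^^^ 2 ^ j.1)
    (L.all fun q => seqPerm q j == j && (List.finRange 8).all fun i =>
      (smulD (seqD q) (dD (2 ^ i.1)) == smulD (dD (2 ^ (seqPerm q i).1)) (seqD q)) &&
        (List.finRange 8).all fun k => seqPerm q i != seqPerm q k || i == k) &&
    (lines.all fun a => lines.all fun b => L.any fun q => imgMask q a == b) &&
    (List.range 256).all fun m =>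
      weight m != 3 || m.testBit j.1 || lines.contains m || L.any fun q => weight (m &&& imgMask q m) == 2

theorem stabCheck_eq : stabCheck = true := by decide +kernel

theorem stab_spec {j : Fin 8} {q : List (Fin 7)} (hq : q ∈ stabSeqs.getD j.1 []) :
    seqPerm q j = j ∧ Function.Bijective (seqPerm q) ∧
      ∀ i, seqW q * fr i * (seqW q)⁻¹ = fr (seqPerm q i) := by
  have h := stabCheck_eq
  simp only [stabCheck, List.all_eq_true, List.mem_finRange, forall_const, Bool.and_eq_true] at h
  obtain ⟨hj, hall⟩ := (h j).1.1 q hq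
  refine ⟨beq_iff_eq.1 hj, Finite.injective_iff_bijective.1 fun a b e => ?_, fun i => ?_⟩
  · have := (hall a).2 b
    rw [e] at this
    simpa using this
  · have e := (hall i).1
    rw [beq_iff_eq] at e
    rw [fr_eq, fr_eq, ((mono_seq q).mul (mono_dW _)).eq (e.symm ▸ (mono_dW _).mul (mono_seq q)),
      mul_inv_cancel_right]

theorem stab_lines {j : Fin 8} {a b : ℕ} (ha : a ∈ quadMasks) (hb : b ∈ quadMasks) (haj : j ∈ ofMask a)
    (hbj : j ∈ ofMask b) : ∃ q ∈ stabSeqs.getD j.1 [], imgMask q (a ^^^ 2 ^ j.1) = b ^^^ 2 ^ j.1 := by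
  have h := stabCheck_eq
  simp only [stabCheck, List.all_eq_true, List.mem_finRange, forall_const, Bool.and_eq_true, List.mem_map,
    List.mem_filter, forall_exists_index, and_imp, List.any_eq_true, beq_iff_eq] at h
  exact (h j).1.2 _ a ha (mem_ofMask.1 haj) rfl _ b hb (mem_ofMask.1 hbj) rfl

theorem stab_triple {j : Fin 8} {m : ℕ} (hm : m < 256) (h3 : weight m = 3) (hj : j ∉ ofMask m) :
    (∃ a ∈ quadMasks, j ∈ ofMask a ∧ a ^^^ 2 ^ j.1 = m) ∨
      ∃ q ∈ stabSeqs.getD j.1 [], weight (m &&& imgMask q m) = 2 := by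
  have h := stabCheck_eq
  simp only [stabCheck, List.all_eq_true, List.mem_finRange, forall_const, Bool.and_eq_true, List.mem_range,
    Bool.or_eq_true, bne_iff_ne, List.contains_iff_mem, List.mem_map, List.mem_filter, List.any_eq_true,
    beq_iff_eq] at h
  rcases (h j).2 m hm with ((h' | h') | ⟨a, ⟨ha, haj⟩, rfl⟩) | h'
  · exact absurd h3 h'
  · exact absurd (mem_ofMask.2 h') hj
  · exact Or.inl ⟨a, ha, mem_ofMask.2 haj, rfl⟩
  · exact Or.inr h'

theorem ofMask_erase : ∀ j : Fin 8, ∀ m ∈ quadMasks, j ∈ ofMask m → ofMask (m ^^^ 2 ^ j.1) = (ofMask m).erase j := by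
  decide +kernel

theorem weight_eq_card (m : ℕ) : weight m = (ofMask m).card := by
  have h : ofMask m = ((List.finRange 8).filter fun i => m.testBit i.1).toFinset := by
    ext i; simp [ofMask]
  rw [h, List.toFinset_card_of_nodup ((List.nodup_finRange 8).filter _), weight]

theorem ofMask_and (a b : ℕ) : ofMask (a &&& b) = ofMask a ∩ ofMask b := by
  ext i; simp [mem_ofMask]

theorem ofMask_img (q : List (Fin 7)) (m : ℕ) : ofMask (imgMask q m) = (ofMask m).image (seqPerm q) := by
  ext i
  simp only [mem_ofMask, imgMask, maskOf_bit, List.any_eq_true, List.mem_finRange, true_and, Bool.and_eq_true,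
    beq_iff_eq, Finset.mem_image]

theorem exists_mask (T : Finset (Fin 8)) : ∃ m, m < 256 ∧ ofMask m = T :=
  ⟨maskOf fun i => decide (i ∈ T), maskOf_lt _, by ext i; simp [mem_ofMask, maskOf_bit]⟩

end CfsgLib.StdO8
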