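import Cfsg.Agent.StdO8.TKill
import Cfsg.Agent.StdO8.Quads

/-!
Nine points from an outer conjugate acting as a reflection, and the count that excludes them.
-/

set_option autoImplicit false
set_option maxRecDepth 8000

namespace CfsgLib.StdO8

open CfsgLib.O8Mult (W cs Wp sgn sgn_simple)

variable {G : Type*} [Group G]

/-- A base: an outer conjugate acting as the first frame reflection. -/
structure IsBase (ι : Wp →* G) (y : G) : Prop where
  act : Act ι y (fr 0)
  conj : Conj ι y
  two : Two ι → Conj ι (y * zG ι)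

theorem IsBase.odd0 {ι : Wp →* G} {y : G} (hy : IsBase ι y) : Odd0 ι y (fr 0) :=
  ⟨hy.act, Setup.conj_sq hy.conj, (isRefl_fr 0).mul_self, sgn_fr 0⟩

/-- The nine points of a base. -/
noncomputable def pt (ι : Wp →* G) (y : G) : Option (Fin 8) → G
  | none => zG ι
  | some i => phi ι y (fr 0) (fr i)

/-- The element of `W` behind a point. -/
noncomputable def ptW : Option (Fin 8) → W
  | none => zW
  | some i => fr i

/-- The mask behind a point. -/
def ptM : Option (Fin 8) → ℕ
  | none => 255
  | some i => 2 ^ i.1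

theorem ptW_eq (a : Option (Fin 8)) : ptW a = dW (ptM a) := by
  cases a with
  | none => exact zW_eq
  | some i => exact fr_eq i

theorem ptM_lt : ∀ a, ptM a < 256 := by decide +kernel

theorem ptM_inj : ∀ a b, ptM a = ptM b → a = b := by decide +kernel

theorem pt_eq {ι : Wp →* G} {y : G} (a : Option (Fin 8)) : pt ι y a = phi ι y (fr 0) (ptW a) := by
  cases a with
  | none => exact (phi_zW ι y (fr 0)).symm
  | some i => rfl

/-- The points which a reflection at a point does not commute with. -/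
def QAt (ι : Wp →* G) (y : G) (p : Option (Fin 8)) (Q : Finset (Option (Fin 8))) : Prop :=
  p ∉ Q ∧ Q.card = 4 ∧ ∃ g t, g * zG ι * g⁻¹ = pt ι y p ∧ IsRefl t ∧
    ∀ a, a ≠ p → ∀ r, Act ι (g⁻¹ * pt ι y a * g) r → (t * r ≠ r * t ↔ a ∈ Q)

/-- A mask as a set of points. -/
def qpts (m : ℕ) : Finset (Option (Fin 8)) := (ofMask m).image some

theorem mem_qpts {m : ℕ} {i : Fin 8} : some i ∈ qpts m ↔ i ∈ ofMask m := by simp [qpts]

theorem none_notMem_qpts (m : ℕ) : none ∉ qpts m := by simp [qpts]

theorem qpts_card (m : ℕ) : (qpts m).card = (ofMask m).card :=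
  Finset.card_image_of_injective _ (Option.some_injective _)

namespace Setup

variable [Finite G] {L : Subgroup G} {ι : Wp →* G} (h : Setup L ι)
include h

omit h [Finite G] in
theorem pt_comm {y : G} (hy : IsBase ι y) (a b : Option (Fin 8)) : pt ι y a * pt ι y b = pt ι y b * pt ι y a := by
  rw [pt_eq, pt_eq]
  exact hy.odd0.commute (by rw [ptW_eq, ptW_eq, dW_comm])

omit [Finite G] in
theorem pt_injective {y : G} (hy : IsBase ι y) : Function.Injective (pt ι y) := by
  intro a b e
  rw [pt_eq, pt_eq] at e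
  have := hy.odd0.injective h e
  rw [ptW_eq, ptW_eq] at this
  exact ptM_inj a b (dW_inj (ptM_lt a) (ptM_lt b) this)

omit h [Finite G] in
theorem pt_self {y : G} (hy : IsBase ι y) : pt ι y (some 0) = y := hy.odd0.phi_self

omit h [Finite G] in
theorem fr_even_conj (i : Fin 8) : ∃ v : Wp, (v : W) * fr 0 * (v : W)⁻¹ = fr i := by
  obtain ⟨v, hv, e⟩ := mask_conj (m := 2 ^ i.1) (by revert i; decide) (Or.inl (by revert i; decide +kernel))
  have hw : weight (2 ^ i.1) = 1 := (show ∀ i : Fin 8, weight (2 ^ i.1) = 1 by decide +kernel) i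
  rw [hw, ← fr_eq] at e
  refine ⟨(toWp v)⁻¹, ?_⟩
  rw [Subgroup.coe_inv, coe_toWp hv, inv_inv]
  calc v⁻¹ * fr 0 * v = v⁻¹ * dW (2 ^ 1 - 1) * v := by rw [fr_eq]; rfl
    _ = fr i := by rw [← e]; group

omit [Finite G] in
theorem pt_conj {y : G} (hy : IsBase ι y) (a : Option (Fin 8)) : Conj ι (pt ι y a) := by
  cases a with
  | none => exact ⟨1, by simp [pt]⟩
  | some i =>
    obtain ⟨v, e⟩ := fr_even_conj i
    show Conj ι (phi ι y (fr 0) (fr i))
    rw [← e, hy.odd0.phi_conj, hy.odd0.phi_self]
    exact conj_conj hy.conj _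

omit [Finite G] in
theorem pt_pair {y : G} (hy : IsBase ι y) (hT : Two ι) (i : Fin 8) : Conj ι (pt ι y (some i) * zG ι) := by
  obtain ⟨v, e⟩ := fr_even_conj i
  have hz : ι v * zG ι = zG ι * ι v := (act_iota ι v).comm_z
  show Conj ι (phi ι y (fr 0) (fr i) * zG ι)
  rw [← e, hy.odd0.phi_conj, hy.odd0.phi_self]
  have := conj_conj (hy.two hT) (ι v)
  convert this using 1
  calc ι v * y * (ι v)⁻¹ * zG ι = ι v * y * ((ι v)⁻¹ * (zG ι * ι v)) * (ι v)⁻¹ := by group
    _ = _ := by rw [← hz]; group

omit [Finite G] in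
theorem pt_mul_conj {y : G} (hy : IsBase ι y) (hT : Two ι) {a b : Option (Fin 8)} (hab : a ≠ b) :
    Conj ι (pt ι y a * pt ι y b) := by
  cases a with
  | none =>
    cases b with
    | none => exact absurd rfl hab
    | some j => rw [pt_comm hy]; exact h.pt_pair hy hT j
  | some i =>
    cases b with
    | none => exact h.pt_pair hy hT i
    | some j =>
      rw [pt_eq, pt_eq, ptW_eq, ptW_eq, ← hy.odd0.mul, dW_mul]
      refine h.phi_two hT (xor_lt (ptM_lt _) (ptM_lt _)) ?_
      have key : ∀ i j : Fin 8, i ≠ j → weight (2 ^ i.1 ^^^ 2 ^ j.1) = 2 := by decide +kernel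
      exact key i j fun e => hab (by rw [e])

/-- Distinct points are outer at one another. -/
theorem pt_outer {y : G} (hy : IsBase ι y) {a b : Option (Fin 8)} (hab : a ≠ b) :
    Th ι (pt ι y a) (pt ι y b) (-1) := by
  obtain ⟨c, hc⟩ := h.th_exists (h.pt_conj hy a) (pt_comm hy b a)
  have hne : pt ι y b ≠ pt ι y a := fun e => hab (h.pt_injective hy e).symm
  rcases Int.units_eq_one_or c with rfl | rfl
  · exfalso
    have hT := h.inner_two (h.pt_conj hy a) (h.pt_conj hy b) (pt_comm hy b a) hne hc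
    exact h.inner_mul (h.pt_conj hy a) (h.pt_conj hy b) (pt_comm hy b a) hne hc (h.pt_mul_conj hy hT hab)
  · exact hc

omit h [Finite G] in
theorem base_of_refl {y : G} {w : W} (hw : Act ι y w) (hr : IsRefl w) :
    ∃ v : Wp, Act ι (ι v * y * (ι v)⁻¹) (fr 0) := by
  obtain ⟨u, rfl⟩ := hr
  have e : u⁻¹ * (u * cs.simple 0 * u⁻¹) * u⁻¹⁻¹ = dW 1 := by
    rw [show dW 1 = fr 0 from (fr_eq 0).symm, fr, fWord, wd, List.map_singleton, List.prod_singleton]
    group
  obtain ⟨v, hv, e'⟩ := even_conjugator e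
  refine ⟨toWp v, ?_⟩
  have := hw.conj (toWp v)
  rwa [coe_toWp hv, e', ← show fr 0 = dW 1 from fr_eq 0] at this

/-- If the central involution is not isolated there is a base. -/
theorem exists_base {y : G} (hy : Conj ι y) (hne : y ≠ zG ι) (hc : y * zG ι = zG ι * y) :
    ∃ y', IsBase ι y' := by
  by_cases hT : Two ι
  · obtain ⟨g, hg⟩ := hT
    have hT : Two ι := ⟨g, hg⟩
    have hm : ∀ m, weight m = 2 → sgn (dW m) = 1 := fun m hm => sgn_dW_even (by rw [hm])
    have hconj : ∀ m, m < 256 → weight m = 2 → Conj ι (jw ι (dW m)) := fun m hm' hw => by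
      obtain ⟨v, -, ev⟩ := mask_conj hm' (Or.inr (Or.inl hw))
      refine h.two_conj_mask (v := v) ?_ hT
      rw [coe_toWp (hm m hw), ev, hw]
      rfl
    have h3 : weight 3 = 2 ∧ weight 5 = 2 ∧ weight 6 = 2 := by decide +kernel
    set p := jw ι (dW 5)
    have hcom : p * jw ι (dW 3) = jw ι (dW 3) * p := by
      rw [← jw_mul ι (hm 5 h3.2.1) (hm 3 h3.1), dW_comm, jw_mul ι (hm 3 h3.1) (hm 5 h3.2.1)]
    have hp := hconj 5 (by norm_num) h3.2.1
    have hne5 : p ≠ jw ι (dW 3) := fun e => by
      have := congrArg Subtype.val (h.inj e)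
      rw [coe_toWp (hm 5 h3.2.1), coe_toWp (hm 3 h3.1)] at this
      exact absurd (dW_inj (by norm_num) (by norm_num) this) (by norm_num)
    have hprod : Conj ι (jw ι (dW 3) * p) := by
      rw [← jw_mul ι (hm 3 h3.1) (hm 5 h3.2.1), dW_mul, show (3 ^^^ 5 : ℕ) = 6 by decide +kernel]
      exact hconj 6 (by norm_num) h3.2.2
    set q := g⁻¹ * p * g with hq
    have hqc : Conj ι q := by simpa [q] using conj_conj hp g⁻¹
    have hqz : q * zG ι = g⁻¹ * (jw ι (dW 3) * p) * g := by
      rw [← hcom, ← hg]; simp only [q]; group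
    have hqcz : Conj ι (q * zG ι) := by rw [hqz]; simpa using conj_conj hprod g⁻¹
    have hqne : q ≠ zG ι := fun e => hne5 (by rw [← hg, ← e]; simp only [q]; group)
    have hcomz : q * zG ι = zG ι * q := by
      rw [hqz, ← hg]; simp only [q]; group
    rcases h.classify' hqc hqne hcomz with ⟨l, el, -⟩ | ⟨w, hw, -, hr⟩
    · exfalso
      refine h.inner_mul ⟨g, hg⟩ hp hcom hne5 ⟨g, (l : W), hg, ?_, l.2⟩ hprod
      rw [← hq, el]; exact act_iota ι l
    · obtain ⟨v, hv⟩ := base_of_refl hw hr
      refine ⟨_, hv, conj_conj hqc _, fun _ => ?_⟩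
      have := conj_conj hqcz (ι v)
      convert this using 1
      have hz : ι v * zG ι = zG ι * ι v := (act_iota ι v).comm_z
      calc ι v * q * (ι v)⁻¹ * zG ι = ι v * q * ((ι v)⁻¹ * (zG ι * ι v)) * (ι v)⁻¹ := by group
        _ = _ := by rw [← hz]; group
  · rcases h.classify' hy hne hc with ⟨l, el, v, -, ev⟩ | ⟨w, hw, -, hr⟩
    · exact absurd (h.move (el ▸ hy) ev) hT
    · obtain ⟨v, hv⟩ := base_of_refl hw hr
      exact ⟨_, hv, conj_conj hy _, fun hT' => absurd hT' hT⟩

/-- Every point can be moved to the central involution of a base. -/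
theorem transport {y : G} (hy : IsBase ι y) (i : Fin 8) :
    ∃ (g : G) (y' : G) (π : Option (Fin 8) ≃ Option (Fin 8)), IsBase ι y' ∧ π none = some i ∧
      ∀ a, g * pt ι y' a * g⁻¹ = pt ι y (π a) := by
  obtain ⟨g₀, hg⟩ := h.pt_conj hy (some i)
  let σ₀ : Option (Fin 8) ≃ Option (Fin 8) := Equiv.swap none (some i)
  let a : Fin 8 → Option (Fin 8) := fun j => σ₀ (some j)
  have ha : ∀ j, a j ≠ some i := fun j e => by
    have : σ₀ (some j) = σ₀ none := e.trans (Equiv.swap_apply_left _ _).symm
    exact Option.some_ne_none j (σ₀.injective this)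
  have ha' : Function.Injective a := fun j k e => Option.some_injective _ (σ₀.injective e)
  let q : Fin 8 → G := fun j => g₀⁻¹ * pt ι y (a j) * g₀
  have hqconj : ∀ j, Conj ι (q j) := fun j => by simpa [q] using conj_conj (h.pt_conj hy (a j)) g₀⁻¹
  have hz : zG ι = g₀⁻¹ * pt ι y (some i) * g₀ := by rw [← hg]; group
  have hcz : ∀ j, q j * zG ι = zG ι * q j := fun j => by
    rw [hz]
    simp only [q]
    calc g₀⁻¹ * pt ι y (a j) * g₀ * (g₀⁻¹ * pt ι y (some i) * g₀)
        = g₀⁻¹ * (pt ι y (a j) * pt ι y (some i)) * g₀ := by group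
      _ = g₀⁻¹ * (pt ι y (some i) * pt ι y (a j)) * g₀ := by rw [pt_comm hy]
      _ = _ := by group
  have hne : ∀ j, q j ≠ zG ι := fun j e => ha j (h.pt_injective hy (by
    rw [hz] at e; simpa [q] using e))
  have hr : ∀ j, ∃ w, Act ι (q j) w ∧ IsRefl w := fun j => by
    rcases h.classify' (hqconj j) (hne j) (hcz j) with ⟨l, el, -⟩ | ⟨w, hw, -, hr⟩
    · exfalso
      have h1 : Th ι (pt ι y (some i)) (pt ι y (a j)) 1 :=
        ⟨g₀, (l : W), hg, by show Act ι (q j) _; rw [el]; exact act_iota ι l, l.2⟩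
      exact absurd (h.th_unique h1 (h.pt_outer hy (fun e => ha j e.symm))) (by decide)
    · exact ⟨w, hw, hr⟩
  choose r hr hrefl using hr
  have hqc : ∀ j k, q j * q k = q k * q j := fun j k => by
    simp only [q]
    calc g₀⁻¹ * pt ι y (a j) * g₀ * (g₀⁻¹ * pt ι y (a k) * g₀)
        = g₀⁻¹ * (pt ι y (a j) * pt ι y (a k)) * g₀ := by group
      _ = g₀⁻¹ * (pt ι y (a k) * pt ι y (a j)) * g₀ := by rw [pt_comm hy]
      _ = _ := by group
  -- two of the eight never have the same action
  have hinj : Function.Injective r := fun j k e => by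
    by_contra hjk
    rcases h.eq_of_act (hr j) (e ▸ hr k) (conj_sq (hqconj j)) (conj_sq (hqconj k)) (hqc j k) with e' | e'
    · exact hjk (ha' (h.pt_injective hy (by simpa [q] using e')))
    · have e2 : pt ι y (a j) = pt ι y (some i) * pt ι y (a k) := by
        calc pt ι y (a j) = g₀ * q j * g₀⁻¹ := by simp only [q]; group
          _ = g₀ * (zG ι * q k) * g₀⁻¹ := by rw [e']
          _ = _ := by rw [hz]; simp only [q]; group
      rw [pt_eq, pt_eq, pt_eq, ← hy.odd0.mul, ptW_eq, ptW_eq, ptW_eq, dW_mul] at e2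
      have key : ∀ a b c : Option (Fin 8), b ≠ c → ptM a ≠ ptM b ^^^ ptM c := by decide +kernel
      exact key _ _ _ (fun e => ha k e.symm) (dW_inj (ptM_lt _) (xor_lt (ptM_lt _) (ptM_lt _))
        (hy.odd0.injective h e2))
  obtain ⟨v, σ, hσ⟩ := refl_frame hrefl hinj fun j k => h.commZ_of_act (hr j) (hr k) (hqc j k)
  let g : G := g₀ * (ι v)⁻¹
  let q' : Fin 8 → G := fun j => ι v * q j * (ι v)⁻¹
  have hact : ∀ j, Act ι (q' j) (fr (σ j)) := fun j => by
    have := (hr j).conj v
    rwa [hσ] at this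
  have hvz : (ι v)⁻¹ * zG ι = zG ι * (ι v)⁻¹ := (act_iota ι v).inv.comm_z
  have hgq : ∀ j, g * q' j * g⁻¹ = pt ι y (a j) := fun j => by simp only [g, q', q]; group
  have hgz : g * zG ι * g⁻¹ = pt ι y (some i) := by
    calc g * zG ι * g⁻¹ = g₀ * ((ι v)⁻¹ * zG ι) * ι v * g₀⁻¹ := by simp only [g]; group
      _ = g₀ * zG ι * g₀⁻¹ := by rw [hvz]; group
      _ = _ := hg
  set j₀ := σ.symm 0
  have hσ₀ : σ j₀ = 0 := σ.apply_symm_apply 0
  have hy' : IsBase ι (q' j₀) := by
    refine ⟨hσ₀ ▸ hact j₀, conj_conj (hqconj j₀) _, fun hT => ?_⟩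
    have := conj_conj (h.pt_mul_conj hy hT (ha j₀)) g⁻¹
    convert this using 1
    rw [← hgq j₀, ← hgz]; group
  have hmatch : ∀ j, q' j = pt ι (q' j₀) (some (σ j)) := by
    intro j
    set p := pt ι (q' j₀) (some (σ j)) with hp
    have hcomm : q' j * p = p * q' j := by
      have hyq : q' j₀ * q' j = q' j * q' j₀ := by
        simp only [q']
        calc ι v * q j₀ * (ι v)⁻¹ * (ι v * q j * (ι v)⁻¹) = ι v * (q j₀ * q j) * (ι v)⁻¹ := by group
          _ = ι v * (q j * q j₀) * (ι v)⁻¹ := by rw [hqc]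
          _ = _ := by group
      have hs : sgn (fr (σ j) * fr 0) = 1 := by rw [map_mul, sgn_fr, sgn_fr]; rfl
      rw [hp, pt, phi, if_neg (by rw [sgn_fr]; decide)]
      calc q' j * (jw ι (fr (σ j) * fr 0) * q' j₀) = q' j * jw ι (fr (σ j) * fr 0) * q' j₀ := by group
        _ = jw ι (fr (σ j) * fr 0) * q' j * q' j₀ := by
          rw [jw, hact j, cW_toWp _ hs]
          congr 4
          rw [fr_comm (σ j) 0, ← mul_assoc, mul_inv_cancel_right, fr_comm]
        _ = jw ι (fr (σ j) * fr 0) * (q' j₀ * q' j) := by rw [hyq]; group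
        _ = _ := by group
    have hq2 : Conj ι (q' j) := conj_conj (hqconj j) _
    rcases h.eq_of_act (hact j) (hy'.odd0.act_phi (fr (σ j))) (conj_sq hq2) (conj_sq (h.pt_conj hy' (some (σ j))))
      hcomm with e | e
    · exact e
    replace e : q' j = zG ι * p := e
    exfalso
    have hne0 : σ j ≠ 0 := by
      intro e0
      have : j = j₀ := σ.injective (e0.trans hσ₀.symm)
      subst this
      rw [hσ₀] at hp
      rw [hp, pt_self hy'] at e
      exact h.z_ne_one (mul_eq_right.1 e.symm)
    by_cases hT : Two ι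
    · have hc : Conj ι (q' j₀ * q' j) := by
        have hab : a j₀ ≠ a j := fun e' => hne0 (by rw [← ha' e', hσ₀])
        have := conj_conj (h.pt_mul_conj hy hT hab) g⁻¹
        convert this using 1
        rw [← hgq j₀, ← hgq j]; group
      rw [e, hp] at hc
      set m := 2 ^ (0 : Fin 8).1 ^^^ 2 ^ (σ j).1 with hm
      have key : ∀ b : Fin 8, b ≠ 0 → weight (2 ^ (0 : Fin 8).1 ^^^ 2 ^ b.1) = 2 := by decide +kernel
      have hm2 : weight m = 2 := key _ hne0
      have hm256 : m < 256 := xor_lt (ptM_lt (some 0)) (ptM_lt (some (σ j)))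
      obtain ⟨u, -, eu⟩ := mask_conj hm256 (Or.inr (Or.inl hm2))
      have hs := sgn_dW_even (m := m) (by rw [hm2])
      obtain ⟨-, e2⟩ := two_mul_z (l := toWp (dW m)) (v := u) (by rw [coe_toWp hs, eu, hm2]; rfl)
      refine h.not_conj_six (h.move (l := zW * toWp (dW m)) ?_ e2)
      convert hc using 1
      rw [map_mul]
      show zG ι * jw ι (dW m) = q' j₀ * (zG ι * pt ι (q' j₀) (some (σ j)))
      rw [← mul_assoc, hy'.act.comm_z, mul_assoc]
      congr 1
      rw [← phi_even ι (q' j₀) (fr 0) hs, hm, ← dW_mul, ← fr_eq, ← fr_eq, hy'.odd0.mul, hy'.odd0.phi_self]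
      rfl
    · have h1 : Th ι (q' j₀) (zG ι * p) (-1 * -1) := by
        refine h.th_mul ?_ ?_
        · have := h.pt_outer hy' (a := some 0) (b := none) (by simp)
          rwa [pt_self hy'] at this
        · have := h.pt_outer hy' (a := some 0) (b := some (σ j)) (fun e' => hne0 (Option.some_injective _ e').symm)
          rwa [pt_self hy'] at this
      rw [← e, show (-1 : ℤˣ) * -1 = 1 by decide] at h1
      refine hT (h.inner_two (conj_conj (hqconj j₀) _) hq2 ?_ ?_ h1)
      · simp only [q']
        calc ι v * q j * (ι v)⁻¹ * (ι v * q j₀ * (ι v)⁻¹) = ι v * (q j * q j₀) * (ι v)⁻¹ := by group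
          _ = ι v * (q j₀ * q j) * (ι v)⁻¹ := by rw [hqc]
          _ = _ := by group
      · intro e'
        have : j = j₀ := ha' (h.pt_injective hy (by rw [← hgq j, ← hgq j₀, e']))
        exact hne0 (by rw [this, hσ₀])
  refine ⟨g, q' j₀, (Equiv.optionCongr σ.symm).trans σ₀, hy', by show σ₀ none = some i; exact Equiv.swap_apply_left _ _, ?_⟩
  intro b
  cases b with
  | none =>
    show g * zG ι * g⁻¹ = pt ι y (σ₀ none)
    rw [Equiv.swap_apply_left]
    exact hgz
  | some b =>
    have := hgq (σ.symm b)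
    rw [hmatch, σ.apply_symm_apply] at this
    exact this

omit [Finite G] in
theorem qat_at {y : G} {p : Option (Fin 8)} {Q : Finset (Option (Fin 8))} (hQ : QAt ι y p Q) {g' : G}
    (hg' : g' * zG ι * g'⁻¹ = pt ι y p) :
    ∃ t, IsRefl t ∧ ∀ a, a ≠ p → ∀ r, Act ι (g'⁻¹ * pt ι y a * g') r → (t * r ≠ r * t ↔ a ∈ Q) := by
  obtain ⟨-, -, g, t, hg, ht, hall⟩ := hQ
  obtain ⟨v, hv⟩ := h.exists_act (n := g'⁻¹ * g) (by
    calc g'⁻¹ * g * zG ι = g'⁻¹ * (g * zG ι * g⁻¹) * g := by group
      _ = g'⁻¹ * (g' * zG ι * g'⁻¹) * g := by rw [hg, hg']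
      _ = zG ι * (g'⁻¹ * g) := by group)
  refine ⟨v * t * v⁻¹, ht.conj v, fun a ha r hr => ?_⟩
  have h1 : Act ι (g⁻¹ * pt ι y a * g) (v⁻¹ * r * v) := by
    have := (hv.inv.mul hr).mul hv
    convert this using 1
    group
  rw [← hall a ha _ h1]
  refine not_congr ⟨fun e => ?_, fun e => ?_⟩
  · calc t * (v⁻¹ * r * v) = v⁻¹ * (v * t * v⁻¹ * r) * v := by group
      _ = v⁻¹ * (r * (v * t * v⁻¹)) * v := by rw [e]
      _ = _ := by group
  · calc v * t * v⁻¹ * r = v * (t * (v⁻¹ * r * v)) * v⁻¹ := by group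
      _ = v * (v⁻¹ * r * v * t) * v⁻¹ := by rw [e]
      _ = _ := by group

omit h [Finite G] in
theorem qat_map {y y' : G} {g : G} {π : Option (Fin 8) → Option (Fin 8)} (hπ : Function.Bijective π)
    (hmap : ∀ a, g * pt ι y' a * g⁻¹ = pt ι y (π a)) {p : Option (Fin 8)} {Q : Finset (Option (Fin 8))}
    (hQ : QAt ι y' p Q) : QAt ι y (π p) (Q.image π) := by
  obtain ⟨hp, hc, k, t, hk, ht, hall⟩ := hQ
  refine ⟨by simpa [hπ.1.eq_iff] using hp, by rw [Finset.card_image_of_injective _ hπ.1, hc], g * k, t, ?_, ht, ?_⟩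
  · rw [← hmap, ← hk]; group
  · intro b hb r hr
    obtain ⟨a, rfl⟩ := hπ.2 b
    rw [← hmap] at hr
    rw [hπ.1.mem_finset_image]
    refine hall a (fun e => hb (by rw [e])) r ?_
    convert hr using 1
    group

omit h [Finite G] in
theorem qat_unmap {y y' : G} {g : G} (π : Option (Fin 8) ≃ Option (Fin 8))
    (hmap : ∀ a, g * pt ι y' a * g⁻¹ = pt ι y (π a)) {p : Option (Fin 8)} {Q : Finset (Option (Fin 8))}
    (hQ : QAt ι y p Q) : QAt ι y' (π.symm p) (Q.image π.symm) :=
  qat_map (g := g⁻¹) π.symm.bijective (fun a => by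
    have := hmap (π.symm a)
    rw [π.apply_symm_apply] at this
    rw [← this]; group) hQ

omit [Finite G] in
theorem qat_none {y : G} (hy : IsBase ι y) (Q : Finset (Option (Fin 8))) :
    QAt ι y none Q ↔ ∃ m ∈ quadMasks, Q = qpts m := by
  have hact : ∀ i : Fin 8, Act ι ((1 : G)⁻¹ * pt ι y (some i) * 1) (fr i) := fun i => by
    rw [inv_one, one_mul, mul_one]
    exact hy.odd0.act_phi (fr i)
  constructor
  · intro hQ
    obtain ⟨t, ht, hall⟩ := h.qat_at hQ (g' := 1) (by simp [pt])
    obtain ⟨hn, hc, -⟩ := hQ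
    have key : ∀ i : Fin 8, (t * fr i ≠ fr i * t ↔ some i ∈ Q) := fun i => hall _ (by simp) _ (hact i)
    obtain ⟨i, hi⟩ : ∃ i, some i ∈ Q := by
      obtain ⟨x, hx⟩ := Finset.card_pos.1 (by rw [hc]; norm_num : 0 < Q.card)
      cases x with
      | none => exact absurd hx hn
      | some i => exact ⟨i, hx⟩
    rcases refl_supp ht with h' | ⟨m, hm, h'⟩
    · exact absurd (h' i) ((key i).2 hi)
    · refine ⟨m, hm, Finset.ext fun x => ?_⟩
      cases x with
      | none => simp [hn, none_notMem_qpts]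
      | some j => rw [mem_qpts, ← h', key]
  · rintro ⟨m, hm, rfl⟩
    obtain ⟨t, ht, hsupp⟩ := quad_refl hm
    refine ⟨none_notMem_qpts m, by rw [qpts_card, quad_card m hm], 1, t, by simp [pt], ht, fun a ha r hr => ?_⟩
    cases a with
    | none => exact absurd rfl ha
    | some i =>
      rw [mem_qpts, ← hsupp]
      rcases h.act_unique (hact i) hr with rfl | rfl
      · exact Iff.rfl
      · refine not_congr ⟨fun e => ?_, fun e => ?_⟩
        · refine mul_left_cancel (a := (zW : W)) ?_
          rw [← mul_assoc, zW_comm t, mul_assoc, e, mul_assoc]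
        · rw [← mul_assoc, ← zW_comm t, mul_assoc, e, mul_assoc]

omit [Finite G] in
theorem qat_point {y y' : G} {g : G} {π : Option (Fin 8) ≃ Option (Fin 8)} (hy' : IsBase ι y')
    (hmap : ∀ a, g * pt ι y' a * g⁻¹ = pt ι y (π a)) {j : Option (Fin 8)} (hj : π none = j)
    (Q : Finset (Option (Fin 8))) : QAt ι y j Q ↔ ∃ m ∈ quadMasks, Q = (qpts m).image π := by
  constructor
  · intro hQ
    have := qat_unmap π hmap hQ
    rw [← hj, π.symm_apply_apply, h.qat_none hy'] at this
    obtain ⟨m, hm, e⟩ := this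
    refine ⟨m, hm, ?_⟩
    rw [← e, Finset.image_image]
    simp
  · rintro ⟨m, hm, rfl⟩
    rw [← hj]
    exact qat_map π.bijective hmap ((h.qat_none hy' _).2 ⟨m, hm, rfl⟩)

/-- The quads at two points agree. -/
theorem qat_exchange_none {y : G} (hy : IsBase ι y) {j : Fin 8} {m : ℕ} (hm : m ∈ quadMasks)
    (hj : j ∈ ofMask m) : QAt ι y (some j) (insert none ((qpts m).erase (some j))) := by
  obtain ⟨g, y', π, hy', hπ, hmap⟩ := h.transport hy j
  have hiff := h.qat_point hy' hmap hπ
  let fam : Finset (Fin 8) → Prop := fun T => QAt ι y (some j) (insert none (T.image some))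
  have hinter : ∀ T T', fam T → fam T' → (T ∩ T').card ≠ 2 := by
    intro T T' h1 h2 h2c
    obtain ⟨a, ha, ea⟩ := (hiff _).1 h1
    obtain ⟨b, hb, eb⟩ := (hiff _).1 h2
    have : ((qpts a).image π ∩ (qpts b).image π).card = 3 := by
      rw [← ea, ← eb, ← Finset.insert_inter_distrib, ← Finset.image_inter _ _ (Option.some_injective _),
        Finset.card_insert_of_notMem (by simp), Finset.card_image_of_injective _ (Option.some_injective _), h2c]
    rw [← Finset.image_inter _ _ π.injective, Finset.card_image_of_injective _ π.injective, qpts, qpts,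
      ← Finset.image_inter _ _ (Option.some_injective _), Finset.card_image_of_injective _ (Option.some_injective _)] at this
    exact quad_inter a ha b hb this
  have hmove : ∀ q ∈ stabSeqs.getD j.1 [], ∀ T, fam T → fam (T.image (seqPerm q)) := by
    intro q hq T hT
    obtain ⟨hqj, hbij, hconj⟩ := stab_spec hq
    let π' : Option (Fin 8) → Option (Fin 8) := Option.map (seqPerm q)
    have hb : Function.Bijective π' := by
      refine Finite.injective_iff_bijective.1 (Option.map_injective hbij.1)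
    have hm' : ∀ a, jw ι (seqW q) * pt ι y a * (jw ι (seqW q))⁻¹ = pt ι y (π' a) := by
      intro a
      have hc := hy.odd0.phi_conj (toWp (seqW q))
      rw [coe_toWp (sgn_seq q)] at hc
      cases a with
      | none =>
        have := (act_iota ι (toWp (seqW q))).comm_z
        show _ * zG ι * _ = zG ι
        rw [jw, this, mul_inv_cancel_right]
      | some i =>
        show _ = phi ι y (fr 0) (fr (seqPerm q i))
        rw [← hconj i, hc]; rfl
    have := qat_map hb hm' hT
    have e : (insert none (T.image some)).image π' = insert none ((T.image (seqPerm q)).image some) := by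
      rw [Finset.image_insert, Finset.image_image, Finset.image_image]; rfl
    rw [e] at this
    show QAt ι y (some j) _
    rwa [show π' (some j) = some j by simp [π', hqj]] at this
  -- some quad at the point contains the central involution
  obtain ⟨i, hi⟩ : ∃ i, π.symm none = some i := by
    cases hc : π.symm none with
    | some i => exact ⟨i, rfl⟩
    | none =>
      have := congrArg π hc
      rw [π.apply_symm_apply, hπ] at this
      exact absurd this (by simp)
  obtain ⟨m₀, hm₀, him⟩ := quad_cover i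
  have hQ : QAt ι y (some j) ((qpts m₀).image π) := (hiff _).2 ⟨m₀, hm₀, rfl⟩
  have hnone : none ∈ (qpts m₀).image π := Finset.mem_image.2 ⟨some i, mem_qpts.2 him, by
    rw [← hi, π.apply_symm_apply]⟩
  let T₀ : Finset (Fin 8) := Finset.univ.filter fun k => some k ∈ (qpts m₀).image π
  have hQ' : (qpts m₀).image π = insert none (T₀.image some) := by
    ext x
    cases x with
    | none => simp only [Finset.mem_insert, true_or, iff_true]; exact hnone
    | some k => simp [T₀]
  have hT₀ : fam T₀ := by show QAt ι y (some j) _; rw [← hQ']; exact hQ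
  obtain ⟨hjn, hcard, -⟩ := hT₀
  have hT₀' : fam T₀ := by show QAt ι y (some j) _; rw [← hQ']; exact hQ
  obtain ⟨k, hk256, hkT⟩ := exists_mask T₀
  have hk3 : weight k = 3 := by
    rw [Finset.card_insert_of_notMem (by simp), Finset.card_image_of_injective _ (Option.some_injective _)] at hcard
    rw [weight_eq_card, hkT]; omega
  have hjk : j ∉ ofMask k := by
    rw [hkT]; intro hjT
    exact hjn (Finset.mem_insert_of_mem (Finset.mem_image_of_mem _ hjT))
  rcases stab_triple hk256 hk3 hjk with ⟨a, ha, haj, rfl⟩ | ⟨q, hq, h2⟩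
  · obtain ⟨q, hq, hqi⟩ := stab_lines ha hm haj hj
    have hfin := hmove q hq T₀ hT₀'
    rw [← hkT, ← ofMask_img, hqi, ofMask_erase j m hm hj] at hfin
    have e : (qpts m).erase (some j) = ((ofMask m).erase j).image some :=
      (Finset.image_erase (Option.some_injective _) _ _).symm
    rw [e]
    exact hfin
  · exfalso
    rw [weight_eq_card, ofMask_and, ofMask_img, hkT] at h2
    exact hinter _ _ hT₀' (hmove q hq T₀ hT₀') h2

theorem qat_exchange {y : G} (hy : IsBase ι y) {p x : Option (Fin 8)} {Q : Finset (Option (Fin 8))}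
    (hQ : QAt ι y p Q) (hx : x ∈ Q) : QAt ι y x (insert p (Q.erase x)) := by
  cases p with
  | none =>
    obtain ⟨m, hm, rfl⟩ := (h.qat_none hy Q).1 hQ
    cases x with
    | none => exact absurd hx (none_notMem_qpts m)
    | some j => exact h.qat_exchange_none hy hm (mem_qpts.1 hx)
  | some i =>
    obtain ⟨g, y', π, hy', hπ, hmap⟩ := h.transport hy i
    obtain ⟨m, hm, rfl⟩ := (h.qat_point hy' hmap hπ Q).1 hQ
    obtain ⟨x', hx', rfl⟩ := Finset.mem_image.1 hx
    cases x' with
    | none => exact absurd hx' (none_notMem_qpts m)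
    | some j =>
      have := qat_map π.bijective hmap (h.qat_exchange_none hy' hm (mem_qpts.1 hx'))
      rwa [Finset.image_insert, hπ, Finset.image_erase π.injective] at this

theorem no_base {y : G} (hy : IsBase ι y) : False := by
  classical
  let S : Finset (Option (Fin 8) × Finset (Option (Fin 8))) := Finset.univ.filter fun x => QAt ι y x.1 x.2
  have h14 : ∀ p, (S.filter fun x => x.1 = p).card = 14 := by
    intro p
    obtain ⟨g, y', π, hy', hπ, hmap⟩ : ∃ (g y' : G) (π : Option (Fin 8) ≃ Option (Fin 8)), IsBase ι y' ∧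
        π none = p ∧ ∀ a, g * pt ι y' a * g⁻¹ = pt ι y (π a) := by
      cases p with
      | none => exact ⟨1, y, Equiv.refl _, hy, rfl, fun a => by simp⟩
      | some i => exact h.transport hy i
    have e : (S.filter fun x => x.1 = p) = quadMasks.toFinset.image fun m => (p, (qpts m).image π) := by
      ext ⟨a, Q⟩
      simp only [S, Finset.mem_filter, Finset.mem_univ, true_and, Finset.mem_image, List.mem_toFinset,
        Prod.mk.injEq]
      constructor
      · rintro ⟨hQ, rfl⟩
        obtain ⟨m, hm, e⟩ := (h.qat_point hy' hmap hπ Q).1 hQ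
        exact ⟨m, hm, rfl, e.symm⟩
      · rintro ⟨m, hm, rfl, rfl⟩
        exact ⟨(h.qat_point hy' hmap hπ _).2 ⟨m, hm, rfl⟩, rfl⟩
    rw [e, Finset.card_image_of_injOn, List.toFinset_card_of_nodup quad_nodup.1, quad_nodup.2]
    intro a ha b hb e'
    simp only [Prod.mk.injEq, true_and] at e'
    exact quad_inj a (List.mem_toFinset.1 ha) b (List.mem_toFinset.1 hb)
      (Finset.image_injective (Option.some_injective _) (Finset.image_injective π.injective e'))
  have hS : S.card = 126 := by
    rw [Finset.card_eq_sum_card_fiberwise (f := Prod.fst) (t := Finset.univ) (fun x _ => Finset.mem_univ x.1)]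
    simp [h14]
  let F : Finset (Finset (Option (Fin 8))) := S.image fun x => insert x.1 x.2
  have h5 : ∀ B ∈ F, (S.filter fun x => insert x.1 x.2 = B).card = 5 := by
    intro B hB
    obtain ⟨⟨p, Q⟩, hx, rfl⟩ := Finset.mem_image.1 hB
    simp only [S, Finset.mem_filter, Finset.mem_univ, true_and] at hx
    have e : (S.filter fun x => insert x.1 x.2 = insert p Q) =
        (insert p Q).image fun a => (a, (insert p Q).erase a) := by
      ext ⟨a, R⟩
      simp only [S, Finset.mem_filter, Finset.mem_univ, true_and, Finset.mem_image, Prod.mk.injEq]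
      constructor
      · rintro ⟨hR, hins⟩
        exact ⟨a, hins ▸ Finset.mem_insert_self _ _, rfl, by rw [← hins, Finset.erase_insert hR.1]⟩
      · rintro ⟨b, hb, rfl, rfl⟩
        refine ⟨?_, Finset.insert_erase hb⟩
        rcases Finset.mem_insert.1 hb with rfl | hb'
        · rw [Finset.erase_insert hx.1]; exact hx
        · rw [Finset.erase_insert_of_ne (fun e : p = b => hx.1 (e ▸ hb'))]
          exact h.qat_exchange hy hx hb'
    rw [e, Finset.card_image_of_injective _ (fun a b e' => (Prod.mk.injEq _ _ _ _ ▸ e').1),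
      Finset.card_insert_of_notMem hx.1, hx.2.1]
  have hsum : S.card = ∑ B ∈ F, (S.filter fun x => insert x.1 x.2 = B).card :=
    Finset.card_eq_sum_card_fiberwise fun x hx => Finset.mem_image_of_mem _ hx
  rw [hS, Finset.sum_congr rfl h5, Finset.sum_const, smul_eq_mul] at hsum
  omega

/-- The central involution is isolated. -/
theorem isolated : Cfsg.IsIsolated (zG ι) := by
  intro g hg
  by_contra hne
  obtain ⟨y, hy⟩ := h.exists_base ⟨g, rfl⟩ hne hg.eq.symm
  exact h.no_base hy

end Setup

end CfsgLib.StdO8
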