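import Cfsg.Agent.StdO8.Invol
import Cfsg.Agent.AutOrth.PlusOutFinal

/-!
Double covers of `Ω⁺₈(2)` are isomorphic to the even subgroup of the Coxeter group of type `E₈`,
whose automorphisms are conjugations by elements of that group.
-/

set_option autoImplicit false
set_option maxRecDepth 8000

open scoped commutatorElement

namespace CfsgLib.StdO8

open CfsgLib.O8Mult

universe u

section general

variable {Δ : Type*} [Group Δ] {τ : Δ →* G8}

theorem commutator_eq_central {a b a' b' : Δ} (ha : ∀ x, x * (a'⁻¹ * a) = a'⁻¹ * a * x)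
    (hb : ∀ x, x * (b'⁻¹ * b) = b'⁻¹ * b * x) : ⁅a, b⁆ = ⁅a', b'⁆ := by
  have key : ∀ p q u v : Δ, (∀ x, x * u = u * x) → (∀ x, x * v = v * x) → ⁅p * u, q * v⁆ = ⁅p, q⁆ := by
    intro p q u v cu cv
    simp only [commutatorElement_def, mul_inv_rev]
    calc p * u * (q * v) * (u⁻¹ * p⁻¹) * (v⁻¹ * q⁻¹)
        = p * (u * q) * (v * (u⁻¹ * p⁻¹)) * (v⁻¹ * q⁻¹) := by group
      _ = p * (q * u) * ((u⁻¹ * p⁻¹) * v) * (v⁻¹ * q⁻¹) := by rw [cu, cv]
      _ = p * q * p⁻¹ * q⁻¹ := by group
  have := key a' b' _ _ ha hb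
  rwa [mul_inv_cancel_left, mul_inv_cancel_left] at this

theorem perfect_of_stem (hτ : Cfsg.IsStemExtension τ) : commutator Δ = ⊤ := by
  refine eq_top_iff.2 fun d _ => ?_
  have hmap : (commutator Δ).map τ = ⊤ := by
    rw [commutator_def, Subgroup.map_commutator, ← MonoidHom.range_eq_map, MonoidHom.range_eq_top.2 hτ.1,
      ← commutator_def, commutator_G8]
  obtain ⟨c, hc, e⟩ : τ d ∈ (commutator Δ).map τ := hmap ▸ Subgroup.mem_top _
  have : c⁻¹ * d ∈ τ.ker := by rw [MonoidHom.mem_ker, map_mul, map_inv, e, inv_mul_cancel]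
  simpa using mul_mem hc (hτ.2.2 this)

theorem surjective_of_stem (hτ : Cfsg.IsStemExtension τ) {P : Type*} [Group P] {h : P →* Δ}
    (hs : Function.Surjective (τ.comp h)) : Function.Surjective h := by
  refine MonoidHom.range_eq_top.1 (eq_top_iff.2 ?_)
  rw [← perfect_of_stem hτ, commutator_def, Subgroup.commutator_le]
  intro a _ b _
  obtain ⟨p, hp⟩ := hs (τ a)
  obtain ⟨q, hq⟩ := hs (τ b)
  have hc : ∀ (x : Δ) (y : P), τ (h y) = τ x → ∀ z, z * ((h y)⁻¹ * x) = (h y)⁻¹ * x * z := fun x y e z =>
    Subgroup.mem_center_iff.1 (hτ.2.1 (by rw [MonoidHom.mem_ker, map_mul, map_inv, e, inv_mul_cancel])) z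
  rw [commutator_eq_central (hc a p hp) (hc b q hq), ← map_commutatorElement]
  exact ⟨_, rfl⟩

end general

theorem fst_stem : Cfsg.IsStemExtension fstMap :=
  ⟨fst_surjective, fun _ hx => Subgroup.mem_center_iff.2 (ker_two fst_surjective hx).2,
    by rw [commutator_Wp]; exact le_top⟩

theorem snd_stem : Cfsg.IsStemExtension sndMap :=
  ⟨snd_surjective, fun _ hx => Subgroup.mem_center_iff.2 (ker_two snd_surjective hx).2,
    by rw [commutator_Wp]; exact le_top⟩

/-- Homomorphisms agreeing modulo the centre agree. -/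
theorem hom_ext_fst {f g : Wp →* Wp} (h : ∀ x, fstMap (f x) = fstMap (g x)) : f = g := by
  refine MonoidHom.ext fun x => ?_
  let F : Subgroup Wp := f.eqLocus g
  suffices H : (⊤ : Subgroup Wp) ≤ F from H (Subgroup.mem_top x)
  rw [← commutator_Wp, commutator_def, Subgroup.commutator_le]
  intro a _ b _
  show f ⁅a, b⁆ = g ⁅a, b⁆
  rw [map_commutatorElement, map_commutatorElement]
  have hc : ∀ a, ∀ z, z * ((g a)⁻¹ * f a) = (g a)⁻¹ * f a * z := fun a =>
    (ker_two fst_surjective (by rw [MonoidHom.mem_ker, map_mul, map_inv, h, inv_mul_cancel])).2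
  exact commutator_eq_central (hc a) (hc b)

theorem finite_G8 : Finite G8 := Nat.finite_of_card_ne_zero (by rw [card_G8]; norm_num)

theorem center_G8 : Subgroup.center G8 = ⊥ := Subgroup.eq_bot_of_card_eq _ card_center_G8

theorem ker_eq_fst {f : Wp →* G8} (hf : Function.Surjective f) : f.ker = fstMap.ker := by
  have h : f.ker ≤ fstMap.ker := by
    rcases normal_Wp (MonoidHom.normal_ker f) with h | h
    · exact h
    · exfalso
      have := card_ker hf
      rw [h, Subgroup.card_top, card_Wp] at this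
      omega
  refine Subgroup.eq_of_le_of_card_ge h ?_
  rw [card_ker hf, card_ker fst_surjective]

/-- Two maps onto the simple group differ by an automorphism. -/
theorem exists_aut {f g : Wp →* G8} (hf : Function.Surjective f) (hg : Function.Surjective g) :
    ∃ α : MulAut G8, ∀ x, α (f x) = g x := by
  refine ⟨(QuotientGroup.quotientKerEquivOfSurjective f hf).symm.trans
    ((QuotientGroup.quotientMulEquivOfEq ((ker_eq_fst hf).trans (ker_eq_fst hg).symm)).trans
      (QuotientGroup.quotientKerEquivOfSurjective g hg)), fun x => ?_⟩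
  have e : (QuotientGroup.quotientKerEquivOfSurjective f hf).symm (f x) = QuotientGroup.mk x := by
    rw [MulEquiv.symm_apply_eq]; rfl
  simp only [MulEquiv.trans_apply, e]
  rfl

theorem normal_Wp' : Wp.Normal := MonoidHom.normal_ker sgn

attribute [local instance] normal_Wp'

/-- Conjugation by an element of the whole group. -/
noncomputable def cW : W →* MulAut Wp := MulAut.conjNormal

theorem cW_apply (w : W) (x : Wp) : ((cW w x : Wp) : W) = w * x * w⁻¹ := rfl

/-- The simple reflection used for parity. -/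
noncomputable def s7 : W := cs.simple 7

theorem s7_sq : s7 * s7 = 1 := cs.simple_mul_simple_self 7

theorem exists_sigma : ∃ σ : MulAut G8, ∀ x, σ (fstMap x) = fstMap (cW s7 x) :=
  exists_aut fst_surjective (g := fstMap.comp (cW s7).toMonoidHom)
    (fst_surjective.comp (cW s7).surjective)

/-- The outer automorphism fixing the first cover. -/
noncomputable def sigma : MulAut G8 := exists_sigma.choose

theorem sigma_fst (x : Wp) : sigma (fstMap x) = fstMap (cW s7 x) := exists_sigma.choose_spec x

theorem sigma_sigma (g : G8) : sigma (sigma g) = g := by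
  obtain ⟨x, rfl⟩ := fst_surjective g
  rw [sigma_fst, sigma_fst, ← MulAut.mul_apply, ← map_mul, s7_sq, map_one]
  rfl

/-- A word in the generators with powers. -/
def twistSeq : List (Fin 7) := (List.replicate 6 [3, 0, 1, 2, 6, 3, 5, 2, 4]).flatten

/-- Substitution of the second tuple. -/
def substR (L : List (Fin 7)) : List (Fin 7) := L.flatMap wordR

/-- The effect of the parity reflection on a word. -/
def conjSeq (L : List (Fin 7)) : List (Fin 7) := L.flatMap fun i => if i = 6 then [6, 6] else [i]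

theorem fst_prod (L : List (Fin 7)) : fstMap (L.map gR).prod = (L.map R).prod := hom_prod evenRels_R L

theorem snd_subst (L : List (Fin 7)) : sndMap ((substR L).map gR).prod = (L.map R).prod := by
  induction L with
  | nil => simp [substR]
  | cons i L ih =>
    rw [substR, List.flatMap_cons, List.map_append, List.prod_append, map_mul, hom_prod evenRels_P, prod_P,
      ← substR, ih, List.map_cons, List.prod_cons]

theorem cW_gR : ∀ i : Fin 7, cW s7 (gR i) = ((if i = 6 then [6, 6] else [i]).map gR).prod := by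
  have h : ∀ i : Fin 7, ∀ j : Fin 8, act [7, 7, i.castSucc, 7] (fv j) =
      act ((if i = 6 then [6, 6] else [i]).flatMap fun k : Fin 7 => [7, k.castSucc]) (fv j) := by decide +kernel
  intro i
  refine Subtype.ext (rep_injective (rep_ext_fv fun j => ?_))
  rw [cW_apply, gR_coe]
  have e1 : s7 * (cs.simple (Fin.last 7) * cs.simple i.castSucc) * s7⁻¹ = wd [7, 7, i.castSucc, 7] := by
    rw [s7, cs.inv_simple]
    simp [wd, mul_assoc]
  have e2 : ∀ L : List (Fin 7), (((L.map gR).prod : Wp) : W) = wd (L.flatMap fun k => [7, k.castSucc]) := by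
    intro L
    induction L with
    | nil => simp [wd]
    | cons k L ih => rw [List.map_cons, List.prod_cons, Subgroup.coe_mul, ih, gR_coe, List.flatMap_cons, wd_append]; simp [wd]
  rw [e1, e2, rep_wd, rep_wd, h i j]

theorem cW_prod (L : List (Fin 7)) : cW s7 (L.map gR).prod = ((conjSeq L).map gR).prod := by
  induction L with
  | nil => simp [conjSeq]
  | cons i L ih =>
    rw [List.map_cons, List.prod_cons, map_mul, cW_gR, ih]
    simp [conjSeq]

/-- The action of a word in the generators. -/
def actR (L : List (Fin 7)) (u : Vec) : Vec := L.foldr (fun i x => sI 7 (sI i.castSucc x)) u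

theorem rep_prodR (L : List (Fin 7)) (u : Vec) : rep (((L.map gR).prod : Wp) : W) u = actR L u := by
  induction L with
  | nil => simp [actR]
  | cons i L ih =>
    rw [List.map_cons, List.prod_cons, Subgroup.coe_mul, rep_mul_apply, ih, gR_coe, rep_mul_apply, rep_simple,
      rep_simple]
    rfl

theorem twist_check :
    ((List.finRange 8).all fun j =>
      decide (actR (substR twistSeq) (actR (substR twistSeq) (fv j)) = fv j)) = true ∧
    decide (actR (substR (conjSeq twistSeq)) (actR (substR (conjSeq twistSeq)) (fv 0)) = fv 0) = false := by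
  decide +kernel

/-- The element whose two lifts behave differently. -/
noncomputable def twistV : Wp := ((substR twistSeq).map gR).prod

/-- Its partner. -/
noncomputable def twistV' : Wp := ((substR (conjSeq twistSeq)).map gR).prod

theorem twistV_sq : twistV * twistV = 1 := Subtype.ext (rep_injective (rep_ext_fv fun j => by
  have h := twist_check.1
  simp only [List.all_eq_true, List.mem_finRange, decide_eq_true_eq, forall_const] at h
  rw [Subgroup.coe_mul, rep_mul_apply, twistV, rep_prodR, rep_prodR, h j, Subgroup.coe_one, map_one]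
  rfl))

theorem twistV'_sq : twistV' * twistV' ≠ 1 := fun e => by
  have h := of_decide_eq_false twist_check.2
  refine h ?_
  rw [← rep_prodR, ← rep_prodR, ← rep_mul_apply, ← Subgroup.coe_mul]
  rw [show ((substR (conjSeq twistSeq)).map gR).prod * ((substR (conjSeq twistSeq)).map gR).prod = 1 from e]
  simp

theorem sigma_twist : sigma (sndMap twistV) = sndMap twistV' := by
  rw [twistV, twistV', snd_subst, snd_subst, ← fst_prod, ← fst_prod, sigma_fst, cW_prod]

/-- A lift of the first generator along the second map. -/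
noncomputable def liftV : Wp := ((wordR 0).map gR).prod

theorem liftV_sq : liftV * liftV ≠ 1 := by
  rw [liftV, ← List.prod_append, ← List.map_append]
  exact prod_ne_one 0 (by decide +kernel)

theorem snd_liftV : sndMap liftV = fstMap (gR 0) := by
  rw [liftV, hom_prod evenRels_P, prod_P]
  exact (evenRels_R.hom_gR 0).symm

theorem sigma_R0 : sigma (fstMap (gR 0)) = fstMap (gR 0) := by
  rw [sigma_fst, cW_gR, if_neg (by decide), List.map_singleton, List.prod_singleton]

theorem sq_of_snd {a b : Wp} (ha : a * a = 1) (h : sndMap a = sndMap b) : b * b = 1 := by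
  have hk : a⁻¹ * b ∈ sndMap.ker := by rw [MonoidHom.mem_ker, map_mul, map_inv, h, inv_mul_cancel]
  obtain ⟨h2, hc⟩ := ker_two snd_surjective hk
  calc b * b = a * (a⁻¹ * b) * (a * (a⁻¹ * b)) := by group
    _ = a * a * ((a⁻¹ * b) * (a⁻¹ * b)) := by rw [mul_assoc a, ← mul_assoc (a⁻¹ * b), ← hc a]; group
    _ = 1 := by rw [ha, h2, one_mul]

theorem commutator_fib : commutator fib = ⊤ := perfect_of_stem isStem_cover

theorem card_fib : Nat.card fib = 4 * 174182400 := by
  rw [← Subgroup.card_mul_index cover.ker, Subgroup.index_ker, MonoidHom.range_eq_top.2 cover_surjective,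
    Subgroup.card_top, card_G8, Nat.card_congr kerEquiv.toEquiv, Nat.card_prod, card_ker fst_surjective,
    card_ker snd_surjective]

/-- The fibre product covers every stem extension. -/
theorem exists_factor {Δ : Type u} [Group Δ] [Finite Δ] {τ : Δ →* G8} (hτ : Cfsg.IsStemExtension τ) :
    ∃ β : fib →* Δ, Function.Surjective β ∧ τ.comp β = cover := by
  have := finite_G8
  have : Finite fib := Nat.finite_of_card_ne_zero (by rw [card_fib]; norm_num)
  let E : Subgroup (Δ × fib) :=
    MonoidHom.eqLocus (τ.comp (MonoidHom.fst _ _)) (cover.comp (MonoidHom.snd _ _))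
  let π : commutator E →* G8 := ((cover.comp (MonoidHom.snd _ _)).comp E.subtype).comp (commutator E).subtype
  let pl : commutator E →* Δ := ((MonoidHom.fst _ _).comp E.subtype).comp (commutator E).subtype
  let pr : commutator E →* fib := ((MonoidHom.snd _ _).comp E.subtype).comp (commutator E).subtype
  have hE : Function.Surjective ((cover.comp (MonoidHom.snd _ _)).comp E.subtype) := fun g => by
    obtain ⟨a, ha⟩ := hτ.1 g
    obtain ⟨b, hb⟩ := cover_surjective g
    exact ⟨⟨(a, b), ha.trans hb.symm⟩, hb⟩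
  have hEc : ∀ e : E, ((cover.comp (MonoidHom.snd _ _)).comp E.subtype) e = 1 →
      ∀ x, x * e = e * x := fun e he x => by
    have he2 : τ (e : Δ × fib).1 = 1 := (show τ (e : Δ × fib).1 = cover (e : Δ × fib).2 from e.2).trans he
    exact Subtype.ext (Prod.ext (Subgroup.mem_center_iff.1 (hτ.2.1 he2) _)
      (Subgroup.mem_center_iff.1 (isStem_cover.2.1 he) _))
  have hmap : (commutator E).map ((cover.comp (MonoidHom.snd _ _)).comp E.subtype) = ⊤ := by
    rw [commutator_def, Subgroup.map_commutator, ← MonoidHom.range_eq_map, MonoidHom.range_eq_top.2 hE,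
      ← commutator_def, commutator_G8]
  have hπ : Function.Surjective π := fun g => by
    obtain ⟨c, hc, e⟩ := (hmap ▸ Subgroup.mem_top g : g ∈ (commutator E).map _)
    exact ⟨⟨c, hc⟩, e⟩
  have hPperf : commutator (commutator E) = ⊤ := by
    have h1 : commutator E ≤ (commutator (commutator E)).map (commutator E).subtype := by
      conv_lhs => rw [commutator_def, Subgroup.commutator_def]
      rw [Subgroup.closure_le]
      rintro _ ⟨a, -, b, -, rfl⟩
      obtain ⟨p, hp⟩ := hπ (((cover.comp (MonoidHom.snd _ _)).comp E.subtype) a)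
      obtain ⟨q, hq⟩ := hπ (((cover.comp (MonoidHom.snd _ _)).comp E.subtype) b)
      have key : ⁅a, b⁆ = ⁅(p : E), (q : E)⁆ := commutator_eq_central
        (hEc _ (by rw [map_mul, map_inv]; exact inv_mul_eq_one.2 hp))
        (hEc _ (by rw [map_mul, map_inv]; exact inv_mul_eq_one.2 hq))
      rw [key]
      exact ⟨⁅p, q⁆, Subgroup.commutator_mem_commutator (Subgroup.mem_top _) (Subgroup.mem_top _),
        map_commutatorElement _ _ _⟩
    refine eq_top_iff.2 fun x _ => ?_
    obtain ⟨y, hy, e⟩ := h1 x.2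
    rwa [Subtype.ext e] at hy
  have hstem : Cfsg.IsStemExtension π :=
    ⟨hπ, fun x hx => Subgroup.mem_center_iff.2 fun y => Subtype.ext (hEc _ hx _),
      by rw [hPperf]; exact le_top⟩
  have h4 := card_ker_le_four hstem commutator_G8 card_G8 evenRels_R closure_R
  have hle : Nat.card (commutator E) ≤ Nat.card fib := by
    rw [card_fib, ← Subgroup.card_mul_index π.ker, Subgroup.index_ker, MonoidHom.range_eq_top.2 hπ,
      Subgroup.card_top, card_G8]
    exact Nat.mul_le_mul_right _ h4
  have hpr : Function.Surjective pr := surjective_of_stem isStem_cover hπ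
  have hbij : Function.Bijective pr := by
    exact (Nat.bijective_iff_surjective_and_card pr).2
      ⟨hpr, le_antisymm hle (Nat.card_le_card_of_surjective _ hpr)⟩
  have hpl : Function.Surjective pl := surjective_of_stem hτ (by
    intro g
    obtain ⟨x, hx⟩ := hπ g
    exact ⟨x, (x.1.2 : τ _ = cover _).trans hx⟩)
  refine ⟨pl.comp (MulEquiv.ofBijective pr hbij).symm.toMonoidHom,
    hpl.comp (MulEquiv.ofBijective pr hbij).symm.surjective, MonoidHom.ext fun x => ?_⟩
  obtain ⟨y, rfl⟩ := hpr x
  show τ (pl ((MulEquiv.ofBijective pr hbij).symm (MulEquiv.ofBijective pr hbij y))) = _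
  rw [MulEquiv.symm_apply_apply]
  exact y.1.2

theorem iso_of_ker_eq {Δ : Type*} [Group Δ] {β : fib →* Δ} (hβ : Function.Surjective β)
    {f : fib →* Wp} (hf : Function.Surjective f) (h : β.ker = f.ker) : ∃ θ : Δ ≃* Wp, ∀ x, θ (β x) = f x := by
  refine ⟨(QuotientGroup.quotientKerEquivOfSurjective β hβ).symm.trans
    ((QuotientGroup.quotientMulEquivOfEq h).trans (QuotientGroup.quotientKerEquivOfSurjective f hf)), fun x => ?_⟩
  have e : (QuotientGroup.quotientKerEquivOfSurjective β hβ).symm (β x) = QuotientGroup.mk x := by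
    rw [MulEquiv.symm_apply_eq]; rfl
  simp only [MulEquiv.trans_apply, e]
  rfl

/-- The first projection. -/
noncomputable def projOne : fib →* Wp := (MonoidHom.fst _ _).comp fib.subtype

/-- The second projection. -/
noncomputable def projTwo : fib →* Wp := (MonoidHom.snd _ _).comp fib.subtype

theorem fst_projOne (x : fib) : fstMap (projOne x) = cover x := rfl

theorem snd_projTwo (x : fib) : sndMap (projTwo x) = cover x := (x.2 : fstMap _ = sndMap _).symm

theorem projOne_surjective : Function.Surjective projOne :=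
  surjective_of_stem fst_stem (fun g => cover_surjective g)

theorem projTwo_surjective : Function.Surjective projTwo :=
  surjective_of_stem snd_stem (fun g => (cover_surjective g).imp fun x hx => (snd_projTwo x).trans hx)

theorem card_ker_of_surj {Δ : Type*} [Group Δ] [Finite Δ] {β : fib →* Δ} (hβ : Function.Surjective β)
    (hc : Nat.card Δ = 2 * 174182400) : Nat.card β.ker = 2 := by
  have := Subgroup.card_mul_index β.ker
  rw [Subgroup.index_ker, MonoidHom.range_eq_top.2 hβ, Subgroup.card_top, hc, card_fib] at this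
  omega

theorem exists_other {K : Subgroup fib} (h : Nat.card K = 2) : ∃ k ∈ K, k ≠ 1 ∧ ∀ x ∈ K, x = 1 ∨ x = k := by
  obtain ⟨a, b, hne, hab⟩ := Nat.card_eq_two_iff.1 h
  obtain ⟨k, hk1, hk⟩ : ∃ k : K, k ≠ 1 ∧ ∀ x : K, x = 1 ∨ x = k := by
    have hall : ∀ x : K, x = a ∨ x = b := fun x => by simpa using hab.ge (Set.mem_univ x)
    rcases hall 1 with e | e
    · exact ⟨b, fun e' => hne (e.symm.trans e'.symm), fun x => e ▸ hall x⟩
    · exact ⟨a, fun e' => hne (e'.trans e), fun x => (e ▸ hall x).symm⟩
  refine ⟨k, k.2, fun e => hk1 (Subtype.ext e), fun x hx => ?_⟩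
  rcases hk ⟨x, hx⟩ with e | e
  · exact Or.inl (congrArg Subtype.val e)
  · exact Or.inr (congrArg Subtype.val e)

/-- Every double cover is isomorphic to the even subgroup of the Coxeter group. -/
theorem iso_of_double_cover {Δ : Type u} [Group Δ] [Finite Δ] {τ : Δ →* G8}
    (hτ : Cfsg.IsStemExtension τ) (hk : Nat.card τ.ker = 2) : Nonempty (Δ ≃* Wp) := by
  have : Finite fib := Nat.finite_of_card_ne_zero (by rw [card_fib]; norm_num)
  obtain ⟨β, hβ, eβ⟩ := exists_factor hτ
  let τ' : Wp →* G8 := sigma.toMonoidHom.comp sndMap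
  have hτ' : Cfsg.IsStemExtension τ' :=
    ⟨sigma.surjective.comp snd_surjective, fun x hx => snd_stem.2.1 (by
      rw [MonoidHom.mem_ker] at hx ⊢
      exact sigma.injective (hx.trans (map_one sigma).symm)), by rw [commutator_Wp]; exact le_top⟩
  obtain ⟨γ, hγ, eγ⟩ := exists_factor hτ'
  have hcard : Nat.card Δ = 2 * 174182400 := by
    rw [← Subgroup.card_mul_index τ.ker, hk, Subgroup.index_ker, MonoidHom.range_eq_top.2 hτ.1,
      Subgroup.card_top, card_G8]
  have hle : ∀ {Δ' : Type u} [Group Δ'] {b : fib →* Δ'} {t : Δ' →* G8}, t.comp b = cover → b.ker ≤ cover.ker :=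
    fun {Δ'} _ {b t} e x hx => by rw [MonoidHom.mem_ker, ← e, MonoidHom.comp_apply, hx, map_one]
  have hl1 : projOne.ker ≤ cover.ker := fun x hx => by rw [MonoidHom.mem_ker, ← fst_projOne, hx, map_one]
  have hl2 : projTwo.ker ≤ cover.ker := fun x hx => by rw [MonoidHom.mem_ker, ← snd_projTwo, hx, map_one]
  have hl3 : γ.ker ≤ cover.ker := fun x hx => by rw [MonoidHom.mem_ker, ← eγ, MonoidHom.comp_apply, hx, map_one]
  have n12 : projOne.ker ≠ projTwo.ker := fun e => by
    obtain ⟨θ, hθ⟩ := iso_of_ker_eq projOne_surjective projTwo_surjective e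
    have key : ∀ u, sndMap (θ u) = fstMap u := fun u => by
      obtain ⟨x, rfl⟩ := projOne_surjective u
      rw [hθ, snd_projTwo, fst_projOne]
    exact liftV_sq (sq_of_snd (a := θ (gR 0)) (by rw [← map_mul, gR_zero_sq, map_one])
      ((key _).trans snd_liftV.symm))
  have n13 : projOne.ker ≠ γ.ker := fun e => by
    obtain ⟨θ, hθ⟩ := iso_of_ker_eq projOne_surjective hγ e
    have key : ∀ u, sigma (sndMap (θ u)) = fstMap u := fun u => by
      obtain ⟨x, rfl⟩ := projOne_surjective u
      rw [hθ, fst_projOne]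
      exact DFunLike.congr_fun eγ x
    refine liftV_sq (sq_of_snd (a := θ (gR 0)) (by rw [← map_mul, gR_zero_sq, map_one]) ?_)
    rw [snd_liftV]
    exact sigma.injective ((key _).trans sigma_R0.symm)
  have n23 : projTwo.ker ≠ γ.ker := fun e => by
    obtain ⟨θ, hθ⟩ := iso_of_ker_eq projTwo_surjective hγ e
    have key : ∀ u, sigma (sndMap (θ u)) = sndMap u := fun u => by
      obtain ⟨x, rfl⟩ := projTwo_surjective u
      rw [hθ, snd_projTwo]
      exact DFunLike.congr_fun eγ x
    refine twistV'_sq (sq_of_snd (a := θ twistV) (by rw [← map_mul, twistV_sq, map_one]) ?_)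
    apply sigma.injective
    rw [key, ← sigma_twist, sigma_sigma]
  have hlβ : β.ker ≤ cover.ker := fun x hx => by rw [MonoidHom.mem_ker, ← eβ, MonoidHom.comp_apply, hx, map_one]
  obtain ⟨k1, m1, ne1, a1⟩ := exists_other (card_ker_of_surj projOne_surjective (by rw [card_Wp]))
  obtain ⟨k2, m2, ne2, a2⟩ := exists_other (card_ker_of_surj projTwo_surjective (by rw [card_Wp]))
  obtain ⟨k3, m3, ne3, a3⟩ := exists_other (card_ker_of_surj hγ (by rw [card_Wp]))
  obtain ⟨k, m, ne, a⟩ := exists_other (card_ker_of_surj hβ hcard)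
  have eq_of : ∀ {A B : Subgroup fib} {p q : fib}, p ∈ A → q ∈ B → (∀ x ∈ A, x = 1 ∨ x = p) →
      (∀ x ∈ B, x = 1 ∨ x = q) → p = q → A = B := by
    intro A B p q hp hq ha hb e
    subst e
    exact le_antisymm (fun x hx => (ha x hx).elim (fun h => h ▸ one_mem _) fun h => h ▸ hq)
      fun x hx => (hb x hx).elim (fun h => h ▸ one_mem _) fun h => h ▸ hp
  have h4 : Nat.card cover.ker = 4 := by
    rw [Nat.card_congr kerEquiv.toEquiv, Nat.card_prod, card_ker fst_surjective, card_ker snd_surjective]
  have hk4 : k = k1 ∨ k = k2 ∨ k = k3 := by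
    by_contra hne
    classical
    have := Fintype.ofFinite fib
    push Not at hne
    have hs : ({1, k1, k2, k3, k} : Finset fib).card = 5 := by
      rw [Finset.card_insert_of_notMem, Finset.card_insert_of_notMem, Finset.card_insert_of_notMem,
        Finset.card_insert_of_notMem, Finset.card_singleton] <;>
        simp only [Finset.mem_insert, Finset.mem_singleton, not_or]
      · exact hne.2.2.symm
      · exact ⟨fun e => n23 (eq_of m2 m3 a2 a3 e), hne.2.1.symm⟩
      · exact ⟨fun e => n12 (eq_of m1 m2 a1 a2 e), fun e => n13 (eq_of m1 m3 a1 a3 e), hne.1.symm⟩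
      · exact ⟨ne1.symm, ne2.symm, ne3.symm, ne.symm⟩
    have hsub : ({1, k1, k2, k3, k} : Finset fib) ⊆ Finset.univ.filter (· ∈ cover.ker) := by
      intro x hx
      simp only [Finset.mem_insert, Finset.mem_singleton] at hx
      rw [Finset.mem_filter]
      refine ⟨Finset.mem_univ _, ?_⟩
      rcases hx with rfl | rfl | rfl | rfl | rfl
      exacts [one_mem _, hl1 m1, hl2 m2, hl3 m3, hlβ m]
    have := Finset.card_le_card hsub
    rw [hs, ← Fintype.card_subtype, ← Nat.card_eq_fintype_card, h4] at this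
    omega
  rcases hk4 with e | e | e
  · obtain ⟨θ, -⟩ := iso_of_ker_eq hβ projOne_surjective (eq_of m m1 a a1 e); exact ⟨θ⟩
  · obtain ⟨θ, -⟩ := iso_of_ker_eq hβ projTwo_surjective (eq_of m m2 a a2 e); exact ⟨θ⟩
  · obtain ⟨θ, -⟩ := iso_of_ker_eq hβ hγ (eq_of m m3 a a3 e); exact ⟨θ⟩

theorem zW_mem_center : zW ∈ Subgroup.center Wp :=
  Subgroup.mem_center_iff.2 fun x => Subtype.ext (zW_comm x).symm

/-- The centraliser of the even subgroup. -/
theorem cent_Wp {x : W} (h : ∀ a : Wp, x * a = (a : W) * x) : x = 1 ∨ x = (zW : W) := by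
  have hd : IsDiag x := by
    intro i
    have hcr : ∀ l, l ≠ i → crd (rep x (fv i)) l = 0 := by
      intro l hl
      obtain ⟨m, hmi, hml⟩ := (show ∀ i l : Fin 8, ∃ m, m ≠ i ∧ m ≠ l by decide) i l
      have hs : sgn (fr i * fr m) = 1 := by
        rw [map_mul, (isRefl_fr i).sgn_eq, (isRefl_fr m).sgn_eq]; rfl
      have e := h ⟨fr i * fr m, hs⟩
      have e1 := congrArg (fun w => rep w (fv i)) e
      simp only [rep_mul_apply, rep_fr, if_neg hmi, ↓reduceIte, rep_smul] at e1
      have e2 : rep (fr i * fr m) (fv l) = fv l := by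
        rw [rep_mul_apply, rep_fr, if_neg hml, rep_fr, if_neg hl.symm]
      have hc : crd (Vec.smul (-1) (rep x (fv i))) l = crd (rep x (fv i)) l := by
        rw [e1, ← rep_mul_apply (fr i) (fr m)]
        show bil (rep (fr i * fr m) (rep x (fv i))) (fv l) = bil (rep x (fv i)) (fv l)
        conv_lhs => rw [← e2, bil_rep]
      simp only [crd, bil_smul_left] at hc ⊢
      omega
    set c := crd (rep x (fv i)) i with hcdef
    have hc : comb (crd (rep x (fv i))) fv = Vec.smul c (fv i) := by
      have hfun : crd (rep x (fv i)) = fun l => if l = i then c else 0 := funext fun l => by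
        split_ifs with hl
        · rw [hl]
        · exact hcr l hl
      rw [hfun]
      fin_cases i <;> simp [comb, Vec.smul, Vec.add]
    rw [comb_crd] at hc
    have hn : bil (fv i) (fv i) = 2 := by rw [bil_fv, if_pos rfl]
    rcases eq_or_neg ((bil_rep x _ _).trans hn) hn hc with e | e
    · exact ⟨false, e⟩
    · exact ⟨true, e⟩
  obtain ⟨n, hn, rfl⟩ := hd.exists_mask
  have key : ∀ n < 256, (∀ k : Fin 7, k.1 < 3 → smulD (dD n) (genD k) = smulD (genD k) (dD n)) →
      n = 0 ∨ n = 255 := by decide +kernel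
  rcases key n hn (fun k _ => (Mono.eq_iff ((mono_dW n).mul (mono_gen k)) ((mono_gen k).mul (mono_dW n))).1
    (h ⟨genW k, sgn_gen k⟩)) with rfl | rfl
  · exact Or.inl dW_zero
  · exact Or.inr zW_eq.symm

/-- The inner automorphisms. -/
noncomputable def innG8 : Subgroup (MulAut G8) := (MulAut.conj : G8 →* MulAut G8).range

/-- `Ω⁺₈(2)` is its own projective group. -/
noncomputable def pomegaG8 : Cfsg.POmega (ZMod 2) Q2 ≃* G8 :=
  (QuotientGroup.quotientMulEquivOfEq center_G8).trans QuotientGroup.quotientBot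

theorem card_mulAut_G8 : Nat.card (MulAut G8) = 6 * Nat.card G8 := by
  have : Fact (Nat.Prime 2) := ⟨Nat.prime_two⟩
  rw [Nat.card_congr (MulAut.congr pomegaG8.symm).toEquiv,
    AutOrth.Plus.card_mulAut (p := 2) (f := 1) le_rfl (by rw [ZMod.card, pow_one]) le_rfl,
    Nat.card_congr pomegaG8.toEquiv]
  norm_num

theorem card_innG8 : Nat.card innG8 = Nat.card G8 := by
  refine (Nat.card_congr (MonoidHom.ofInjective (f := (MulAut.conj : G8 →* MulAut G8)) ?_).toEquiv).symm
  rw [injective_iff_map_eq_one]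
  intro g hg
  refine Subgroup.mem_bot.1 (center_G8 ▸ Subgroup.mem_center_iff.2 fun h => ?_)
  have := DFunLike.congr_fun hg h
  rw [MulAut.conj_apply, MulAut.one_apply, mul_inv_eq_iff_eq_mul] at this
  exact this.symm

/-- The automorphisms fixing the first cover. -/
noncomputable def stabFst : Subgroup (MulAut G8) where
  carrier := {α | ∃ θ : MulAut Wp, ∀ x, α (fstMap x) = fstMap (θ x)}
  one_mem' := ⟨1, fun _ => rfl⟩
  mul_mem' := by
    rintro α β ⟨θ, hθ⟩ ⟨η, hη⟩
    exact ⟨θ * η, fun x => by rw [MulAut.mul_apply, hη, hθ]; rfl⟩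
  inv_mem' := by
    rintro α ⟨θ, hθ⟩
    refine ⟨θ⁻¹, fun x => α.injective ?_⟩
    rw [hθ, MulAut.apply_inv_self, MulAut.apply_inv_self]

theorem inn_le_stab : innG8 ≤ stabFst := by
  rintro _ ⟨g, rfl⟩
  obtain ⟨a, rfl⟩ := fst_surjective g
  exact ⟨MulAut.conj a, fun x => by simp [MulAut.conj_apply]⟩

theorem sigma_mem : sigma ∈ stabFst := ⟨cW s7, sigma_fst⟩

theorem sigma_notMem : sigma ∉ innG8 := by
  rintro ⟨g, hg⟩
  obtain ⟨a, rfl⟩ := fst_surjective g
  have e : (MulAut.conj a).toMonoidHom = (cW s7).toMonoidHom := hom_ext_fst fun x => by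
    show fstMap (MulAut.conj a x) = fstMap (cW s7 x)
    rw [← sigma_fst, ← hg]
    simp [MulAut.conj_apply]
  have hc : ∀ b : Wp, ((a : W)⁻¹ * s7) * b = b * ((a : W)⁻¹ * s7) := fun b => by
    have := congrArg Subtype.val (DFunLike.congr_fun e b)
    simp only [MulEquiv.coe_toMonoidHom, MulAut.conj_apply, cW_apply, Subgroup.coe_mul, Subgroup.coe_inv] at this
    calc (a : W)⁻¹ * s7 * b = (a : W)⁻¹ * (s7 * b * s7⁻¹) * s7 := by group
      _ = (a : W)⁻¹ * ((a : W) * b * (a : W)⁻¹) * s7 := by rw [this]
      _ = b * ((a : W)⁻¹ * s7) := by group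
  have hsgn : sgn ((a : W)⁻¹ * s7) = -1 := by
    rw [map_mul, map_inv, show sgn (a : W) = 1 from a.2, s7, sgn_simple, inv_one, one_mul]
  rcases cent_Wp hc with h | h
  · rw [h, map_one] at hsgn; exact absurd hsgn (by decide)
  · rw [h, show sgn (zW : W) = 1 from zW.2] at hsgn; exact absurd hsgn (by decide)

theorem stab_ne_top : stabFst ≠ ⊤ := by
  intro h
  obtain ⟨α, hα⟩ := exists_aut fst_surjective snd_surjective
  obtain ⟨θ, hθ⟩ : α ∈ stabFst := h ▸ Subgroup.mem_top α
  refine liftV_sq ?_
  have key : fstMap (θ liftV) = α (fstMap liftV) := (hθ _).symm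
  rw [hα, snd_liftV] at key
  have hk : (θ liftV)⁻¹ * gR 0 ∈ fstMap.ker := by rw [MonoidHom.mem_ker, map_mul, map_inv, key, inv_mul_cancel]
  obtain ⟨h2, hc⟩ := ker_two fst_surjective hk
  refine θ.injective ?_
  rw [map_mul, map_one]
  set k := (θ liftV)⁻¹ * gR 0
  have e : θ liftV = gR 0 * k := by
    calc θ liftV = θ liftV * (k * k) := by rw [h2, mul_one]
      _ = θ liftV * k * k := (mul_assoc _ _ _).symm
      _ = gR 0 * k := by simp [k]
  calc θ liftV * θ liftV = gR 0 * (k * gR 0) * k := by rw [e]; group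
    _ = gR 0 * gR 0 * (k * k) := by rw [← hc]; group
    _ = 1 := by rw [gR_zero_sq, h2, one_mul]

theorem stab_cases {α : MulAut G8} (hα : α ∈ stabFst) : α ∈ innG8 ∨ sigma * α ∈ innG8 := by
  have : innG8.Normal := ⟨by
    rintro _ ⟨g, rfl⟩ φ
    exact ⟨φ g, by ext x; simp [MulAut.conj_apply]⟩⟩
  have hi : innG8.index = 6 := by
    have := innG8.card_mul_index
    rw [card_innG8, card_mulAut_G8, mul_comm 6] at this
    exact Nat.eq_of_mul_eq_mul_left (by rw [card_G8]; norm_num) this
  have hm := Subgroup.relIndex_mul_index inn_le_stab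
  rw [hi] at hm
  have hr6 : innG8.relIndex stabFst ≠ 6 := fun h => stab_ne_top (Subgroup.index_eq_one.1 (by rw [h] at hm; omega))
  have hsq : sigma * sigma = 1 := MulEquiv.ext fun g => sigma_sigma g
  have hodd : ¬ Odd (innG8.relIndex stabFst) := by
    rintro ⟨t, ht⟩
    have := Subgroup.pow_index_mem (innG8.subgroupOf stabFst) ⟨sigma, sigma_mem⟩
    rw [← Subgroup.relIndex, ht, Subgroup.mem_subgroupOf, SubmonoidClass.coe_pow, pow_succ, pow_mul,
      pow_two, hsq, one_pow, one_mul] at this
    exact sigma_notMem this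
  have hr : innG8.relIndex stabFst = 2 := by
    have hd : innG8.relIndex stabFst ∣ 6 := ⟨_, hm.symm⟩
    have : innG8.relIndex stabFst ∈ Nat.divisors 6 := Nat.mem_divisors.2 ⟨hd, by norm_num⟩
    rw [show Nat.divisors 6 = {1, 2, 3, 6} by decide] at this
    simp only [Finset.mem_insert, Finset.mem_singleton] at this
    rcases this with e | e | e | e
    · exact absurd (e ▸ ⟨0, rfl⟩) hodd
    · exact e
    · exact absurd (e ▸ ⟨1, rfl⟩) hodd
    · exact absurd e hr6
  have hr' : (innG8.subgroupOf stabFst).index = 2 := hr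
  by_cases h : α ∈ innG8
  · exact Or.inl h
  · refine Or.inr ?_
    have := (Subgroup.mul_mem_iff_of_index_two hr' (a := ⟨sigma, sigma_mem⟩) (b := ⟨α, hα⟩)).2
      (iff_of_false (fun h' => sigma_notMem h') (fun h' => h h'))
    exact this

/-- Automorphisms of the even subgroup are conjugations. -/
theorem aut_Wp (θ : MulAut Wp) : ∃ w : W, ∀ x : Wp, (θ x : W) = w * x * w⁻¹ := by
  obtain ⟨α, hα⟩ := exists_aut fst_surjective (g := fstMap.comp θ.toMonoidHom) (fst_surjective.comp θ.surjective)
  have fin : ∀ w : W, (∀ x, fstMap (cW w x) = fstMap (θ x)) → ∃ w : W, ∀ x : Wp, (θ x : W) = w * x * w⁻¹ := by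
    intro w hw
    refine ⟨w, fun x => ?_⟩
    have e : (cW w).toMonoidHom = θ.toMonoidHom := hom_ext_fst hw
    rw [← cW_apply]
    exact (congrArg Subtype.val (DFunLike.congr_fun e x)).symm
  rcases stab_cases ⟨θ, hα⟩ with ⟨g, hg⟩ | ⟨g, hg⟩
  · obtain ⟨a, rfl⟩ := fst_surjective g
    refine fin (a : W) fun x => ?_
    have e : cW (a : W) x = MulAut.conj a x := Subtype.ext rfl
    rw [e, show fstMap (θ x) = α (fstMap x) from (hα x).symm, ← hg]
    simp [MulAut.conj_apply]
  · obtain ⟨a, rfl⟩ := fst_surjective g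
    refine fin (s7 * (a : W)) fun x => ?_
    have e : cW (a : W) x = MulAut.conj a x := Subtype.ext rfl
    rw [map_mul, MulAut.mul_apply, ← sigma_fst, e]
    have e2 : fstMap (MulAut.conj a x) = sigma (α (fstMap x)) := by
      rw [← MulAut.mul_apply, ← hg]
      simp [MulAut.conj_apply]
    rw [e2, sigma_sigma, hα]
    rfl

end CfsgLib.StdO8
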