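import Cfsg.Agent.StdO8.TraceData

/-!
No homomorphism of the diagonal double commutators sends an involution of weight four or six to minus one.
-/

set_option autoImplicit false
set_option maxRecDepth 8000

namespace CfsgLib.StdO8

open CfsgLib.O8Mult (W cs Wp sgn)

/-- The word of a diagonal element. -/
def dWord (n : ℕ) : List (Fin 8) :=
  (List.finRange 8).flatMap fun j => if n.testBit j.1 then fWord j else []

theorem dW_eq_wd (n : ℕ) : dW n = wd (dWord n) := by
  rw [dW, dWord]
  induction (List.finRange 8) with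
  | nil => rfl
  | cons j l ih =>
    rw [List.map_cons, List.prod_cons, ih, List.flatMap_cons, wd_append]
    cases n.testBit j.1 <;> simp [fr, wd]

theorem mat_trace_word (w : List (Fin 8)) :
    (mat (wd w)).trace = ((List.finRange 8).map fun i => (act w (ev i)).get i).sum := by
  rw [Matrix.trace, Fin.sum_univ_def]
  simp [mat, rep_wd]
  rfl

theorem trace_conj (v x : W) : (mat (v * x * v⁻¹)).trace = (mat x).trace := by
  rw [mat_mul, Matrix.trace_mul_comm, ← mat_mul, ← mul_assoc, inv_mul_cancel, one_mul]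

theorem trace_reps : ∀ p ∈ [(3, (4 : ℤ)), (15, 0), (23, 0), (252, -4), (0, 8), (255, -8)],
    ((List.finRange 8).map fun i => (act (dWord p.1) (ev i)).get i).sum = p.2 := by decide +kernel

theorem trace_dW {r : ℕ} {c : ℤ} (h : (r, c) ∈ [(3, (4 : ℤ)), (15, 0), (23, 0), (252, -4), (0, 8), (255, -8)]) :
    (mat (dW r)).trace = c := by rw [dW_eq_wd, mat_trace_word]; exact trace_reps _ h

theorem trace_invol {x : W} (h2 : x * x = 1) (hs : sgn x = 1) (h1 : x ≠ 1) (hz : x ≠ (zW : W)) :
    (mat x).trace = 4 ∨ (mat x).trace = 0 ∨ (mat x).trace = -4 ∧ ∃ v, v * x * v⁻¹ = dW 252 := by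
  rcases invol_class h2 with h | h | ⟨v, r, hr, e⟩
  · exact absurd h h1
  · exact absurd h hz
  have key : ∀ r ∈ repMasks, weight r % 2 = 0 → r = 3 ∨ r = 15 ∨ r = 23 ∨ r = 252 := by decide +kernel
  have hev : weight r % 2 = 0 := by
    have hv : sgn (dW r) = 1 := by rw [← e, map_mul, map_mul, map_inv, mul_right_comm, mul_inv_cancel, one_mul, hs]
    rcases Nat.even_or_odd (weight r) with h | h
    · exact Nat.even_iff.1 h
    · rw [sgn_dW, Odd.neg_one_pow h] at hv
      exact absurd hv (by decide)
  have ht : (mat x).trace = (mat (dW r)).trace := by rw [← e, trace_conj]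
  rcases key r hr hev with rfl | rfl | rfl | rfl
  · exact Or.inl (ht.trans (trace_dW (by simp)))
  · exact Or.inr (Or.inl (ht.trans (trace_dW (by simp))))
  · exact Or.inr (Or.inl (ht.trans (trace_dW (by simp))))
  · exact Or.inr (Or.inr ⟨ht.trans (trace_dW (by simp)), v, e⟩)

/-- The values listed in the search. -/
def growVals (steps : List Step) : List (List ℤ) :=
  steps.filterMap fun s => match s with
    | .grow v => some v
    | .test _ _ => none

/-- The check of the tables for an involution. -/
def tableB (S P : ℕ) (masks : List ℕ) (steps : List Step) (O : List (ℕ × ℕ × List (Fin 7))) (reps : List ℕ) :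
    Bool :=
  refute steps [] && stepsB masks steps 0 && masks.contains S && masks.contains 0 &&
    (masks.all fun m => masks.all fun m' => masks.contains (m ^^^ m')) &&
    (masks.all fun m => decide (m < 256)) &&
    (steps.all fun s => match s with
      | .grow _ => true
      | .test B _ => B.all fun b => O.any fun o => o.1 == b.1 && o.2.1 == b.2) &&
    (O.all fun o => masks.contains o.1 && masks.contains (reps.getD o.2.1 0) &&
      smulD (seqD o.2.2) (dD (reps.getD o.2.1 0)) == smulD (dD o.1) (seqD o.2.2) &&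
      smulD (seqD o.2.2) (dD S) == smulD (dD S) (seqD o.2.2)) &&
    ((List.range (growVals steps).length).all fun k =>
      let r := reps.getD k 0
      let vs := (growVals steps).getD k []
      masks.contains r && bif r == 0 then vs.contains 8 else bif r == S then vs.contains (-8)
        else vs.contains 4 && vs.contains 0 && (r == P || vs.contains (-4)))

theorem obstruct {S P : ℕ} {masks : List ℕ} {steps : List Step} {O : List (ℕ × ℕ × List (Fin 7))}
    {reps : List ℕ} (hchk : tableB S P masks steps O reps = true) (f : ℕ → W)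
    (hmul : ∀ a ∈ masks, ∀ b ∈ masks, f (a ^^^ b) = f a * f b) (hinj : ∀ a ∈ masks, f a = 1 → a = 0)
    (hS : f S = (zW : W)) (hsgn : ∀ a ∈ masks, sgn (f a) = 1)
    (horb : ∀ u : W, sgn u = 1 → u * dW S = dW S * u → ∀ m ∈ masks, ∀ m' ∈ masks,
      u * dW m * u⁻¹ = dW m' → ∃ v, v * f m * v⁻¹ = f m')
    (hP : ∀ v, v * f P * v⁻¹ ≠ dW 252) : False := by
  simp only [tableB, Bool.and_eq_true, List.all_eq_true, List.contains_iff_mem, decide_eq_true_eq,
    List.mem_range, beq_iff_eq] at hchk
  obtain ⟨⟨⟨⟨⟨⟨⟨⟨href, hst⟩, hSm⟩, h0⟩, hcl⟩, h256⟩, hB⟩, hO⟩, hv⟩ := hchk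
  let T : ℕ → ℤ := fun i => (mat (f (reps.getD i 0))).trace
  have hf0 : f 0 = 1 := by
    have := hmul 0 h0 0 h0
    rw [Nat.xor_self] at this
    exact mul_eq_left.1 this.symm
  have hTb : ∀ B cs, Step.test B cs ∈ steps → ∀ b ∈ B, T b.2 = (mat (f b.1)).trace := by
    intro B cs hmem b hb
    have := hB _ hmem
    simp only [List.all_eq_true, List.any_eq_true, Bool.and_eq_true, beq_iff_eq] at this
    obtain ⟨o, ho, e1, e2⟩ := this b hb
    obtain ⟨⟨⟨hm, hr⟩, hq⟩, hqS⟩ := hO o ho
    rw [e1] at hm hq
    rw [e2] at hr hq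
    have c1 := ((mono_seq o.2.2).mul (mono_dW _)).eq (hq ▸ (mono_dW b.1).mul (mono_seq o.2.2))
    have c2 := ((mono_seq o.2.2).mul (mono_dW S)).eq (hqS ▸ (mono_dW S).mul (mono_seq o.2.2))
    obtain ⟨v, hv⟩ := horb (seqW o.2.2) (sgn_seq _) c2 _ hr _ hm (by rw [c1, mul_inv_cancel_right])
    show (mat (f (reps.getD b.2 0))).trace = _
    rw [← hv, trace_conj]
  have hvals : ∀ k vs, (growVals steps)[k]? = some vs → T (0 + k) ∈ vs := by
    intro k vs hk
    obtain ⟨hk', he⟩ := List.getElem?_eq_some_iff.1 hk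
    obtain ⟨hr, hcase⟩ := hv k hk'
    rw [List.getD_eq_getElem _ _ hk', he] at hcase
    rw [Nat.zero_add]
    show (mat (f (reps.getD k 0))).trace ∈ vs
    generalize reps.getD k 0 = r at hr hcase ⊢
    by_cases hr0 : r = 0
    · subst hr0
      rw [beq_self_eq_true, cond_true, List.contains_iff_mem] at hcase
      rwa [hf0, ← dW_zero, trace_dW (c := 8) (by simp)]
    rw [beq_false_of_ne hr0, cond_false] at hcase
    by_cases hrS : r = S
    · subst hrS
      rw [beq_self_eq_true, cond_true, List.contains_iff_mem] at hcase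
      rwa [hS, zW_eq, trace_dW (c := -8) (by simp)]
    rw [beq_false_of_ne hrS, cond_false, Bool.and_eq_true, Bool.and_eq_true, List.contains_iff_mem,
      List.contains_iff_mem, Bool.or_eq_true, beq_iff_eq, List.contains_iff_mem] at hcase
    have hne : f r ≠ (zW : W) := fun h => hrS (by
      have e : f (r ^^^ S) = 1 := by rw [hmul r hr S hSm, h, hS, zW_eq, dW_sq]
      have := hinj _ (hcl r hr S hSm) e
      simpa [Nat.xor_assoc] using congrArg (· ^^^ S) this)
    rcases trace_invol (by rw [← hmul r hr r hr, Nat.xor_self, hf0]) (hsgn r hr) (fun h => hr0 (hinj r hr h)) hne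
      with h | h | ⟨h, v, hv'⟩ <;> rw [h]
    · exact hcase.1.1
    · exact hcase.1.2
    · rcases hcase.2 with rfl | h'
      · exact absurd hv' (hP v)
      · exact h'
  have := refute_sound T steps 0 (holds_of_hom f masks T hmul steps 0 hst hTb hvals)
  rw [List.range_zero, List.map_nil, href] at this
  exact Bool.noConfusion this

theorem tableFourQ : tableB 15 0 (spanMasks pullFourQ) chainFourQ orbitFourQ repsFourQ = true := by decide +kernel

theorem tableFourN : tableB 23 43 (spanMasks pullFourN) chainFourN orbitFourN repsFourN = true := by decide +kernel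

theorem tableSix : tableB 252 0 (spanMasks pullSix) chainSix orbitSix repsSix = true := by decide +kernel

theorem conj_43_23 : ∃ v : W, sgn v = 1 ∧ v * dW 23 * v⁻¹ = dW 43 := by
  have h : ∃ q ∈ normSeq, smulD (seqD q) (dD 23) = smulD (dD 43) (seqD q) ∨
      smulD (seqD q) (dD 43) = smulD (dD 23) (seqD q) := by decide +kernel
  obtain ⟨q, -, h | h⟩ := h
  · refine ⟨seqW q, sgn_seq q, ?_⟩
    rw [((mono_seq q).mul (mono_dW 23)).eq (h ▸ (mono_dW 43).mul (mono_seq q)), mul_inv_cancel_right]
  · refine ⟨(seqW q)⁻¹, by rw [map_inv, sgn_seq, inv_one], ?_⟩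
    have e := ((mono_seq q).mul (mono_dW 43)).eq (h ▸ (mono_dW 23).mul (mono_seq q))
    rw [inv_inv, mul_assoc, ← e, ← mul_assoc, inv_mul_cancel, one_mul]

end CfsgLib.StdO8
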