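import Cfsg.Agent.StdO8.Setup
import Cfsg.Agent.StdO8.Trace

/-!
The conjugates of the central involution in its centraliser: inner ones of weight two, outer ones
acting as reflections.
-/

set_option autoImplicit false
set_option maxRecDepth 8000

namespace CfsgLib.StdO8

open CfsgLib.O8Mult (W cs Wp sgn sgn_simple)

theorem dW_inj {a b : ℕ} (ha : a < 256) (hb : b < 256) (h : dW a = dW b) : a = b := by
  have e := (Mono.eq_iff (mono_dW a) (mono_dW b)).1 h
  refine Nat.eq_of_testBit_eq fun i => ?_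
  by_cases hi : i < 8
  · have := congrArg (fun d => (img d ⟨i, hi⟩).2) e
    simpa [img_dD] using this
  · have hp : 256 ≤ 2 ^ i := by
      calc 256 = 2 ^ 8 := by norm_num
        _ ≤ _ := Nat.pow_le_pow_right (by norm_num) (by omega)
    rw [Nat.testBit_lt_two_pow (ha.trans_le hp), Nat.testBit_lt_two_pow (hb.trans_le hp)]

theorem dW_comm (a b : ℕ) : dW a * dW b = dW b * dW a := by rw [dW_mul, dW_mul, Nat.xor_comm]

theorem sgn_dW_even {m : ℕ} (h : weight m % 2 = 0) : sgn (dW m) = 1 := by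
  rw [sgn_dW, Even.neg_one_pow (Nat.even_iff.2 h)]

theorem sgn_dW_odd {m : ℕ} (h : weight m % 2 = 1) : sgn (dW m) = -1 := by
  rw [sgn_dW, Odd.neg_one_pow (Nat.odd_iff.2 h)]

theorem sgn_fr (j : Fin 8) : sgn (fr j) = -1 := (isRefl_fr j).sgn_eq

/-- The conjugating element can be taken even. -/
theorem even_conjugator {l : W} {r : ℕ} {v : W} (e : v * l * v⁻¹ = dW r) :
    ∃ v', sgn v' = 1 ∧ v' * l * v'⁻¹ = dW r := by
  by_cases hv : sgn v = 1
  · exact ⟨v, hv, e⟩
  · refine ⟨fr 0 * v, by rw [map_mul, sgn_fr, sgn_eq_neg hv]; rfl, ?_⟩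
    calc fr 0 * v * l * (fr 0 * v)⁻¹ = fr 0 * (v * l * v⁻¹) * (fr 0)⁻¹ := by group
      _ = dW r := by rw [e, fr_eq, dW_comm, mul_inv_cancel_right]

theorem mask_class : ∀ m < 256, weight m = 1 ∨ weight m = 2 ∨ weight m = 3 →
    ∃ q ∈ normSeq, smulD (seqD q) (dD m) = smulD (dD (2 ^ weight m - 1)) (seqD q) := by decide +kernel

theorem mask_conj {m : ℕ} (hm : m < 256) (h : weight m = 1 ∨ weight m = 2 ∨ weight m = 3) :
    ∃ v, sgn v = 1 ∧ v * dW m * v⁻¹ = dW (2 ^ weight m - 1) := by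
  obtain ⟨q, -, hq⟩ := mask_class m hm h
  refine ⟨seqW q, sgn_seq q, ?_⟩
  rw [((mono_seq q).mul (mono_dW m)).eq (hq ▸ (mono_dW _).mul (mono_seq q)), mul_inv_cancel_right]

theorem two_mul_z {l : Wp} {v : W} (hv : v * (l : W) * v⁻¹ = dW 3) :
    ((zW * l : Wp) : W) ∈ Pull (l : W) ∧ v * ((zW * l : Wp) : W) * v⁻¹ = dW 252 := by
  have e2 : v * ((zW * l : Wp) : W) * v⁻¹ = dW 252 := by
    rw [Subgroup.coe_mul]
    calc v * ((zW : W) * l) * v⁻¹ = v * (zW : W) * v⁻¹ * (v * l * v⁻¹) := by group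
      _ = dW 252 := by rw [zW_conj, hv, zW_eq, dW_mul]; rfl
  refine ⟨?_, e2⟩
  have := Pull.conj pullTwo_mem v⁻¹
  rw [← hv, ← e2, inv_inv] at this
  convert this using 2 <;> group

variable {G : Type*} [Group G]

/-- An even element inside the subgroup. -/
noncomputable def jw (ι : Wp →* G) (w : W) : G := ι (toWp w)

theorem jw_mul (ι : Wp →* G) {a b : W} (ha : sgn a = 1) (hb : sgn b = 1) : jw ι (a * b) = jw ι a * jw ι b := by
  rw [jw, toWp_mul ha hb, map_mul]; rfl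

theorem jw_coe (ι : Wp →* G) (x : Wp) : jw ι (x : W) = ι x := by rw [jw, toWp_coe]

theorem jw_zW (ι : Wp →* G) : jw ι (zW : W) = zG ι := jw_coe ι zW

theorem jw_conj (ι : Wp →* G) (v : Wp) {a : W} (ha : sgn a = 1) :
    jw ι ((v : W) * a * (v : W)⁻¹) = ι v * jw ι a * (ι v)⁻¹ := by
  have e : toWp ((v : W) * a * (v : W)⁻¹) = v * toWp a * v⁻¹ := Subtype.ext (by
    rw [coe_toWp (by rw [sgn_conj, ha]), Subgroup.coe_mul, Subgroup.coe_mul, Subgroup.coe_inv, coe_toWp ha])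
  rw [jw, e, map_mul, map_mul, map_inv]
  rfl

/-- Some involution of weight two of the subgroup is a conjugate of the central involution. -/
def Two (ι : Wp →* G) : Prop := Conj ι (jw ι (dW 3))

/-- An outer element of the class of three commuting reflections. -/
def TType (ι : Wp →* G) (y : G) : Prop := ∃ w v, Act ι y w ∧ sgn v = 1 ∧ v * w * v⁻¹ = dW 7

/-- An outer element acting as a reflection. -/
def RType (ι : Wp →* G) (y : G) : Prop := ∃ w, Act ι y w ∧ IsRefl w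

namespace Setup

variable {L : Subgroup G} {ι : Wp →* G} (h : Setup L ι)
include h

theorem move {l : Wp} {v : W} {r : ℕ} (hc : Conj ι (ι l)) (e : v * l * v⁻¹ = dW r) :
    Conj ι (jw ι (dW r)) := by
  obtain ⟨v', hv', e'⟩ := even_conjugator e
  have hs : sgn (l : W) = 1 := l.2
  rw [← e', ← coe_toWp hv', jw_conj ι _ hs, jw_coe]
  exact conj_conj hc _

variable [Finite G]

theorem no_table {S P : ℕ} {masks : List ℕ} {steps : List Step} {O : List (ℕ × ℕ × List (Fin 7))}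
    {reps : List ℕ} (hchk : tableB S P masks steps O reps = true) (hS : weight S % 2 = 0)
    (hpull : ∀ m ∈ masks, dW m ∈ Pull (dW S))
    (hP : P ∈ masks)
    (hPconj : P = 0 ∨ (¬ Conj ι (jw ι (dW 252))) ∧ ∃ v, sgn v = 1 ∧ v * dW S * v⁻¹ = dW P) : ¬ Conj ι (jw ι (dW S)) := by
  intro hc
  obtain ⟨g, hg⟩ := hc
  have hact : Act ι (jw ι (dW S)) (dW S) := by
    have := act_iota ι (toWp (dW S))
    rwa [coe_toWp (sgn_dW_even hS)] at this
  have hp : ∀ m ∈ masks, sgn (dW m) = 1 ∧ ∃ u : Wp, ι u = g⁻¹ * jw ι (dW m) * g := fun m hm => by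
    obtain ⟨h1, h2⟩ := h.pull hg hact (hpull m hm)
    rw [← h.range] at h2
    exact ⟨h1, h2⟩
  classical
  let f : ℕ → W := fun m => if hm : m ∈ masks then ((hp m hm).2.choose : W) else 1
  have hf : ∀ m (hm : m ∈ masks), ∃ u : Wp, f m = (u : W) ∧ ι u = g⁻¹ * jw ι (dW m) * g := fun m hm =>
    ⟨_, dif_pos hm, (hp m hm).2.choose_spec⟩
  have hchk' := hchk
  simp only [tableB, Bool.and_eq_true, List.all_eq_true, List.contains_iff_mem, decide_eq_true_eq] at hchk'
  obtain ⟨⟨⟨⟨⟨⟨⟨-, hSm⟩, h0⟩, hcl⟩, h256⟩, -⟩, -⟩, -⟩ := hchk'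
  refine obstruct hchk f ?_ ?_ ?_ ?_ ?_ ?_
  · intro a ha b hb
    obtain ⟨u, eu, hu⟩ := hf a ha
    obtain ⟨v, ev, hv⟩ := hf b hb
    obtain ⟨x, ex, hx⟩ := hf _ (hcl a ha b hb)
    rw [eu, ev, ex, ← Subgroup.coe_mul]
    refine congrArg Subtype.val (h.inj ?_)
    rw [hx, map_mul, hu, hv, ← dW_mul, jw_mul ι (hp a ha).1 (hp b hb).1]
    group
  · intro a ha e
    obtain ⟨u, eu, hu⟩ := hf a ha
    rw [eu] at e
    rw [show u = 1 from Subtype.ext e, map_one] at hu
    have h1 : jw ι (dW a) = 1 := by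
      calc jw ι (dW a) = g * (g⁻¹ * jw ι (dW a) * g) * g⁻¹ := by group
        _ = 1 := by rw [← hu]; group
    have h2 : dW a = 1 := by
      have := congrArg Subtype.val (h.inj (h1.trans (map_one ι).symm))
      rwa [coe_toWp (hp a ha).1, Subgroup.coe_one] at this
    exact dW_inj (h256 a ha) (by norm_num) (h2.trans dW_zero.symm)
  · obtain ⟨u, eu, hu⟩ := hf S hSm
    rw [eu]
    refine congrArg Subtype.val (h.inj (a₁ := u) (a₂ := zW) ?_)
    rw [hu, ← hg]
    show g⁻¹ * (g * zG ι * g⁻¹) * g = zG ι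
    group
  · intro a ha
    obtain ⟨u, eu, -⟩ := hf a ha
    rw [eu]; exact u.2
  · intro u hu hcomm m hm m' hm' e
    have hact' := act_iota ι (toWp u)
    rw [coe_toWp hu] at hact'
    have h1 : jw ι u * jw ι (dW S) = jw ι (dW S) * jw ι u := by
      rw [← jw_mul ι hu (sgn_dW_even hS), hcomm, jw_mul ι (sgn_dW_even hS) hu]
    obtain ⟨v, hv⟩ := h.exists_act (n := g⁻¹ * jw ι u * g) (by
      calc g⁻¹ * jw ι u * g * zG ι = g⁻¹ * (jw ι u * (g * zG ι * g⁻¹)) * g := by group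
        _ = g⁻¹ * (g * zG ι * g⁻¹ * jw ι u) * g := by rw [hg, h1]
        _ = _ := by group)
    obtain ⟨a, ea, hau⟩ := hf m hm
    obtain ⟨a', ea', hau'⟩ := hf m' hm'
    refine ⟨v, ?_⟩
    rw [ea, ea', ← cW_apply]
    refine congrArg Subtype.val (h.inj ?_)
    have h2 := hv a
    rw [hau] at h2
    rw [hau', ← e, ← coe_toWp hu, jw_conj ι _ (hp m hm).1]
    calc ι (cW v a) = ι (cW v a) * (g⁻¹ * jw ι u * g) * (g⁻¹ * jw ι u * g)⁻¹ := by group
      _ = g⁻¹ * jw ι u * g * (g⁻¹ * jw ι (dW m) * g) * (g⁻¹ * jw ι u * g)⁻¹ := by rw [h2]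
      _ = _ := by rw [jw]; group
  · intro v
    obtain ⟨u, eu, hu⟩ := hf P hP
    rw [eu]
    rcases hPconj with h' | ⟨h252, x, hx, ex⟩
    · subst h'
      rw [dW_zero] at hu
      rw [jw, toWp_one, map_one, mul_one, inv_mul_cancel, ← map_one ι] at hu
      rw [h.inj hu, Subgroup.coe_one, mul_one, mul_inv_cancel, ← dW_zero]
      exact fun e => absurd (dW_inj (by norm_num) (by norm_num) e) (by norm_num)
    · intro e
      refine h252 (h.move (l := u) ?_ e)
      rw [hu, ← ex, ← coe_toWp hx, jw_conj ι _ (sgn_dW_even hS), ← hg]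
      exact ⟨g⁻¹ * ι (toWp x) * g, by group⟩

theorem not_conj_six : ¬ Conj ι (jw ι (dW 252)) :=
  h.no_table tableSix (by decide +kernel) pullSix_mem (by decide +kernel) (Or.inl rfl)

theorem not_conj_fourQ : ¬ Conj ι (jw ι (dW 15)) :=
  h.no_table tableFourQ (by decide +kernel) pullFourQ_mem (by decide +kernel) (Or.inl rfl)

theorem not_conj_fourN : ¬ Conj ι (jw ι (dW 23)) :=
  h.no_table tableFourN (by decide +kernel) pullFourN_mem (by decide +kernel) (Or.inr ⟨h.not_conj_six, conj_43_23⟩)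

omit [Finite G] in
theorem act_two {y : G} {w : W} (hw : Act ι y w) (h2 : y * y = 1) : w * w = 1 ∨ w * w = (zW : W) := by
  have h1 := hw.mul hw
  rw [h2] at h1
  rcases h.act_unique (act_one ι) h1 with e | e
  · exact Or.inl e
  · exact Or.inr (by rw [e, mul_one])

omit h [Finite G] in
theorem conj_sq {y : G} (hy : Conj ι y) : y * y = 1 := by
  obtain ⟨g, rfl⟩ := hy
  calc g * zG ι * g⁻¹ * (g * zG ι * g⁻¹) = g * (zG ι * zG ι) * g⁻¹ := by group
    _ = 1 := by
      rw [zG, ← map_mul, show zW * zW = (1 : Wp) from Subtype.ext zW_mul_zW, map_one]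
      group

theorem inner_cases {y : G} (hy : Conj ι y) (hne : y ≠ zG ι) {w : W} (hw : Act ι y w) (hs : sgn w = 1)
    (h2 : w * w = 1) : ∃ l : Wp, y = ι l ∧ ∃ v, sgn v = 1 ∧ v * (l : W) * v⁻¹ = dW 3 := by
  obtain ⟨l, rfl, hll, -⟩ := h.even_invol hw hs (conj_sq hy) h2
  refine ⟨l, rfl, ?_⟩
  rcases invol_class (show (l : W) * l = 1 by rw [← Subgroup.coe_mul, hll]; rfl) with e | e | ⟨v, r, hr, e⟩
  · exfalso
    rw [show l = 1 from Subtype.ext e, map_one] at hy
    obtain ⟨g, hg⟩ := hy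
    exact h.z_ne_one (conj_eq_one_iff.1 hg)
  · exact absurd (by rw [show l = zW from Subtype.ext e]; rfl) hne
  · obtain ⟨v', hv', e'⟩ := even_conjugator e
    refine ⟨v', hv', ?_⟩
    have hev : sgn (dW r) = 1 := by rw [← e', sgn_conj]; exact l.2
    have hm := h.move hy e
    simp only [repMasks, List.mem_cons, List.not_mem_nil, or_false] at hr
    have hodd : ∀ r, weight r % 2 = 1 → sgn (dW r) ≠ 1 := fun r hr' => by
      rw [sgn_dW_odd hr']; decide
    rcases hr with rfl | rfl | rfl | rfl | rfl | rfl | rfl | rfl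
    · exact e'
    · exact absurd hm h.not_conj_fourQ
    · exact absurd hm h.not_conj_fourN
    · exact absurd hm h.not_conj_six
    all_goals exact absurd hev (hodd _ (by decide +kernel))

omit [Finite G] in
theorem two_conj_mask {v : W} {l : Wp} (e : v * (l : W) * v⁻¹ = dW 3) (hT : Two ι) : Conj ι (ι l) := by
  obtain ⟨v', hv', e'⟩ := even_conjugator e
  have := conj_conj hT (ι (toWp v'))⁻¹
  rw [← e', ← coe_toWp hv', jw_conj ι _ l.2, jw_coe, inv_inv, toWp_coe] at this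
  convert this using 1
  group

/-- Elements acting with square minus one are not conjugates. -/
theorem sq_one {y : G} (hy : Conj ι y) (hne : y ≠ zG ι) {w : W} (hw : Act ι y w) : w * w = 1 := by
  refine (h.act_two hw (conj_sq hy)).resolve_right fun hz => ?_
  obtain ⟨g, hg⟩ := hy
  obtain ⟨-, hpull⟩ := h.pull hg hw (zW_mem_pull hz)
  rw [toWp_coe, ← h.range] at hpull
  obtain ⟨x, hx⟩ := hpull
  have hxz : ι x ≠ zG ι := fun e => hne (by
    rw [← hg]
    calc g * zG ι * g⁻¹ = g * (g⁻¹ * ι zW * g) * g⁻¹ := by rw [← hx, e]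
      _ = zG ι := by rw [zG]; group)
  have hcx : Conj ι (ι x) := ⟨g⁻¹, by rw [hx, inv_inv]; rfl⟩
  have hxx : (x : W) * x = 1 := by
    have := conj_sq hcx
    rw [← map_mul, ← map_one ι] at this
    exact congrArg Subtype.val (h.inj this)
  obtain ⟨l, el, v, hv, ev⟩ := h.inner_cases hcx hxz (act_iota ι x) x.2 hxx
  obtain rfl : x = l := h.inj el
  obtain ⟨hp, -⟩ := two_mul_z ev
  obtain ⟨-, h2⟩ := h.pull (g := g⁻¹) (y := ι x) (by rw [hx, inv_inv]; rfl) (act_iota ι x) hp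
  have hyL : g * zG ι * g⁻¹ ∈ L := by
    have e : (g⁻¹)⁻¹ * ι (toWp ((zW * x : Wp) : W)) * g⁻¹ = g * zG ι * g⁻¹ * zG ι := by
      rw [toWp_coe, map_mul, inv_inv, hx, show ι zW = zG ι from rfl]
      group
    rw [e] at h2
    simpa using mul_mem h2 (inv_mem (h.mem_L zW) : (zG ι)⁻¹ ∈ L)
  rw [hg, ← h.range] at hyL
  obtain ⟨l, rfl⟩ := hyL
  have hll : (l : W) * l = 1 := by
    have := conj_sq (ι := ι) ⟨g, hg⟩
    rw [← map_mul, ← map_one ι] at this
    exact congrArg Subtype.val (h.inj this)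
  rcases h.act_unique (act_iota ι l) hw with rfl | rfl
  · exact zW_ne_one (hz.symm.trans hll)
  · refine zW_ne_one ?_
    rw [← hz]
    calc (zW : W) * l * ((zW : W) * l) = (zW : W) * ((l : W) * (zW : W)) * l := by group
      _ = (zW : W) * (zW : W) * ((l : W) * l) := by rw [← zW_comm]; group
      _ = 1 := by rw [zW_mul_zW, hll, one_mul]

/-- The conjugates commuting with the central involution. -/
theorem classify {y : G} (hy : Conj ι y) (hne : y ≠ zG ι) (hc : y * zG ι = zG ι * y) :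
    (∃ l : Wp, y = ι l ∧ ∃ v, sgn v = 1 ∧ v * (l : W) * v⁻¹ = dW 3) ∨
      (∃ w, Act ι y w ∧ sgn w = -1 ∧ IsRefl w) ∨
      (TType ι y ∧ ∃ w, Act ι y w ∧ sgn w = -1) := by
  obtain ⟨w, hw⟩ := h.exists_act hc
  have h2 := h.sq_one hy hne hw
  by_cases hs : sgn w = 1
  · exact Or.inl (h.inner_cases hy hne hw hs h2)
  have hs' := sgn_eq_neg hs
  refine Or.inr ?_
  rcases invol_class h2 with e | e | ⟨v, r, hr, e⟩
  · exact absurd (by rw [e, map_one]) hs
  · exact absurd (by rw [e, sgn_zW]) hs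
  obtain ⟨v', hv', e'⟩ := even_conjugator e
  have hz : ∀ a, v' * ((zW : W) * w) * v'⁻¹ = dW (255 ^^^ a) ↔ dW r = dW a := fun a => by
    rw [show v' * ((zW : W) * w) * v'⁻¹ = v' * (zW : W) * v'⁻¹ * (v' * w * v'⁻¹) by group, zW_conj, e',
      zW_eq, ← dW_mul 255 a]
    exact mul_right_inj _
  have hr1 : ∀ u, Act ι y u → sgn u = -1 → v' * u * v'⁻¹ = dW 1 →
      ∃ w, Act ι y w ∧ sgn w = -1 ∧ IsRefl w := by
    intro u hu hus eu
    refine ⟨u, hu, hus, ?_⟩
    have : IsRefl (v'⁻¹ * fr 0 * v'⁻¹⁻¹) := (isRefl_fr 0).conj _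
    rw [fr_eq, show dW (2 ^ (0 : Fin 8).1) = v' * u * v'⁻¹ from eu.symm] at this
    convert this using 1
    group
  have hodd : sgn (dW r) = -1 := by rw [← e', sgn_conj, hs']
  simp only [repMasks, List.mem_cons, List.not_mem_nil, or_false] at hr
  have hev : ∀ r, weight r % 2 = 0 → sgn (dW r) ≠ -1 := fun r hr' => by
    rw [sgn_dW_even hr']; decide
  have hzs : sgn ((zW : W) * w) = -1 := by rw [map_mul, sgn_zW, one_mul, hs']
  rcases hr with rfl | rfl | rfl | rfl | rfl | rfl | rfl | rfl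
  iterate 4 exact absurd hodd (hev _ (by decide +kernel))
  · exact Or.inl (hr1 w hw hs' e')
  · exact Or.inr ⟨⟨w, v', hw, hv', e'⟩, w, hw, hs'⟩
  · exact Or.inl (hr1 _ hw.mul_z hzs ((hz 254).2 rfl))
  · exact Or.inr ⟨⟨_, v', hw.mul_z, hv', (hz 248).2 rfl⟩, w, hw, hs'⟩

/-- An inner pair. -/
theorem inner_at {g p q : G} (hp : g * zG ι * g⁻¹ = p) (hq : Conj ι q) (hc : q * p = p * q) (hne : q ≠ p)
    (ht : Th ι p q 1) : ∃ l : Wp, g⁻¹ * q * g = ι l ∧ ∃ v, sgn v = 1 ∧ v * (l : W) * v⁻¹ = dW 3 := by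
  obtain ⟨w, hw, hs⟩ := h.th_at hp ht
  have hcq : Conj ι (g⁻¹ * q * g) := by simpa using conj_conj hq g⁻¹
  have hne' : g⁻¹ * q * g ≠ zG ι := fun e => hne (by rw [← hp, ← e]; group)
  exact h.inner_cases hcq hne' hw hs (h.sq_one hcq hne' hw)

theorem inner_two {p q : G} (hp : Conj ι p) (hq : Conj ι q) (hc : q * p = p * q) (hne : q ≠ p)
    (ht : Th ι p q 1) : Two ι := by
  obtain ⟨g, hg⟩ := hp
  obtain ⟨l, el, v, -, ev⟩ := h.inner_at hg hq hc hne ht
  refine h.move ?_ ev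
  rw [← el]
  simpa using conj_conj hq g⁻¹

/-- The product of an inner pair is no conjugate. -/
theorem inner_mul {p q : G} (hp : Conj ι p) (hq : Conj ι q) (hc : q * p = p * q) (hne : q ≠ p)
    (ht : Th ι p q 1) : ¬ Conj ι (p * q) := by
  intro hpq
  obtain ⟨g, hg⟩ := hp
  obtain ⟨l, el, v, -, ev⟩ := h.inner_at hg hq hc hne ht
  obtain ⟨-, e2⟩ := two_mul_z ev
  refine h.not_conj_six (h.move (l := zW * l) ?_ e2)
  have e : ι (zW * l) = g⁻¹ * (p * q) * g := by
    rw [map_mul, ← el, ← hg]; show zG ι * _ = _; group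
  rw [e]
  simpa using conj_conj hpq g⁻¹

/-- Being an inner pair is symmetric. -/
theorem inner_symm {p q : G} (hp : Conj ι p) (hq : Conj ι q) (hc : q * p = p * q) (hne : q ≠ p)
    (ht : Th ι p q 1) : Th ι q p 1 := by
  obtain ⟨g, hg⟩ := hp
  obtain ⟨l, el, v, -, ev⟩ := h.inner_at hg hq hc hne ht
  obtain ⟨k, hk⟩ : Conj ι (ι l) := by rw [← el]; simpa using conj_conj hq g⁻¹
  obtain ⟨hp', -⟩ := two_mul_z ev
  obtain ⟨-, h2⟩ := h.pull hk (act_iota ι l) hp'
  have hm : k⁻¹ * zG ι * k ∈ L := by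
    have e : k⁻¹ * ι (toWp ((zW * l : Wp) : W)) * k = k⁻¹ * zG ι * k * zG ι := by
      rw [toWp_coe, map_mul, show ι zW = zG ι from rfl]
      conv_lhs => rw [← hk]
      group
    rw [e] at h2
    simpa using mul_mem h2 (inv_mem (h.mem_L zW) : (zG ι)⁻¹ ∈ L)
  rw [← h.range] at hm
  obtain ⟨x, hx⟩ := hm
  have h3 : Th ι (ι l) (zG ι) 1 := ⟨k, (x : W), hk, by rw [← hx]; exact act_iota ι x, x.2⟩
  have := th_conj h3 g
  rwa [← el, hg, show g * (g⁻¹ * q * g) * g⁻¹ = q by group] at this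

end Setup

end CfsgLib.StdO8
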