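import Cfsg.Agent.O8Mult.Cover
import Mathlib

/-!
The Coxeter group of type `E₈` on its root lattice: faithfulness, frames and signed permutations.
-/

set_option autoImplicit false
set_option maxRecDepth 8000

open scoped commutatorElement

namespace CfsgLib.StdO8

open CfsgLib.O8Mult (W cs Wp sgn sgn_simple gR G8 fstMap fst_surjective closure_gR card_ker)

/-- Vectors in the basis of simple roots. -/
structure Vec where
  a : ℤ
  b : ℤ
  c : ℤ
  d : ℤ
  e : ℤ
  f : ℤ
  g : ℤ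
  h : ℤ
deriving DecidableEq

/-- Addition. -/
def Vec.add (u v : Vec) : Vec :=
  ⟨u.a + v.a, u.b + v.b, u.c + v.c, u.d + v.d, u.e + v.e, u.f + v.f, u.g + v.g, u.h + v.h⟩

/-- Scalar multiplication. -/
def Vec.smul (n : ℤ) (u : Vec) : Vec :=
  ⟨n * u.a, n * u.b, n * u.c, n * u.d, n * u.e, n * u.f, n * u.g, n * u.h⟩

/-- A coordinate. -/
def Vec.get (u : Vec) : Fin 8 → ℤ
  | 0 => u.a | 1 => u.b | 2 => u.c | 3 => u.d | 4 => u.e | 5 => u.f | 6 => u.g | 7 => u.h

/-- The invariant form. -/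
def bil (u v : Vec) : ℤ :=
  u.a * (2 * v.a - v.c) + u.b * (2 * v.b - v.d) + u.c * (2 * v.c - v.a - v.d) +
    u.d * (2 * v.d - v.b - v.c - v.e) + u.e * (2 * v.e - v.d - v.f) + u.f * (2 * v.f - v.e - v.g) +
    u.g * (2 * v.g - v.f - v.h) + u.h * (2 * v.h - v.g)

/-- A simple reflection. -/
def sI (i : Fin 8) (u : Vec) : Vec :=
  match i.1 with
  | 0 => ⟨u.c - u.a, u.b, u.c, u.d, u.e, u.f, u.g, u.h⟩
  | 1 => ⟨u.a, u.d - u.b, u.c, u.d, u.e, u.f, u.g, u.h⟩
  | 2 => ⟨u.a, u.b, u.a + u.d - u.c, u.d, u.e, u.f, u.g, u.h⟩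
  | 3 => ⟨u.a, u.b, u.c, u.b + u.c + u.e - u.d, u.e, u.f, u.g, u.h⟩
  | 4 => ⟨u.a, u.b, u.c, u.d, u.d + u.f - u.e, u.f, u.g, u.h⟩
  | 5 => ⟨u.a, u.b, u.c, u.d, u.e, u.e + u.g - u.f, u.g, u.h⟩
  | 6 => ⟨u.a, u.b, u.c, u.d, u.e, u.f, u.f + u.h - u.g, u.h⟩
  | _ => ⟨u.a, u.b, u.c, u.d, u.e, u.f, u.g, u.g - u.h⟩

theorem sI_sI (i : Fin 8) (u : Vec) : sI i (sI i u) = u := by
  fin_cases i <;> simp [sI]

theorem sI_add (i : Fin 8) (u v : Vec) : sI i (u.add v) = (sI i u).add (sI i v) := by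
  fin_cases i <;> simp [sI, Vec.add] <;> ring

theorem sI_smul (i : Fin 8) (n : ℤ) (u : Vec) : sI i (Vec.smul n u) = Vec.smul n (sI i u) := by
  fin_cases i <;> simp [sI, Vec.smul] <;> ring

theorem bil_sI (i : Fin 8) (u v : Vec) : bil (sI i u) (sI i v) = bil u v := by
  fin_cases i <;> simp [sI, bil] <;> ring

/-- A simple reflection as a permutation. -/
def sPerm (i : Fin 8) : Equiv.Perm Vec := ⟨sI i, sI i, sI_sI i, sI_sI i⟩

theorem sPerm_liftable : CoxeterMatrix.E₈.IsLiftable sPerm := fun i j => by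
  refine Equiv.ext fun u => ?_
  rw [Equiv.Perm.coe_pow]
  show (fun u => sI i (sI j u))^[CoxeterMatrix.E₈ i j] u = u
  have hm : CoxeterMatrix.E₈ i j = CoxeterMatrix.E₈.M i j := rfl
  fin_cases i <;> fin_cases j <;> simp [sI, CoxeterMatrix.E₈] <;> (obtain ⟨a, b, c, d, e, f, g, h⟩ := u; simp) <;>
    ring_nf <;> simp

/-- The action on the lattice. -/
noncomputable def rep : W →* Equiv.Perm Vec := cs.lift ⟨sPerm, sPerm_liftable⟩

/-- The action of a word. -/
def act (w : List (Fin 8)) (u : Vec) : Vec := w.foldr sI u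

/-- The element of a word. -/
noncomputable def wd (w : List (Fin 8)) : W := (w.map cs.simple).prod

theorem rep_simple (i : Fin 8) (u : Vec) : rep (cs.simple i) u = sI i u := by
  rw [rep, cs.lift_apply_simple sPerm_liftable]; rfl

theorem rep_wd (w : List (Fin 8)) (u : Vec) : rep (wd w) u = act w u := by
  induction w with
  | nil => simp [wd, act]
  | cons i w ih =>
    rw [wd, List.map_cons, List.prod_cons, map_mul, Equiv.Perm.mul_apply, ← wd, ih, rep_simple]
    rfl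

theorem wd_append (v w : List (Fin 8)) : wd (v ++ w) = wd v * wd w := by simp [wd]

theorem sgn_wd (w : List (Fin 8)) : sgn (wd w) = (-1) ^ w.length := by
  induction w with
  | nil => simp [wd]
  | cons i w ih =>
    rw [wd, List.map_cons, List.prod_cons, map_mul, sgn_simple, ← wd, ih, List.length_cons, pow_succ']

theorem wd_inv (w : List (Fin 8)) : (wd w)⁻¹ = wd w.reverse := by
  induction w with
  | nil => simp [wd]
  | cons i w ih =>
    rw [List.reverse_cons, wd_append, ← ih, wd, List.map_cons, List.prod_cons, mul_inv_rev, cs.inv_simple]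
    simp [wd]

theorem rep_add (w : W) (u v : Vec) : rep w (u.add v) = (rep w u).add (rep w v) := by
  induction w using cs.simple_induction_left with
  | one => simp
  | mul_simple_left w i ih => simp only [map_mul, Equiv.Perm.mul_apply, ih, rep_simple, sI_add]

theorem rep_smul (w : W) (n : ℤ) (u : Vec) : rep w (Vec.smul n u) = Vec.smul n (rep w u) := by
  induction w using cs.simple_induction_left with
  | one => simp
  | mul_simple_left w i ih => simp only [map_mul, Equiv.Perm.mul_apply, ih, rep_simple, sI_smul]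

theorem bil_rep (w : W) (u v : Vec) : bil (rep w u) (rep w v) = bil u v := by
  induction w using cs.simple_induction_left with
  | one => simp
  | mul_simple_left w i ih => simp only [map_mul, Equiv.Perm.mul_apply, rep_simple, bil_sI, ih]

/-- The standard basis. -/
def ev : Fin 8 → Vec
  | 0 => ⟨1, 0, 0, 0, 0, 0, 0, 0⟩ | 1 => ⟨0, 1, 0, 0, 0, 0, 0, 0⟩ | 2 => ⟨0, 0, 1, 0, 0, 0, 0, 0⟩
  | 3 => ⟨0, 0, 0, 1, 0, 0, 0, 0⟩ | 4 => ⟨0, 0, 0, 0, 1, 0, 0, 0⟩ | 5 => ⟨0, 0, 0, 0, 0, 1, 0, 0⟩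
  | 6 => ⟨0, 0, 0, 0, 0, 0, 1, 0⟩ | 7 => ⟨0, 0, 0, 0, 0, 0, 0, 1⟩

/-- A sum over eight positions. -/
def comb (n : Fin 8 → ℤ) (x : Fin 8 → Vec) : Vec :=
  (((((((Vec.smul (n 0) (x 0)).add (Vec.smul (n 1) (x 1))).add (Vec.smul (n 2) (x 2))).add
    (Vec.smul (n 3) (x 3))).add (Vec.smul (n 4) (x 4))).add (Vec.smul (n 5) (x 5))).add
    (Vec.smul (n 6) (x 6))).add (Vec.smul (n 7) (x 7))

theorem rep_comb (w : W) (n : Fin 8 → ℤ) (x : Fin 8 → Vec) :
    rep w (comb n x) = comb n fun i => rep w (x i) := by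
  simp only [comb, rep_add, rep_smul]

theorem comb_ev (u : Vec) : comb u.get ev = u := by
  obtain ⟨a, b, c, d, e, f, g, h⟩ := u
  simp [comb, ev, Vec.get, Vec.add, Vec.smul]

theorem rep_ext {v w : W} (h : ∀ i, rep v (ev i) = rep w (ev i)) : rep v = rep w :=
  Equiv.ext fun u => by rw [← comb_ev u, rep_comb, rep_comb]; simp only [h]

/-- The eight roots of the standard frame. -/
def fv : Fin 8 → Vec
  | 0 => ⟨1, 0, 0, 0, 0, 0, 0, 0⟩
  | 1 => ⟨0, 0, 0, 1, 0, 0, 0, 0⟩
  | 2 => ⟨0, 1, 0, 1, 1, 0, 0, 0⟩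
  | 3 => ⟨1, 1, 2, 2, 1, 0, 0, 0⟩
  | 4 => ⟨0, 0, 0, 0, 0, 0, 1, 0⟩
  | 5 => ⟨1, 2, 2, 3, 2, 2, 1, 0⟩
  | 6 => ⟨1, 1, 2, 3, 3, 2, 1, 0⟩
  | 7 => ⟨2, 3, 4, 6, 5, 4, 3, 2⟩

theorem bil_fv : ∀ i j, bil (fv i) (fv j) = if i = j then 2 else 0 := by decide +kernel

theorem fv_ne_neg : ∀ i j, Vec.smul (-1) (fv i) ≠ fv j ∧ (fv i = fv j → i = j) := by decide +kernel

/-- Coordinates with respect to the frame. -/
def crd (u : Vec) (j : Fin 8) : ℤ := bil u (fv j)

theorem crd_ev : ∀ i, comb (crd (ev i)) fv = Vec.smul 2 (ev i) := by decide +kernel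

theorem comb_crd (u : Vec) : comb (crd u) fv = Vec.smul 2 u := by
  have h := fun i => crd_ev i
  obtain ⟨a, b, c, d, e, f, g, k⟩ := u
  simp [comb, crd, bil, fv, Vec.add, Vec.smul]
  constructor <;> (try constructor) <;> ring_nf
  repeat' constructor

theorem crd_rep (w : W) (u : Vec) (j : Fin 8) : crd (rep w u) j = bil u (rep w⁻¹ (fv j)) := by
  conv_rhs => rw [← bil_rep w]
  rw [← Equiv.Perm.mul_apply, ← map_mul, mul_inv_cancel, map_one]
  rfl

theorem smul_two_inj {u v : Vec} (h : Vec.smul 2 u = Vec.smul 2 v) : u = v := by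
  obtain ⟨a, b, c, d, e, f, g, k⟩ := u
  obtain ⟨a', b', c', d', e', f', g', k'⟩ := v
  simpa [Vec.smul] using h

/-- Vectors are determined by their coordinates. -/
theorem ext_crd {u v : Vec} (h : ∀ j, crd u j = crd v j) : u = v :=
  smul_two_inj (by rw [← comb_crd, ← comb_crd, funext h])

theorem rep_ext_fv {v w : W} (h : ∀ j, rep v (fv j) = rep w (fv j)) : rep v = rep w :=
  Equiv.ext fun u => smul_two_inj (by
    rw [← rep_smul, ← rep_smul, ← comb_crd, rep_comb, rep_comb]; simp only [h])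

/-- Words of the reflections in the frame roots. -/
def fWord : Fin 8 → List (Fin 8)
  | 0 => [0]
  | 1 => [2, 3, 0, 2, 0, 2, 0, 3, 2]
  | 2 => [4, 2, 1, 3, 0, 2, 0, 2, 0, 3, 1, 2, 4]
  | 3 => [2, 3, 4, 1, 3, 2, 0, 2, 3, 1, 4, 3, 2]
  | 4 => [5, 6, 4, 5, 3, 4, 2, 3, 0, 2, 0, 2, 0, 3, 2, 4, 3, 5, 4, 6, 5]
  | 5 => [5, 6, 1, 3, 4, 5, 2, 3, 4, 1, 3, 2, 0, 2, 3, 1, 4, 3, 2, 5, 4, 3, 1, 6, 5]
  | 6 => [4, 5, 6, 3, 4, 5, 2, 3, 4, 1, 3, 2, 0, 2, 3, 1, 4, 3, 2, 5, 4, 3, 6, 5, 4]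
  | 7 => [7, 6, 5, 4, 3, 2, 1, 3, 4, 5, 6, 7, 0, 2, 3, 4, 5, 6, 1, 3, 4, 5, 2, 3, 4, 1, 3, 2, 0, 2, 3,
      1, 4, 3, 2, 5, 4, 3, 1, 6, 5, 4, 3, 2, 0, 7, 6, 5, 4, 3, 1, 2, 3, 4, 5, 6, 7]

theorem act_fWord : ∀ i j, act (fWord i) (fv j) = if i = j then Vec.smul (-1) (fv j) else fv j := by
  decide +kernel

theorem fWord_length : ∀ i, (fWord i).length % 2 = 1 := by decide +kernel

/-- The longest element. -/
def zWord : List (Fin 8) := (List.finRange 8).flatMap fWord

theorem act_zWord : ∀ j, act zWord (fv j) = Vec.smul (-1) (fv j) := by decide +kernel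

theorem zWord_length : zWord.length % 2 = 0 := by decide +kernel

/-- Minus one. -/
noncomputable def zW : Wp := ⟨wd zWord, by
  rw [MonoidHom.mem_ker, sgn_wd, Even.neg_one_pow (Nat.even_iff.2 zWord_length)]⟩

theorem smul_smul_neg (u : Vec) : Vec.smul (-1) (Vec.smul (-1) u) = u := by simp [Vec.smul]

theorem rep_zW_fv (j : Fin 8) : rep (zW : W) (fv j) = Vec.smul (-1) (fv j) := by
  show rep (wd zWord) (fv j) = _
  rw [rep_wd, act_zWord]

theorem rep_zW (u : Vec) : rep (zW : W) u = Vec.smul (-1) u := smul_two_inj (by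
  rw [← rep_smul, ← comb_crd, rep_comb]
  simp only [rep_zW_fv]
  simp [comb, crd, bil, fv, Vec.smul, Vec.add]
  refine ⟨?_, ?_, ?_, ?_, ?_, ?_, ?_, ?_⟩ <;> ring)

theorem rep_zW_comm (w : W) : rep (zW : W) * rep w = rep w * rep (zW : W) :=
  Equiv.ext fun u => by simp only [Equiv.Perm.mul_apply, rep_zW, rep_smul]

theorem rep_zW_ne : rep (zW : W) ≠ 1 := fun h => by
  have := DFunLike.congr_fun h (ev 0)
  rw [rep_zW] at this
  revert this
  decide +kernel

theorem normal_Wp {N : Subgroup Wp} (hN : N.Normal) : N ≤ fstMap.ker ∨ N = ⊤ := by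
  have hc : Subgroup.center G8 = ⊥ := Subgroup.eq_bot_of_card_eq _ O8Mult.card_center_G8
  haveI : IsSimpleGroup G8 :=
    ((QuotientGroup.quotientMulEquivOfEq hc).trans QuotientGroup.quotientBot).symm.isSimpleGroup_congr.2
      (CfsgLib.OrthGeo.isSimpleGroup_POmega O8Mult.hQ (by simp [O8Mult.J]))
  rcases (hN.map fstMap fst_surjective).eq_bot_or_eq_top with h | h
  · exact Or.inl ((Subgroup.map_eq_bot_iff _).1 h)
  · refine Or.inr (eq_top_iff.2 ?_)
    rw [← O8Mult.commutator_Wp, commutator_def, Subgroup.commutator_le]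
    intro a _ b _
    obtain ⟨n, hn, ea⟩ : fstMap a ∈ N.map fstMap := h ▸ Subgroup.mem_top _
    have hk : n⁻¹ * a ∈ fstMap.ker := by rw [MonoidHom.mem_ker, map_mul, map_inv, ea, inv_mul_cancel]
    have hcen := (O8Mult.ker_two fst_surjective hk).2
    have e : ⁅a, b⁆ = ⁅n, b⁆ := by
      obtain ⟨k, hk', rfl⟩ : ∃ k, (∀ x, x * k = k * x) ∧ a = n * k := ⟨n⁻¹ * a, hcen, by group⟩
      simp only [commutatorElement_def, mul_inv_rev]
      calc n * k * b * (k⁻¹ * n⁻¹) * b⁻¹ = n * (k * b) * k⁻¹ * n⁻¹ * b⁻¹ := by group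
        _ = n * (b * k) * k⁻¹ * n⁻¹ * b⁻¹ := by rw [hk']
        _ = n * b * n⁻¹ * b⁻¹ := by group
    rw [e, commutatorElement_def, show n * b * n⁻¹ * b⁻¹ = n * (b * n⁻¹ * b⁻¹) by group]
    exact N.mul_mem hn (hN.conj_mem _ (N.inv_mem hn) b)

theorem rep_inj_Wp (a : Wp) (h : rep (a : W) = 1) : a = 1 := by
  set K : Subgroup Wp := (rep.comp Wp.subtype).ker
  rcases normal_Wp (inferInstance : K.Normal) with hK | hK
  · by_contra ha
    have hz : zW ∉ K := fun hz => rep_zW_ne hz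
    -- the whole kernel is the centre, which contains minus one
    have hzc : fstMap zW = 1 := by
      have hc : Subgroup.center G8 = ⊥ := Subgroup.eq_bot_of_card_eq _ O8Mult.card_center_G8
      refine Subgroup.mem_bot.1 (hc ▸ Subgroup.mem_center_iff.2 fun g => ?_)
      obtain ⟨b, rfl⟩ := fst_surjective g
      have hcomm : b * zW * b⁻¹ * zW⁻¹ ∈ K := by
        show rep ((b * zW * b⁻¹ * zW⁻¹ : Wp) : W) = 1
        simp only [Subgroup.coe_mul, Subgroup.coe_inv, map_mul, map_inv]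
        rw [← rep_zW_comm]; group
      have := hK hcomm
      rw [MonoidHom.mem_ker] at this
      simp only [map_mul, map_inv] at this
      exact mul_inv_eq_iff_eq_mul.1 (mul_inv_eq_one.1 this)
    obtain ⟨x, y, -, hxy⟩ := Nat.card_eq_two_iff.1 (card_ker fst_surjective)
    have h3 : ∀ u : fstMap.ker, u = x ∨ u = y := fun u => by
      have := hxy.ge (Set.mem_univ u)
      simpa using this
    have hz1 : zW ≠ 1 := fun e => rep_zW_ne (by rw [e, Subgroup.coe_one, map_one])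
    have haz : a ≠ zW := fun e => rep_zW_ne (e ▸ h)
    rcases h3 ⟨a, hK h⟩ with e1 | e1 <;> rcases h3 ⟨zW, hzc⟩ with e2 | e2 <;> rcases h3 1 with e3 | e3 <;>
      first
        | exact haz (congrArg Subtype.val (e1.trans e2.symm))
        | exact ha (congrArg Subtype.val (e1.trans e3.symm))
        | exact hz1 (congrArg Subtype.val (e2.trans e3.symm))
  · exfalso
    exact rep_zW_ne (show zW ∈ K from hK ▸ Subgroup.mem_top _)

/-- The matrix of an element. -/
noncomputable def mat (w : W) : Matrix (Fin 8) (Fin 8) ℤ := Matrix.of fun i j => (rep w (ev j)).get i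

theorem get_comb (n : Fin 8 → ℤ) (x : Fin 8 → Vec) (i : Fin 8) :
    (comb n x).get i = ∑ k, n k * (x k).get i := by
  rw [Fin.sum_univ_eight]
  fin_cases i <;> simp [comb, Vec.get, Vec.add, Vec.smul]

theorem mat_mul (v w : W) : mat (v * w) = mat v * mat w := by
  ext i j
  rw [Matrix.mul_apply]
  show (rep (v * w) (ev j)).get i = ∑ k, (rep v (ev k)).get i * (rep w (ev j)).get k
  rw [map_mul, Equiv.Perm.mul_apply, ← comb_ev (rep w (ev j)), rep_comb, get_comb, comb_ev]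
  exact Finset.sum_congr rfl fun k _ => mul_comm _ _

theorem mat_one : mat 1 = 1 := by
  ext i j
  show (rep 1 (ev j)).get i = _
  rw [map_one, Matrix.one_apply]
  revert i j
  decide +kernel

/-- The row of a simple reflection. -/
def rowC (i : Fin 8) (j : Fin 8) : ℤ := - bil (ev j) (ev i)

theorem row_check : ∀ i j k : Fin 8, (sI i (ev j)).get k =
    (if k = j then 1 else 0) + (if k = i then 1 else 0) * rowC i j := by decide +kernel

theorem rowC_self : ∀ i : Fin 8, rowC i i = -2 := by decide +kernel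

theorem det_mat_simple (i : Fin 8) : (mat (cs.simple i)).det = -1 := by
  have e : mat (cs.simple i) =
      1 + Matrix.replicateCol Unit (fun k => if k = i then (1 : ℤ) else 0) * Matrix.replicateRow Unit (rowC i) := by
    ext k j
    show (rep (cs.simple i) (ev j)).get k = _
    rw [rep_simple, row_check, Matrix.add_apply, Matrix.one_apply, Matrix.mul_apply]
    simp
  rw [e, Matrix.det_one_add_replicateCol_mul_replicateRow]
  simp [dotProduct, rowC_self]

theorem det_mat (w : W) : (mat w).det = ((sgn w : ℤˣ) : ℤ) := by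
  induction w using cs.simple_induction_left with
  | one => simp [mat_one]
  | mul_simple_left w i ih =>
    rw [mat_mul, Matrix.det_mul, det_mat_simple, ih, map_mul, sgn_simple]
    simp

/-- The action on the lattice is faithful. -/
theorem rep_injective : Function.Injective rep := by
  refine (injective_iff_map_eq_one rep).2 fun w hw => ?_
  have hd : (mat w).det = 1 := by
    have e : mat w = mat 1 := by
      ext i j
      show (rep w (ev j)).get i = (rep 1 (ev j)).get i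
      rw [hw, map_one]
    rw [e, mat_one, Matrix.det_one]
  have hs : sgn w = 1 := Units.ext (by rw [← det_mat, hd]; rfl)
  exact congrArg Subtype.val (rep_inj_Wp ⟨w, hs⟩ hw)

end CfsgLib.StdO8
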