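import Cfsg.Agent.StdO8.Roots
import Cfsg.Agent.StdO8.MonoData

/-!
Signed permutations of the frame in the Coxeter group of type `E₈`, and a Sylow 2-subgroup.
-/

set_option autoImplicit false
set_option maxRecDepth 8000

namespace CfsgLib.StdO8

open CfsgLib.O8Mult (W cs Wp sgn sgn_simple card_W)

/-- A signed permutation, listed by the source index. -/
abbrev SP : Type := List (Fin 8 × Bool)

/-- The image of an index. -/
def img (d : SP) (i : Fin 8) : Fin 8 × Bool := d.getD i.1 (0, false)

/-- Composition. -/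
def smulD (d e : SP) : SP := e.map fun x => ((img d x.1).1, x.2 ^^ (img d x.1).2)

/-- A signed permutation from a permutation and a mask of signs. -/
def mk (p : List (Fin 8)) (n : ℕ) : SP := (List.finRange 8).map fun i => (p.getD i.1 0, n.testBit i.1)

/-- The identity permutation. -/
def idP : List (Fin 8) := List.finRange 8

/-- The identity. -/
def oneD : SP := mk idP 0

/-- The underlying permutation. -/
def permOf (d : SP) : List (Fin 8) := d.map Prod.fst

/-- A signed vector. -/
def sg (b : Bool) (u : Vec) : Vec := cond b (Vec.smul (-1) u) u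

theorem sg_sg (a b : Bool) (u : Vec) : sg a (sg b u) = sg (a ^^ b) u := by
  cases a <;> cases b <;> simp [sg, Vec.smul]

theorem rep_sg (w : W) (b : Bool) (u : Vec) : rep w (sg b u) = sg b (rep w u) := by
  cases b <;> simp [sg, rep_smul]

theorem sg_inj {a b : Bool} {i j : Fin 8} (h : sg a (fv i) = sg b (fv j)) : a = b ∧ i = j := by
  cases a <;> cases b <;> simp only [sg, cond_true, cond_false] at h
  · exact ⟨rfl, (fv_ne_neg i j).2 h⟩
  · exact absurd h.symm (fv_ne_neg j i).1
  · exact absurd h (fv_ne_neg i j).1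
  · exact ⟨rfl, (fv_ne_neg i j).2 (by simpa [smul_smul_neg] using congrArg (Vec.smul (-1)) h)⟩

/-- `w` permutes the frame with signs as `d` says. -/
def Mono (w : W) (d : SP) : Prop :=
  d.length = 8 ∧ ∀ i : Fin 8, rep w (fv i) = sg (img d i).2 (fv (img d i).1)

theorem img_mk (p : List (Fin 8)) (n : ℕ) (i : Fin 8) : img (mk p n) i = (p.getD i.1 0, n.testBit i.1) := by
  simp [img, mk, List.getD_eq_getElem?_getD]

theorem img_smulD (d e : SP) (he : e.length = 8) (i : Fin 8) :
    img (smulD d e) i = ((img d (img e i).1).1, (img e i).2 ^^ (img d (img e i).1).2) := by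
  have h : i.1 < e.length := by omega
  simp [img, smulD, List.getD_eq_getElem?_getD, h]

theorem sp_ext {d e : SP} (hd : d.length = 8) (he : e.length = 8) (h : ∀ i, img d i = img e i) : d = e :=
  List.ext_getElem (hd.trans he.symm) fun k hk hk' => by
    have := h ⟨k, hd ▸ hk⟩
    rwa [img, img, List.getD_eq_getElem _ _ hk, List.getD_eq_getElem _ _ hk'] at this

theorem Mono.mul {v w : W} {d e : SP} (hv : Mono v d) (hw : Mono w e) : Mono (v * w) (smulD d e) :=
  ⟨by simp [smulD, hw.1], fun i => by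
    rw [rep_mul_apply, hw.2, rep_sg, hv.2, sg_sg, img_smulD d e hw.1]⟩

theorem Mono.eq {v w : W} {d : SP} (hv : Mono v d) (hw : Mono w d) : v = w :=
  rep_injective (rep_ext_fv fun i => (hv.2 i).trans (hw.2 i).symm)

theorem Mono.unique {w : W} {d e : SP} (hd : Mono w d) (he : Mono w e) : d = e :=
  sp_ext hd.1 he.1 fun i => by
    obtain ⟨h1, h2⟩ := sg_inj ((hd.2 i).symm.trans (he.2 i))
    exact Prod.ext h2 h1

theorem Mono.eq_iff {v w : W} {d e : SP} (hv : Mono v d) (hw : Mono w e) : v = w ↔ d = e :=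
  ⟨fun h => (h ▸ hv : Mono w d).unique hw, fun h => hv.eq (h ▸ hw)⟩

theorem mono_one : Mono 1 oneD :=
  ⟨by simp [oneD, mk], fun i => by
    rw [oneD, img_mk, map_one]
    simp [idP, sg, List.getD_eq_getElem?_getD]⟩

/-- The check that a word acts by a given signed permutation. -/
def monoB (w : List (Fin 8)) (d : SP) : Bool :=
  d.length == 8 && (List.finRange 8).all fun i => decide (act w (fv i) = sg (img d i).2 (fv (img d i).1))

theorem mono_of_monoB {w : List (Fin 8)} {d : SP} (h : monoB w d = true) : Mono (wd w) d := by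
  simp only [monoB, Bool.and_eq_true, beq_iff_eq, List.all_eq_true, List.mem_finRange, decide_eq_true_eq,
    forall_const] at h
  exact ⟨h.1, fun i => by rw [rep_wd]; exact h.2 i⟩

/-- A generator. -/
noncomputable def genW (k : Fin 7) : W := wd (genWords.getD k.1 [])

/-- Its signed permutation. -/
def genD (k : Fin 7) : SP := mk (genPerms.getD k.1 []) 0

theorem genWords_check : ∀ k : Fin 7, monoB (genWords.getD k.1 []) (genD k) = true := by decide +kernel

theorem genWords_even : ∀ k : Fin 7, (genWords.getD k.1 []).length % 2 = 0 := by decide +kernel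

theorem mono_gen (k : Fin 7) : Mono (genW k) (genD k) := mono_of_monoB (genWords_check k)

theorem sgn_gen (k : Fin 7) : sgn (genW k) = 1 := by
  rw [genW, sgn_wd, Even.neg_one_pow (Nat.even_iff.2 (genWords_even k))]

/-- A product of generators. -/
noncomputable def seqW (q : List (Fin 7)) : W := (q.map genW).prod

/-- Its signed permutation. -/
def seqD (q : List (Fin 7)) : SP := q.foldr (fun k d => smulD (genD k) d) oneD

theorem mono_seq (q : List (Fin 7)) : Mono (seqW q) (seqD q) := by
  induction q with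
  | nil => exact mono_one
  | cons k q ih =>
    rw [seqW, List.map_cons, List.prod_cons]
    exact (mono_gen k).mul ih

theorem sgn_seq (q : List (Fin 7)) : sgn (seqW q) = 1 := by
  induction q with
  | nil => simp [seqW]
  | cons k q ih => rw [seqW, List.map_cons, List.prod_cons, map_mul, sgn_gen, ← seqW, ih, mul_one]

/-- The diagonal element with a given mask. -/
noncomputable def dW (n : ℕ) : W :=
  ((List.finRange 8).map fun j => if n.testBit j.1 then fr j else 1).prod

/-- Its signed permutation. -/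
def dD (n : ℕ) : SP := mk idP n

theorem img_dD (n : ℕ) (i : Fin 8) : img (dD n) i = (i, n.testBit i.1) := by
  rw [dD, img_mk]; simp [idP, List.getD_eq_getElem?_getD]

theorem rep_partial (n : ℕ) (i : Fin 8) : ∀ l : List (Fin 8), l.Nodup →
    rep ((l.map fun j => if n.testBit j.1 then fr j else 1).prod) (fv i) =
      sg (decide (i ∈ l) && n.testBit i.1) (fv i)
  | [], _ => by simp [sg]
  | j :: l, hl => by
    obtain ⟨hj, hl'⟩ := List.nodup_cons.1 hl
    rw [List.map_cons, List.prod_cons, rep_mul_apply, rep_partial n i l hl', rep_sg]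
    by_cases hij : j = i
    · subst hij
      cases hn : n.testBit j.1 <;> simp [hj, sg, rep_fr]
    · cases hn : n.testBit j.1 <;> simp [rep_fr, hij, Ne.symm hij]

theorem mono_dW (n : ℕ) : Mono (dW n) (dD n) :=
  ⟨by simp [dD, mk], fun i => by
    rw [dW, rep_partial n i _ (List.nodup_finRange 8), img_dD]; simp⟩

theorem smulD_dD (a b : ℕ) : smulD (dD a) (dD b) = dD (a ^^^ b) :=
  sp_ext (by simp [smulD, dD, mk]) (by simp [dD, mk]) fun i => by
    rw [img_smulD _ _ (by simp [dD, mk])]
    simp [img_dD, Bool.xor_comm]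

theorem dW_mul (a b : ℕ) : dW a * dW b = dW (a ^^^ b) :=
  ((mono_dW a).mul (mono_dW b)).eq ((smulD_dD a b).symm ▸ mono_dW (a ^^^ b))

theorem dW_congr {a b : ℕ} (h : ∀ i : Fin 8, a.testBit i.1 = b.testBit i.1) : dW a = dW b :=
  (mono_dW a).eq ((sp_ext (by simp [dD, mk]) (by simp [dD, mk])
    fun i => by simp [img_dD, h i] : dD a = dD b).symm ▸ mono_dW b)

theorem dW_zero : dW 0 = 1 := (mono_dW 0).eq mono_one

theorem dW_sq (a : ℕ) : dW a * dW a = 1 := by rw [dW_mul, Nat.xor_self, dW_zero]

theorem zW_eq : (zW : W) = dW 255 := rep_injective (rep_ext_fv fun i => by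
  rw [rep_zW, (mono_dW 255).2, img_dD]
  revert i
  decide +kernel)

theorem fr_eq : ∀ i : Fin 8, fr i = dW (2 ^ i.1) := fun i => rep_injective (rep_ext_fv fun j => by
  rw [rep_fr, (mono_dW _).2, img_dD]
  revert i j
  decide +kernel)

/-- The number of negative signs. -/
def weight (n : ℕ) : ℕ := ((List.finRange 8).filter fun j => n.testBit j.1).length

theorem sgn_dW (n : ℕ) : sgn (dW n) = (-1) ^ weight n := by
  rw [dW, weight]
  induction (List.finRange 8) with
  | nil => simp
  | cons j l ih =>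
    rw [List.map_cons, List.prod_cons, map_mul, ih]
    cases hn : n.testBit j.1
    · simp [hn]
    · simp [hn, (isRefl_fr j).sgn_eq, pow_succ']

/-- A product of generators times a diagonal element. -/
noncomputable def eW (q : List (Fin 7)) (n : ℕ) : W := seqW q * dW n

/-- Its signed permutation. -/
def eD (q : List (Fin 7)) (n : ℕ) : SP := smulD (seqD q) (dD n)

theorem mono_eW (q : List (Fin 7)) (n : ℕ) : Mono (eW q n) (eD q n) := (mono_seq q).mul (mono_dW n)

theorem sgn_eW (q : List (Fin 7)) (n : ℕ) : sgn (eW q n) = (-1) ^ weight n := by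
  rw [eW, map_mul, sgn_seq, sgn_dW, one_mul]

/-- The permutations of the Sylow subgroup. -/
def sylPerms : List (List (Fin 8)) := sylSeq.map fun q => permOf (seqD q)

theorem sylStep : ∀ q ∈ sylSeq, ∀ k : Fin 7, k.1 < 6 → permOf (smulD (seqD q) (genD k)) ∈ sylPerms := by
  decide +kernel

theorem sylSeq_lt : ∀ q ∈ sylSeq, ∀ k ∈ q, k.1 < 6 := by decide +kernel

theorem sylSeq_sign : ∀ q ∈ sylSeq, seqD q = mk (permOf (seqD q)) 0 := by decide +kernel

theorem sylPerms_nodup : sylPerms.Nodup := by decide +kernel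

theorem sylSeq_length : sylSeq.length = 64 := by decide +kernel

theorem oneP_mem : permOf oneD ∈ sylPerms := by decide +kernel

theorem permOf_smulD (d e : SP) :
    permOf (smulD d e) = (permOf e).map fun x => (img d x).1 := by
  simp [permOf, smulD, Function.comp_def]

theorem img_fst_eq {d d' : SP} (hd : d.length = 8) (hd' : d'.length = 8) (h : permOf d = permOf d') (x : Fin 8) :
    (img d x).1 = (img d' x).1 := by
  have hx : x.1 < d.length := by omega
  have hx' : x.1 < d'.length := by omega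
  have := List.getElem_of_eq h (i := x.1) (by simpa [permOf] using hx)
  simpa [permOf, img, List.getD_eq_getElem?_getD, hx, hx'] using this

theorem permOf_smulD_congr {d d' e : SP} (hd : d.length = 8) (hd' : d'.length = 8) (h : permOf d = permOf d') :
    permOf (smulD d e) = permOf (smulD d' e) := by
  simp only [permOf_smulD, img_fst_eq hd hd' h]

theorem syl_mul_seq : ∀ r : List (Fin 7), (∀ k ∈ r, k.1 < 6) → ∀ (w : W) (d : SP), Mono w d →
    permOf d ∈ sylPerms → ∃ e, Mono (w * seqW r) e ∧ permOf e ∈ sylPerms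
  | [], _, w, d, hd, hp => ⟨d, by simpa [seqW] using hd, hp⟩
  | k :: r, hr, w, d, hd, hp => by
    obtain ⟨q, hq, he⟩ := List.mem_map.1 hp
    have h1 : permOf (smulD d (genD k)) ∈ sylPerms := by
      rw [permOf_smulD_congr hd.1 (mono_seq q).1 he.symm]
      exact sylStep q hq k (hr k (by simp))
    have := syl_mul_seq r (fun j hj => hr j (by simp [hj])) _ _ (hd.mul (mono_gen k)) h1
    simpa [seqW, mul_assoc] using this

instance : Finite W := Nat.finite_of_card_ne_zero (by rw [card_W]; norm_num)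

theorem syl_mul {v w : W} (hv : ∃ d, Mono v d ∧ permOf d ∈ sylPerms)
    (hw : ∃ d, Mono w d ∧ permOf d ∈ sylPerms) : ∃ d, Mono (v * w) d ∧ permOf d ∈ sylPerms := by
  obtain ⟨d, hd, hp⟩ := hv
  obtain ⟨e, he, hpe⟩ := hw
  refine ⟨_, hd.mul he, ?_⟩
  obtain ⟨q, hq, hqe⟩ := List.mem_map.1 hpe
  obtain ⟨e', he', hp'⟩ := syl_mul_seq q (sylSeq_lt q hq) v d hd hp
  rw [he'.unique (hd.mul (mono_seq q))] at hp'
  rwa [permOf_smulD, ← hqe, ← permOf_smulD]

/-- A Sylow 2-subgroup: signed permutations with a permutation in a fixed 2-group. -/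
noncomputable def P0 : Subgroup W where
  carrier := {w | ∃ d, Mono w d ∧ permOf d ∈ sylPerms}
  one_mem' := ⟨_, mono_one, oneP_mem⟩
  mul_mem' := syl_mul
  inv_mem' {a} ha := by
    have hpow : ∀ n : ℕ, ∃ d, Mono (a ^ n) d ∧ permOf d ∈ sylPerms := by
      intro n
      induction n with
      | zero => exact ⟨_, (pow_zero a).symm ▸ mono_one, oneP_mem⟩
      | succ n ih => rw [pow_succ]; exact syl_mul ih ha
    have e : a⁻¹ = a ^ (orderOf a - 1) := inv_eq_of_mul_eq_one_right (by
      rw [← pow_succ', Nat.sub_add_cancel (orderOf_pos a), pow_orderOf_eq_one])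
    exact e ▸ hpow _

/-- A parametrisation of the Sylow subgroup. -/
noncomputable def sylMap (x : Fin 64 × Fin 256) : W := eW (sylSeq.getD x.1.1 []) x.2.1

theorem sylMap_range (w : W) : w ∈ P0 ↔ w ∈ Set.range sylMap := by
  constructor
  · rintro ⟨d, hd, hp⟩
    obtain ⟨q, hq, he⟩ := List.mem_map.1 hp
    obtain ⟨k, hk, rfl⟩ := List.getElem_of_mem hq
    let b : Fin 8 → Bool := fun i => (img d i).2
    refine ⟨(⟨k, sylSeq_length ▸ hk⟩, ⟨Nat.ofBits b, Nat.ofBits_lt_two_pow b⟩), ?_⟩
    rw [sylMap, List.getD_eq_getElem _ _ hk]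
    refine (mono_eW _ _).eq ?_
    suffices h : eD sylSeq[k] (Nat.ofBits b) = d by rw [h]; exact hd
    refine sp_ext (mono_eW _ _).1 hd.1 fun i => ?_
    rw [eD, img_smulD _ _ (by simp [dD, mk]), img_dD, Nat.testBit_ofBits_lt _ _ i.2]
    have h2 : (img (seqD sylSeq[k]) i).2 = false := by
      rw [sylSeq_sign _ hq, img_mk]; simp
    simp only [h2, Bool.xor_false]
    exact Prod.ext (img_fst_eq (mono_seq _).1 hd.1 he i) rfl
  · rintro ⟨⟨k, n⟩, rfl⟩
    have hk : k.1 < sylSeq.length := sylSeq_length.symm ▸ k.2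
    refine ⟨_, mono_eW _ _, List.mem_map.2 ⟨sylSeq[k.1], List.getElem_mem _, ?_⟩⟩
    simp only [eD, List.getD_eq_getElem _ _ hk, permOf_smulD]
    have h := (mono_seq sylSeq[k.1]).1
    apply List.ext_getElem
    · simp [permOf, dD, mk, h]
    · intro i hi _
      have hi8 : i < 8 := by simpa [permOf, h] using hi
      simp [permOf, dD, mk, idP, img, List.getD_eq_getElem?_getD, h]

theorem sylMap_injective : Function.Injective sylMap := by
  rintro ⟨k, n⟩ ⟨k', n'⟩ h
  have hk : k.1 < sylSeq.length := sylSeq_length.symm ▸ k.2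
  have hk' : k'.1 < sylSeq.length := sylSeq_length.symm ▸ k'.2
  have e := (Mono.eq_iff (mono_eW _ _) (mono_eW _ _)).1 h
  have hi : ∀ i, img (eD (sylSeq.getD k.1 []) n.1) i = img (eD (sylSeq.getD k'.1 []) n'.1) i := fun i => by rw [e]
  simp only [eD, img_smulD _ _ (mono_dW _).1, img_dD, List.getD_eq_getElem _ _ hk,
    List.getD_eq_getElem _ _ hk', Prod.mk.injEq] at hi
  have hp : sylPerms[k.1]'(by simpa [sylPerms] using hk) = sylPerms[k'.1]'(by simpa [sylPerms] using hk') := by
    simp only [sylPerms, List.getElem_map]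
    refine List.ext_getElem (by simp [permOf, (mono_seq _).1]) fun i h1 h2 => ?_
    have hi8 : i < 8 := by simpa [permOf, (mono_seq sylSeq[k.1]).1] using h1
    simpa [permOf, img, List.getD_eq_getElem?_getD, (mono_seq sylSeq[k.1]).1, (mono_seq sylSeq[k'.1]).1,
      hi8] using (hi ⟨i, hi8⟩).1
  obtain rfl : k = k' := Fin.ext (sylPerms_nodup.getElem_inj_iff.1 hp)
  refine Prod.ext rfl (Fin.ext (Nat.eq_of_testBit_eq fun i => ?_))
  by_cases hi8 : i < 8
  · simpa using (hi ⟨i, hi8⟩).2
  · have hb : 256 ≤ 2 ^ i := by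
      calc 256 = 2 ^ 8 := by norm_num
        _ ≤ 2 ^ i := Nat.pow_le_pow_right (by norm_num) (by omega)
    rw [Nat.testBit_lt_two_pow (n.2.trans_le hb), Nat.testBit_lt_two_pow (n'.2.trans_le hb)]

theorem card_P0 : Nat.card P0 = 2 ^ 14 := by
  rw [Nat.card_congr (((Equiv.subtypeEquivRight sylMap_range).trans
    (Equiv.ofInjective _ sylMap_injective).symm : P0 ≃ Fin 64 × Fin 256))]
  simp

/-- Every 2-element is conjugate to an element of the Sylow subgroup. -/
theorem exists_syl {w : W} {k : ℕ} (h : w ^ 2 ^ k = 1) :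
    ∃ (v : W) (q : List (Fin 7)) (n : ℕ), q ∈ sylSeq ∧ n < 256 ∧ v * w * v⁻¹ = eW q n := by
  have := Fact.mk Nat.prime_two
  have hi : ¬ 2 ∣ P0.index := by
    have := P0.card_mul_index
    rw [card_P0, card_W] at this
    omega
  let S : Sylow 2 W := (IsPGroup.of_card card_P0).toSylow hi
  have hw : IsPGroup 2 (Subgroup.zpowers w) := by
    obtain ⟨j, -, hj⟩ := (Nat.dvd_prime_pow Nat.prime_two).1 (orderOf_dvd_of_pow_eq_one h)
    exact IsPGroup.of_card (n := j) (by rw [Nat.card_zpowers, hj])
  obtain ⟨Q, hQ⟩ := hw.exists_le_sylow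
  obtain ⟨v, hv⟩ := MulAction.exists_smul_eq W Q S
  have hm : v * w * v⁻¹ ∈ P0 := by
    show v * w * v⁻¹ ∈ (S : Subgroup W)
    rw [← hv]
    exact Subgroup.smul_mem_pointwise_smul w (MulAut.conj v) _ (hQ (Subgroup.mem_zpowers w))
  obtain ⟨⟨a, b⟩, hx⟩ := (sylMap_range _).1 hm
  have ha : a.1 < sylSeq.length := sylSeq_length.symm ▸ a.2
  exact ⟨v, _, b.1, by rw [List.getD_eq_getElem _ _ ha]; exact List.getElem_mem _, b.2, hx.symm⟩

end CfsgLib.StdO8
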