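import Cfsg.Agent.StdO8.PullData

/-!
Elements that are products of double commutators in centralisers of representatives.
-/

set_option autoImplicit false
set_option maxRecDepth 8000

open scoped commutatorElement

namespace CfsgLib.StdO8

open CfsgLib.O8Mult (W cs Wp sgn)

/-- The signed permutation of a parameter. -/
def parD (a : List (Fin 7) × ℕ) : SP := eD a.1 a.2

/-- The element of a parameter. -/
noncomputable def parW (a : List (Fin 7) × ℕ) : W := eW a.1 a.2

/-- Even and commuting with `w`. -/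
def centB (w : SP) (a : List (Fin 7) × ℕ) : Bool :=
  weight a.2 % 2 == 0 && smulD (parD a) w == smulD w (parD a)

/-- The check of one certificate. -/
def certB (w : SP) (k : Cert) : Bool :=
  centB w k.a && centB w k.b && centB w k.c && centB w k.d &&
    (smulD (parD k.a) (parD k.b) == smulD (parD k.x) (smulD (parD k.b) (parD k.a))) &&
    (smulD (parD k.c) (parD k.d) == smulD (parD k.y) (smulD (parD k.d) (parD k.c))) &&
    (smulD (parD k.x) (parD k.y) == smulD (parD k.e) (smulD (parD k.y) (parD k.x))) &&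
    (smulD (parD k.e) (parD k.e) == oneD)

/-- The check of a list of certificates. -/
def pullB (w : SP) (L : List (ℕ × List Cert)) : Bool :=
  L.all fun r => r.2.all (certB w) && r.2.foldr (fun k d => smulD (parD k.e) d) oneD == dD r.1

theorem eq_comm_of_data {a b x : List (Fin 7) × ℕ}
    (h : smulD (parD a) (parD b) = smulD (parD x) (smulD (parD b) (parD a))) :
    ⁅parW a, parW b⁆ = parW x := by
  have := ((mono_eW a.1 a.2).mul (mono_eW b.1 b.2)).eq
    (h ▸ (mono_eW x.1 x.2).mul ((mono_eW b.1 b.2).mul (mono_eW a.1 a.2)))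
  rw [commutatorElement_def]
  show parW a * parW b * _ * _ = parW x
  rw [show parW a * parW b = parW x * (parW b * parW a) from this]
  group

theorem pull_of_check {q : List (Fin 7)} {n : ℕ} {L : List (ℕ × List Cert)}
    (h : pullB (eD q n) L = true) : ∀ r ∈ L, dW r.1 ∈ Pull (eW q n) := by
  intro r hr
  simp only [pullB, List.all_eq_true, Bool.and_eq_true, beq_iff_eq] at h
  obtain ⟨hc, hp⟩ := h r hr
  suffices H : ∀ l : List Cert, (∀ k ∈ l, certB (eD q n) k = true) →
      ∃ x ∈ Pull (eW q n), Mono x (l.foldr (fun k d => smulD (parD k.e) d) oneD) by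
    obtain ⟨x, hx, hm⟩ := H r.2 hc
    rw [hp] at hm
    rwa [← hm.eq (mono_dW r.1)]
  intro l
  induction l with
  | nil => exact fun _ => ⟨1, one_mem _, mono_one⟩
  | cons k l ih =>
    intro hk
    obtain ⟨x, hx, hm⟩ := ih fun k' hk' => hk k' (by simp [hk'])
    refine ⟨parW k.e * x, mul_mem ?_ hx, (mono_eW _ _).mul hm⟩
    have h1 := hk k (by simp)
    simp only [certB, centB, Bool.and_eq_true, beq_iff_eq] at h1
    obtain ⟨⟨⟨⟨⟨⟨⟨ha, hb⟩, hcc⟩, hd⟩, ex⟩, ey⟩, ee⟩, e2⟩ := h1
    have cen : ∀ t : List (Fin 7) × ℕ, weight t.2 % 2 = 0 ∧ smulD (parD t) (eD q n) = smulD (eD q n) (parD t) →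
        sgn (parW t) = 1 ∧ parW t * eW q n = eW q n * parW t := fun t ht =>
      ⟨by rw [parW, sgn_eW, Even.neg_one_pow (Nat.even_iff.2 ht.1)],
        ((mono_eW _ _).mul (mono_eW q n)).eq (ht.2.symm ▸ (mono_eW q n).mul (mono_eW t.1 t.2))⟩
    refine Subgroup.subset_closure ⟨parW k.a, parW k.b, parW k.c, parW k.d, ?_,
      ((mono_eW _ _).mul (mono_eW _ _)).eq (e2.symm ▸ mono_one), ?_⟩
    · intro t ht
      simp only [List.mem_cons, List.not_mem_nil, or_false] at ht
      rcases ht with rfl | rfl | rfl | rfl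
      exacts [cen _ ha, cen _ hb, cen _ hcc, cen _ hd]
    · rw [eq_comm_of_data ex, eq_comm_of_data ey, eq_comm_of_data ee]

theorem eW_nil (n : ℕ) : eW [] n = dW n := by rw [eW, seqW, List.map_nil, List.prod_nil, one_mul]

theorem pullTwo_mem : dW 252 ∈ Pull (dW 3) := by
  rw [← eW_nil 3]
  exact pull_of_check (L := pullTwo) (by decide +kernel) (252, _) List.mem_cons_self

/-- All combinations of the first entries of a certificate list. -/
def spanMasks (L : List (ℕ × List Cert)) : List ℕ :=
  L.foldr (fun r s => s ++ s.map (r.1 ^^^ ·)) [0]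

theorem span_mem {S : ℕ} {L : List (ℕ × List Cert)} (h : pullB (eD [] S) L = true) :
    ∀ m ∈ spanMasks L, dW m ∈ Pull (dW S) := by
  have h' := pull_of_check h
  rw [eW_nil] at h'
  suffices H : ∀ l : List (ℕ × List Cert), (∀ r ∈ l, dW r.1 ∈ Pull (dW S)) →
      ∀ m ∈ spanMasks l, dW m ∈ Pull (dW S) from H L h'
  intro l
  induction l with
  | nil => intro _ m hm; simp [spanMasks] at hm; subst hm; rw [dW_zero]; exact one_mem _
  | cons r l ih =>
    intro hl m hm
    have ih' := ih fun r' hr' => hl r' (by simp [hr'])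
    simp only [spanMasks, List.foldr_cons, List.mem_append, List.mem_map] at hm
    rcases hm with hm | ⟨m', hm', rfl⟩
    · exact ih' m hm
    · rw [← dW_mul]; exact mul_mem (hl r (by simp)) (ih' m' hm')

theorem pullFourQ_mem : ∀ m ∈ spanMasks pullFourQ, dW m ∈ Pull (dW 15) := span_mem (by decide +kernel)

theorem pullFourN_mem : ∀ m ∈ spanMasks pullFourN, dW m ∈ Pull (dW 23) := span_mem (by decide +kernel)

theorem pullSix_mem : ∀ m ∈ spanMasks pullSix, dW m ∈ Pull (dW 252) := span_mem (by decide +kernel)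

theorem pullTwist_check :
    (fpfSeq.zip pullTwist).all (fun x => pullB (eD x.1 (canon x.1)) x.2 && x.2.map Prod.fst == [255]) = true ∧
      fpfSeq.length = pullTwist.length := by decide +kernel

theorem pullTwist_mem {q : List (Fin 7)} (hq : q ∈ fpfSeq) : (zW : W) ∈ Pull (eW q (canon q)) := by
  obtain ⟨hall, hl⟩ := pullTwist_check
  obtain ⟨L, hL⟩ := exists_mem_zip hl hq
  simp only [List.all_eq_true, Bool.and_eq_true, beq_iff_eq] at hall
  obtain ⟨h1, h2⟩ := hall _ hL
  obtain ⟨r, hr, he⟩ := List.mem_map.1 (h2.symm ▸ List.mem_singleton_self 255 : 255 ∈ L.map Prod.fst)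
  rw [zW_eq, ← he]
  exact pull_of_check h1 r hr

/-- Every element of square minus one has minus one among its double commutators. -/
theorem zW_mem_pull {w : W} (h : w * w = (zW : W)) : (zW : W) ∈ Pull w := by
  obtain ⟨v, q, hq, e⟩ := twisted_class h
  have := Pull.conj (pullTwist_mem hq) v⁻¹
  rw [← e, zW_conj] at this
  convert this using 2
  group

end CfsgLib.StdO8
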