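import Cfsg.Agent.StdO8.Invol

/-!
Double commutators of the centraliser of an element of the Coxeter group of type `E₈`.
-/

set_option autoImplicit false
set_option maxRecDepth 8000

open scoped commutatorElement

namespace CfsgLib.StdO8

open CfsgLib.O8Mult (W cs Wp sgn)

/-- Double commutators of even elements commuting with `w`. -/
def pullSet (w : W) : Set W :=
  {x | ∃ a b c d : W, (∀ t ∈ [a, b, c, d], sgn t = 1 ∧ t * w = w * t) ∧ x * x = 1 ∧
    ⁅⁅a, b⁆, ⁅c, d⁆⁆ = x}

/-- The subgroup generated by them. -/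
def Pull (w : W) : Subgroup W := Subgroup.closure (pullSet w)

theorem Pull.conj {w x : W} (h : x ∈ Pull w) (v : W) : v * x * v⁻¹ ∈ Pull (v * w * v⁻¹) := by
  have hle : (Pull w).map (MulAut.conj v : W →* W) ≤ Pull (v * w * v⁻¹) := by
    rw [Pull, MonoidHom.map_closure, Subgroup.closure_le]
    rintro _ ⟨x, ⟨a, b, c, d, hm, hxx, rfl⟩, rfl⟩
    refine Subgroup.subset_closure ⟨v * a * v⁻¹, v * b * v⁻¹, v * c * v⁻¹, v * d * v⁻¹, ?_, ?_, ?_⟩
    · intro t ht
      obtain ⟨s, hs, rfl⟩ : ∃ s ∈ [a, b, c, d], v * s * v⁻¹ = t := by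
        simp only [List.mem_cons, List.not_mem_nil, or_false] at ht
        rcases ht with rfl | rfl | rfl | rfl
        exacts [⟨a, by simp, rfl⟩, ⟨b, by simp, rfl⟩, ⟨c, by simp, rfl⟩, ⟨d, by simp, rfl⟩]
      obtain ⟨h1, h2⟩ := hm s hs
      refine ⟨by rw [map_mul, map_mul, map_inv, mul_right_comm, mul_inv_cancel, one_mul, h1], ?_⟩
      calc _ = v * (s * w) * v⁻¹ := by group
        _ = v * (w * s) * v⁻¹ := by rw [h2]
        _ = _ := by group
    · rw [← map_mul, hxx, map_one]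
    · simp only [MulEquiv.coe_toMonoidHom, MulAut.conj_apply, map_commutatorElement, commutatorElement_def,
        MonoidHom.coe_coe]
      group
  exact hle ⟨x, h, rfl⟩

/-- A certificate that `e` is `⁅⁅a, b⁆, ⁅c, d⁆⁆`, with `x` and `y` the inner commutators. -/
structure Cert where
  a : List (Fin 7) × ℕ
  b : List (Fin 7) × ℕ
  c : List (Fin 7) × ℕ
  d : List (Fin 7) × ℕ
  x : List (Fin 7) × ℕ
  y : List (Fin 7) × ℕ
  e : List (Fin 7) × ℕ

end CfsgLib.StdO8
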