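import Cfsg.Agent.StdO8.RootData

/-!
Roots and reflections of the Coxeter group of type `E₈`: eight commuting reflections form a frame,
and there are no nine of them.
-/

set_option autoImplicit false
set_option maxRecDepth 8000

namespace CfsgLib.StdO8

open CfsgLib.O8Mult (W cs Wp sgn sgn_simple)

theorem bil_comm (u v : Vec) : bil u v = bil v u := by simp only [bil]; ring

theorem bil_smul_right (n : ℤ) (u v : Vec) : bil u (Vec.smul n v) = n * bil u v := by
  simp only [bil, Vec.smul]; ring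

theorem bil_smul_left (n : ℤ) (u v : Vec) : bil (Vec.smul n u) v = n * bil u v := by
  simp only [bil, Vec.smul]; ring

theorem rep_mul_apply (a b : W) (x : Vec) : rep (a * b) x = rep a (rep b x) := by
  rw [map_mul, Equiv.Perm.mul_apply]

theorem rep_inv_apply (a : W) (x : Vec) : rep a (rep a⁻¹ x) = x := by
  rw [← rep_mul_apply, mul_inv_cancel, map_one]; rfl

theorem rep_eq_iff {a b : W} : (∀ x, rep a x = rep b x) ↔ a = b :=
  ⟨fun h => rep_injective (Equiv.ext h), fun h _ => by rw [h]⟩

/-- A root. -/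
def Root (u : Vec) : Prop := ∃ w : W, rep w (fv 0) = u

theorem Root.rep {u : Vec} (h : Root u) (w : W) : Root (CfsgLib.StdO8.rep w u) := by
  obtain ⟨v, rfl⟩ := h
  exact ⟨w * v, rep_mul_apply _ _ _⟩

theorem Root.norm {u : Vec} (h : Root u) : bil u u = 2 := by
  obtain ⟨v, rfl⟩ := h
  rw [bil_rep]; decide +kernel

/-- The check of closure under the simple reflections. -/
def closedCheck : Bool :=
  rootList.length == 240 && rootImg.length == 240 && rootList.contains (fv 0) &&
    (rootList.zip rootImg).all fun p => (List.finRange 8).all fun i =>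
      decide (p.2.getD i.1 999 < 240) && decide (sI i p.1 = rootList.getD (p.2.getD i.1 999) ⟨0, 0, 0, 0, 0, 0, 0, 0⟩)

theorem closedCheck_eq : closedCheck = true := by decide +kernel

theorem exists_mem_zip {α β : Type} {l : List α} {m : List β} (h : l.length = m.length) {a : α}
    (ha : a ∈ l) : ∃ b, (a, b) ∈ l.zip m := by
  obtain ⟨n, hn, rfl⟩ := List.getElem_of_mem ha
  exact ⟨m[n]'(h ▸ hn), List.mem_iff_getElem.2 ⟨n, by simp [h ▸ hn, hn], by simp⟩⟩

theorem Root.mem {u : Vec} (h : Root u) : u ∈ rootList := by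
  obtain ⟨w, rfl⟩ := h
  have hc := closedCheck_eq
  simp only [closedCheck, Bool.and_eq_true, beq_iff_eq, List.all_eq_true, List.mem_finRange,
    forall_const, decide_eq_true_eq, List.contains_iff_mem] at hc
  obtain ⟨⟨⟨hl, hi⟩, h0⟩, hall⟩ := hc
  induction w using cs.simple_induction_left with
  | one => simpa using h0
  | mul_simple_left v i ih =>
    rw [rep_mul_apply, rep_simple]
    obtain ⟨b, hb⟩ := exists_mem_zip (hl.trans hi.symm) ih
    obtain ⟨hlt, he⟩ := hall _ hb i
    rw [he, List.getD_eq_getElem _ _ (hl.symm ▸ hlt)]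
    exact List.getElem_mem _

/-- The reflection in the frame root `j`. -/
noncomputable def fr (j : Fin 8) : W := wd (fWord j)

theorem rep_fr (j : Fin 8) (i : Fin 8) :
    rep (fr j) (fv i) = if j = i then Vec.smul (-1) (fv i) else fv i := by
  rw [fr, rep_wd, act_fWord]

/-- A reflection. -/
def IsRefl (t : W) : Prop := ∃ w : W, w * cs.simple 0 * w⁻¹ = t

/-- `t` is the reflection in `u`. -/
def ReflIn (t : W) (u : Vec) : Prop := ∀ x, rep t x = x.add (Vec.smul (-bil x u) u)

theorem reflIn_zero : ReflIn (cs.simple 0) (fv 0) := fun x => by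
  rw [rep_simple]
  simp [sI, bil, fv, Vec.add, Vec.smul]
  ring

theorem ReflIn.conj {t : W} {u : Vec} (h : ReflIn t u) (w : W) :
    ReflIn (w * t * w⁻¹) (rep w u) := fun x => by
  rw [rep_mul_apply, rep_mul_apply, h, rep_add, rep_smul, rep_inv_apply]
  congr 2
  conv_rhs => rw [← rep_inv_apply w x, bil_rep]

theorem IsRefl.exists_root {t : W} (h : IsRefl t) : ∃ u, Root u ∧ ReflIn t u := by
  obtain ⟨w, rfl⟩ := h
  exact ⟨_, ⟨w, rfl⟩, reflIn_zero.conj w⟩

theorem ReflIn.unique {s t : W} {u : Vec} (hs : ReflIn s u) (ht : ReflIn t u) : s = t :=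
  rep_eq_iff.1 fun x => (hs x).trans (ht x).symm

theorem ReflIn.neg {t : W} {u : Vec} (h : ReflIn t u) : ReflIn t (Vec.smul (-1) u) := fun x => by
  rw [h, bil_smul_right]
  simp [Vec.smul, Vec.add]

theorem ReflIn.self {t : W} {u : Vec} (h : ReflIn t u) (hu : bil u u = 2) :
    rep t u = Vec.smul (-1) u := by
  rw [h, hu]
  simp [Vec.smul, Vec.add]
  refine ⟨?_, ?_, ?_, ?_, ?_, ?_, ?_, ?_⟩ <;> ring

theorem eq_or_neg {u v : Vec} {c : ℤ} (hu : bil u u = 2) (hv : bil v v = 2)
    (h : Vec.smul 2 u = Vec.smul c v) : u = v ∨ u = Vec.smul (-1) v := by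
  have h1 : 4 * bil u u = c * c * bil v v := by
    calc 4 * bil u u = bil (Vec.smul 2 u) (Vec.smul 2 u) := by rw [bil_smul_left, bil_smul_right]; ring
      _ = _ := by rw [h, bil_smul_left, bil_smul_right]; ring
  rw [hu, hv] at h1
  have hc : c = 2 ∨ c = -2 := by
    have : (c - 2) * (c + 2) = 0 := by nlinarith
    rcases mul_eq_zero.1 this with h' | h' <;> omega
  rcases hc with rfl | rfl
  · exact Or.inl (smul_two_inj h)
  · refine Or.inr (smul_two_inj (h.trans ?_))
    simp [Vec.smul]

theorem ReflIn.root_unique {t : W} {u v : Vec} (h : ReflIn t u) (h' : ReflIn t v)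
    (hu : bil u u = 2) (hv : bil v v = 2) : u = v ∨ u = Vec.smul (-1) v := by
  refine eq_or_neg hu hv (c := bil u v) ?_
  have e := (h.self hu).symm.trans (h' u)
  obtain ⟨a, b, c, d, e', f, g, k⟩ := u
  obtain ⟨a', b', c', d', e'', f', g', k'⟩ := v
  simp only [Vec.smul, Vec.add, Vec.mk.injEq] at e ⊢
  refine ⟨?_, ?_, ?_, ?_, ?_, ?_, ?_, ?_⟩ <;> linarith

theorem reflIn_fr (j : Fin 8) : ReflIn (fr j) (fv j) := fun x => smul_two_inj (by
  rw [← rep_smul, ← comb_crd, rep_comb]
  simp only [rep_fr]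
  rw [show ∀ a b : Vec, Vec.smul 2 (a.add b) = (Vec.smul 2 a).add (Vec.smul 2 b) from
      fun a b => by simp [Vec.smul, Vec.add]; refine ⟨?_, ?_, ?_, ?_, ?_, ?_, ?_, ?_⟩ <;> ring]
  rw [← comb_crd x]
  fin_cases j <;> simp [comb, crd, Vec.smul, Vec.add] <;>
    refine ⟨?_, ?_, ?_, ?_, ?_, ?_, ?_, ?_⟩ <;> ring)

theorem isRefl_fr (j : Fin 8) : IsRefl (fr j) := by
  have h : ∀ j, ∃ w ∈ [[], [2, 3, 0, 2], [4, 2, 1, 3, 0, 2], [2, 3, 4, 1, 3, 2], [5, 6, 4, 5, 3, 4, 2, 3, 0, 2],
      [5, 6, 1, 3, 4, 5, 2, 3, 4, 1, 3, 2], [4, 5, 6, 3, 4, 5, 2, 3, 4, 1, 3, 2],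
      [7, 6, 5, 4, 3, 2, 1, 3, 4, 5, 6, 7, 0, 2, 3, 4, 5, 6, 1, 3, 4, 5, 2, 3, 4, 1, 3, 2]],
      act w (fv 0) = fv j ∨ act w (fv 0) = Vec.smul (-1) (fv j) := by decide +kernel
  obtain ⟨w, -, hw⟩ := h j
  refine ⟨wd w, ReflIn.unique (reflIn_zero.conj (wd w)) ?_⟩
  rw [rep_wd]
  rcases hw with e | e <;> rw [e]
  · exact reflIn_fr j
  · exact (reflIn_fr j).neg

theorem IsRefl.conj {t : W} (h : IsRefl t) (v : W) : IsRefl (v * t * v⁻¹) := by
  obtain ⟨w, rfl⟩ := h
  exact ⟨v * w, by group⟩

theorem IsRefl.mul_self {t : W} (h : IsRefl t) : t * t = 1 := by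
  obtain ⟨w, rfl⟩ := h
  calc _ = w * (cs.simple 0 * cs.simple 0) * w⁻¹ := by group
    _ = 1 := by rw [cs.simple_mul_simple_self]; group

theorem IsRefl.sgn_eq {t : W} (h : IsRefl t) : sgn t = -1 := by
  obtain ⟨w, rfl⟩ := h
  rw [map_mul, map_mul, map_inv, mul_right_comm, mul_inv_cancel, one_mul, sgn_simple]

theorem fr_comm (i j : Fin 8) : fr i * fr j = fr j * fr i := rep_injective <| rep_ext_fv fun k => by
  simp only [rep_mul_apply, rep_fr]
  split_ifs <;> simp only [rep_smul, rep_fr] <;> split_ifs <;> rfl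

theorem not_isRefl_zW_mul {t : W} (ht : IsRefl t) : ¬ IsRefl ((zW : W) * t) := by
  intro h
  obtain ⟨w, hw⟩ := ht
  have h2 : IsRefl ((zW : W) * cs.simple 0) := by
    have h3 := h.conj w⁻¹
    have hz : w⁻¹ * (zW : W) = (zW : W) * w⁻¹ := by
      apply rep_injective; rw [map_mul, map_mul, rep_zW_comm]
    rw [← hw] at h3
    convert h3 using 1
    rw [← mul_assoc w⁻¹, hz]
    group
  obtain ⟨v, hv, hr⟩ := h2.exists_root
  have e : ∀ j : Fin 8, j ≠ 0 → Vec.smul (-1) (fv j) = (fv j).add (Vec.smul (-bil (fv j) v) v) := by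
    intro j hj
    rw [← hr, rep_mul_apply, rep_simple, rep_zW]
    congr 1
    revert hj; revert j
    decide +kernel
  have k : ∀ j i : Fin 8, j ≠ 0 → 2 * bil (fv j) (fv i) = bil (fv j) v * bil v (fv i) := by
    intro j i hj
    have := congrArg (fun x => bil x (fv i)) (e j hj)
    simp only [bil_smul_left] at this
    have hadd : ∀ a b c : Vec, bil (a.add b) c = bil a c + bil b c := fun a b c => by
      simp only [bil, Vec.add]; ring
    rw [hadd, bil_smul_left] at this
    linarith
  have k1 := k 1 1 (by decide)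
  have k2 := k 2 2 (by decide)
  have k3 := k 2 1 (by decide)
  rw [bil_fv, bil_comm v] at k1 k2 k3
  simp only [if_true, if_neg (show (2 : Fin 8) ≠ 1 by decide)] at k1 k2 k3
  rcases mul_eq_zero.1 k3.symm with h0 | h0 <;> simp [h0] at k1 k2

/-- Commuting up to the centre. -/
def CommZ (s t : W) : Prop := s * t = t * s ∨ s * t = (zW : W) * (t * s)

theorem CommZ.orth {s t : W} {u v : Vec} (hc : CommZ s t) (hne : s ≠ t) (hu : Root u) (hv : Root v)
    (hs : ReflIn s u) (ht : ReflIn t v) : bil u v = 0 := by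
  obtain ⟨a, rfl⟩ := hu
  obtain ⟨b, rfl⟩ := hv
  have hs' : IsRefl s := ⟨a, (reflIn_zero.conj a).unique hs⟩
  have ht' : IsRefl t := ⟨b, (reflIn_zero.conj b).unique ht⟩
  have e : s * t * s⁻¹ = t := by
    rcases hc with h | h
    · rw [h, mul_inv_cancel_right]
    · exfalso
      have := ht'.conj s
      rw [h, mul_assoc, mul_inv_cancel_right] at this
      exact not_isRefl_zW_mul ht' this
  have h2 := ht.conj s
  rw [e] at h2
  rcases h2.root_unique ht ((Root.rep ⟨b, rfl⟩ s).norm) (Root.norm ⟨b, rfl⟩) with h' | h'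
  · rw [hs] at h'
    set U := rep a (fv 0) with hU
    set V := rep b (fv 0)
    have hn : bil U U = 2 := Root.norm ⟨a, rfl⟩
    have := congrArg (fun x => bil x U) h'
    have hadd : ∀ a b c : Vec, bil (a.add b) c = bil a c + bil b c := fun a b c => by
      simp only [bil, Vec.add]; ring
    simp only [hadd, bil_smul_left, hn] at this
    rw [bil_comm]
    linarith
  · exfalso
    rw [hs] at h'
    set U := rep a (fv 0) with hU
    set V := rep b (fv 0) with hV
    have hn : bil U U = 2 := Root.norm ⟨a, rfl⟩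
    have hm : bil V V = 2 := Root.norm ⟨b, rfl⟩
    have h3 : Vec.smul 2 V = Vec.smul (bil V U) U := by
      obtain ⟨a, b, c, d, e', f, g, k⟩ := U
      obtain ⟨a', b', c', d', e'', f', g', k'⟩ := V
      simp only [Vec.smul, Vec.add, Vec.mk.injEq] at h' ⊢
      refine ⟨?_, ?_, ?_, ?_, ?_, ?_, ?_, ?_⟩ <;> linarith
    rcases eq_or_neg hm hn h3 with e' | e'
    · exact hne ((hs.unique (e' ▸ ht)))
    · exact hne (hs.neg.unique (e' ▸ ht))

/-- The check for the roots orthogonal to the first `k` frame roots. -/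
def backCheck (k : Fin 8) (L : List (List (Fin 8))) : Bool :=
  let C := (posRootsA ++ posRootsB).filter fun r => ((List.finRange 8).filter (· < k)).all fun j => bil r (fv j) == 0
  C.length == L.length && (C.zip L).all fun p =>
    (((List.finRange 8).filter (· < k)).all fun j => decide (act p.2 (fv j) = fv j)) &&
      (decide (act p.2 p.1 = fv k) || decide (act p.2 p.1 = Vec.smul (-1) (fv k)))

theorem backOne_check : backCheck 1 backOne = true := by decide +kernel

theorem backTwo_check : backCheck 2 backTwo = true := by decide +kernel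

theorem sign_mem {u : Vec} (h : Root u) :
    u ∈ posRootsA ++ posRootsB ∨ Vec.smul (-1) u ∈ posRootsA ++ posRootsB := by
  have := h.mem
  rw [rootList, List.mem_append, List.mem_map] at this
  rcases this with h' | ⟨r, hr, rfl⟩
  · exact Or.inl h'
  · exact Or.inr (by rwa [smul_smul_neg])

theorem back_step {k : Fin 8} {L : List (List (Fin 8))} (hL : backCheck k L = true) {u : Vec}
    (hu : Root u) (ho : ∀ j, j < k → bil u (fv j) = 0) :
    ∃ w : W, (∀ j, j < k → rep w (fv j) = fv j) ∧
      (rep w u = fv k ∨ rep w u = Vec.smul (-1) (fv k)) := by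
  simp only [backCheck, Bool.and_eq_true, beq_iff_eq, List.all_eq_true, decide_eq_true_eq,
    List.mem_filter, List.mem_finRange, true_and, Bool.or_eq_true] at hL
  obtain ⟨hlen, hall⟩ := hL
  obtain ⟨r, hr, hru⟩ : ∃ r, r ∈ posRootsA ++ posRootsB ∧ (u = r ∨ u = Vec.smul (-1) r) := by
    rcases sign_mem hu with h | h
    · exact ⟨u, h, Or.inl rfl⟩
    · exact ⟨_, h, Or.inr (smul_smul_neg u).symm⟩
  have hrC : r ∈ (posRootsA ++ posRootsB).filter
      fun r => ((List.finRange 8).filter (· < k)).all fun j => bil r (fv j) == 0 := by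
    simp only [List.mem_filter, List.all_eq_true, beq_iff_eq, List.mem_finRange, true_and,
      decide_eq_true_eq]
    refine ⟨hr, fun j hj => ?_⟩
    rcases hru with rfl | rfl
    · exact ho j hj
    · have := ho j hj; rw [bil_smul_left] at this; omega
  obtain ⟨w, hw⟩ := exists_mem_zip hlen hrC
  obtain ⟨hfix, himg⟩ := hall _ hw
  refine ⟨wd w, fun j hj => (rep_wd w _).trans (hfix j hj), ?_⟩
  rcases hru with rfl | rfl
  · simpa [rep_wd] using himg
  · rw [rep_smul, rep_wd]
    rcases himg with e | e <;> simp only at e <;> rw [e]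
    · exact Or.inr rfl
    · exact Or.inl (smul_smul_neg _)

/-- The thirteen roots orthogonal to the first three frame roots. -/
def candThree : List Vec :=
  (posRootsA ++ posRootsB).filter fun r => bil r (fv 0) == 0 && bil r (fv 1) == 0 && bil r (fv 2) == 0

/-- The check that five orthogonal roots among them are moved into the frame by one word. -/
def fiveCheck : Bool :=
  candThree.all fun a => (candThree.filter fun r => bil a r == 0).all fun b =>
    ((candThree.filter fun r => bil a r == 0).filter fun r => bil b r == 0).all fun c =>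
      (((candThree.filter fun r => bil a r == 0).filter fun r => bil b r == 0).filter fun r => bil c r == 0).all fun d =>
        ((((candThree.filter fun r => bil a r == 0).filter fun r => bil b r == 0).filter fun r => bil c r == 0).filter
          fun r => bil d r == 0).all fun e =>
            backThree.any fun w => [fv 0, fv 1, fv 2].all (fun f => decide (act w f = f)) &&
              [a, b, c, d, e].all fun x => (List.finRange 8).any fun j =>
                decide (act w x = fv j) || decide (act w x = Vec.smul (-1) (fv j))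

theorem fiveCheck_eq : fiveCheck = true := by decide +kernel

theorem five_step {u : Fin 5 → Vec} (hu : ∀ i, Root (u i)) (ho : ∀ i j, i ≠ j → bil (u i) (u j) = 0)
    (hf : ∀ i, ∀ j : Fin 8, j < 3 → bil (u i) (fv j) = 0) :
    ∃ w : W, (∀ j : Fin 8, j < 3 → rep w (fv j) = fv j) ∧
      ∀ i, ∃ j, rep w (u i) = fv j ∨ rep w (u i) = Vec.smul (-1) (fv j) := by
  choose r hr hru using fun i => (show ∃ r, r ∈ posRootsA ++ posRootsB ∧ (u i = r ∨ u i = Vec.smul (-1) r) from by
    rcases sign_mem (hu i) with h | h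
    · exact ⟨u i, h, Or.inl rfl⟩
    · exact ⟨_, h, Or.inr (smul_smul_neg _).symm⟩)
  have hro : ∀ i j, i ≠ j → bil (r i) (r j) = 0 := by
    intro i j hij
    have := ho i j hij
    rcases hru i with e | e <;> rcases hru j with e' | e' <;> rw [e, e'] at this <;>
      (try simp only [bil_smul_left, bil_smul_right] at this) <;> omega
  have hrf : ∀ i, r i ∈ candThree := by
    intro i
    simp only [candThree, List.mem_filter, Bool.and_eq_true, beq_iff_eq]
    have h' : ∀ j : Fin 8, j < 3 → bil (r i) (fv j) = 0 := fun j hj => by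
      have := hf i j hj
      rcases hru i with e | e <;> rw [e] at this <;> (try simp only [bil_smul_left] at this) <;> omega
    exact ⟨hr i, ⟨h' 0 (by decide), h' 1 (by decide)⟩, h' 2 (by decide)⟩
  have h := fiveCheck_eq
  simp only [fiveCheck, List.all_eq_true, List.mem_filter, beq_iff_eq, List.any_eq_true,
    Bool.and_eq_true, decide_eq_true_eq, Bool.or_eq_true, List.mem_finRange, true_and] at h
  obtain ⟨w, -, hfix, himg⟩ := h (r 0) (hrf 0) (r 1) ⟨hrf 1, hro 0 1 (by decide)⟩ (r 2)
    ⟨⟨hrf 2, hro 0 2 (by decide)⟩, hro 1 2 (by decide)⟩ (r 3)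
    ⟨⟨⟨hrf 3, hro 0 3 (by decide)⟩, hro 1 3 (by decide)⟩, hro 2 3 (by decide)⟩ (r 4)
    ⟨⟨⟨⟨hrf 4, hro 0 4 (by decide)⟩, hro 1 4 (by decide)⟩, hro 2 4 (by decide)⟩, hro 3 4 (by decide)⟩
  refine ⟨wd w, fun j hj => (rep_wd w _).trans (hfix _ ?_), fun i => ?_⟩
  · revert hj; revert j; decide +kernel
  · have hi : r i ∈ [r 0, r 1, r 2, r 3, r 4] := by fin_cases i <;> simp
    obtain ⟨j, hj⟩ := himg _ hi
    refine ⟨j, ?_⟩
    rcases hru i with e | e <;> rw [e]
    · simpa [rep_wd] using hj
    · rw [rep_smul, rep_wd]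
      rcases hj with e' | e' <;> rw [e']
      · exact Or.inr rfl
      · exact Or.inl (smul_smul_neg _)

/-- Eight orthogonal roots are a frame. -/
theorem exists_frame {u : Fin 8 → Vec} (hu : ∀ i, Root (u i))
    (ho : ∀ i j, i ≠ j → bil (u i) (u j) = 0) :
    ∃ w : W, ∀ i, ∃ j, rep w (u i) = fv j ∨ rep w (u i) = Vec.smul (-1) (fv j) := by
  obtain ⟨a, ha⟩ := hu 0
  -- the first root
  let u1 := fun i => rep a⁻¹ (u i)
  have e0 : u1 0 = fv 0 := by show rep a⁻¹ (u 0) = _; rw [← ha, ← rep_mul_apply, inv_mul_cancel, map_one]; rfl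
  have o1 : ∀ i j, i ≠ j → bil (u1 i) (u1 j) = 0 := fun i j h => (bil_rep _ _ _).trans (ho i j h)
  have zero_orth : ∀ {x y z : Vec}, (y = z ∨ y = Vec.smul (-1) z) → bil x y = 0 → bil x z = 0 := by
    rintro x y z (rfl | rfl) h
    · exact h
    · rw [bil_smul_right] at h; omega
  obtain ⟨b, hb, hb1⟩ := back_step backOne_check ((hu 1).rep a⁻¹) (by
    intro j hj
    have : j = 0 := by revert hj; revert j; decide
    subst this; rw [← e0]; exact o1 1 0 (by decide))
  let u2 := fun i => rep b (u1 i)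
  have o2 : ∀ i j, i ≠ j → bil (u2 i) (u2 j) = 0 := fun i j h => (bil_rep _ _ _).trans (o1 i j h)
  have f0 : u2 0 = fv 0 := by show rep b (u1 0) = _; rw [e0]; exact hb 0 (by decide)
  obtain ⟨c, hc, hc2⟩ := back_step backTwo_check (((hu 2).rep a⁻¹).rep b) (by
    intro j hj
    have : j = 0 ∨ j = 1 := by revert hj; revert j; decide
    rcases this with rfl | rfl
    · rw [← f0]; exact o2 2 0 (by decide)
    · exact zero_orth hb1 (o2 2 1 (by decide)))
  let u3 := fun i => rep c (u2 i)
  have o3 : ∀ i j, i ≠ j → bil (u3 i) (u3 j) = 0 := fun i j h => (bil_rep _ _ _).trans (o2 i j h)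
  have g0 : u3 0 = fv 0 := by show rep c (u2 0) = _; rw [f0]; exact hc 0 (by decide)
  have g1 : u3 1 = fv 1 ∨ u3 1 = Vec.smul (-1) (fv 1) := by
    show rep c (u2 1) = _ ∨ rep c (u2 1) = _
    rcases hb1 with e | e
    · exact Or.inl ((congrArg (rep c) e).trans (hc 1 (by decide)))
    · exact Or.inr ((congrArg (rep c) e).trans (by rw [rep_smul, hc 1 (by decide)]))
  obtain ⟨d, hd, hd5⟩ := five_step (u := fun i => u3 ⟨i.1 + 3, by omega⟩)
    (fun i => (((hu _).rep a⁻¹).rep b).rep c) (fun i j h => o3 _ _ (fun e => h (Fin.ext (by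
      simpa using congrArg Fin.val e)))) (by
    intro i j hj
    have : j = 0 ∨ j = 1 ∨ j = 2 := by revert hj; revert j; decide
    have ne : ∀ k : Fin 8, k.1 < 3 → (⟨i.1 + 3, by omega⟩ : Fin 8) ≠ k := fun k hk e => by
      have := congrArg Fin.val e; simp at this; omega
    rcases this with rfl | rfl | rfl
    · rw [← g0]; exact o3 _ 0 (ne 0 (by decide))
    · exact zero_orth g1 (o3 _ 1 (ne 1 (by decide)))
    · exact zero_orth hc2 (o3 _ 2 (ne 2 (by decide))))
  refine ⟨d * c * b * a⁻¹, fun i => ?_⟩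
  simp only [rep_mul_apply]
  by_cases hi : i.1 < 3
  · have : i = 0 ∨ i = 1 ∨ i = 2 := by revert hi; revert i; decide
    rcases this with rfl | rfl | rfl
    · exact ⟨0, Or.inl (by rw [show rep c (rep b (rep a⁻¹ (u 0))) = fv 0 from g0]; exact hd 0 (by decide))⟩
    · refine ⟨1, ?_⟩
      rcases g1 with e | e
      · exact Or.inl ((congrArg (rep d) e).trans (hd 1 (by decide)))
      · exact Or.inr ((congrArg (rep d) e).trans (by rw [rep_smul, hd 1 (by decide)]))
    · refine ⟨2, ?_⟩
      rcases hc2 with e | e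
      · exact Or.inl ((congrArg (rep d) e).trans (hd 2 (by decide)))
      · exact Or.inr ((congrArg (rep d) e).trans (by rw [rep_smul, hd 2 (by decide)]))
  · obtain ⟨j, hj⟩ := hd5 ⟨i.1 - 3, by omega⟩
    have e : (⟨i.1 - 3 + 3, by omega⟩ : Fin 8) = i := Fin.ext (by simp; omega)
    refine ⟨j, ?_⟩
    simpa [e, u3, u2, u1] using hj

/-- Eight commuting reflections are conjugate to the reflections in the frame roots. -/
theorem refl_frame {t : Fin 8 → W} (ht : ∀ i, IsRefl (t i)) (hinj : Function.Injective t)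
    (hc : ∀ i j, CommZ (t i) (t j)) :
    ∃ (v : Wp) (σ : Equiv.Perm (Fin 8)), ∀ i, (v : W) * t i * (v : W)⁻¹ = fr (σ i) := by
  choose u hu hru using fun i => (ht i).exists_root
  have ho : ∀ i j, i ≠ j → bil (u i) (u j) = 0 := fun i j h =>
    (hc i j).orth (fun e => h (hinj e)) (hu i) (hu j) (hru i) (hru j)
  obtain ⟨w, hw⟩ := exists_frame hu ho
  choose j hj using hw
  have he : ∀ i, w * t i * w⁻¹ = fr (j i) := fun i => by
    rcases hj i with e | e
    · exact (e ▸ (hru i).conj w : ReflIn (w * t i * w⁻¹) (fv (j i))).unique (reflIn_fr _)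
    · exact (e ▸ (hru i).conj w : ReflIn (w * t i * w⁻¹) _).unique (reflIn_fr _).neg
  have jinj : Function.Injective j := fun a b h => hinj (by
    have := (he a).trans (h ▸ (he b).symm)
    exact mul_left_cancel (mul_right_cancel this))
  let σ := Equiv.ofBijective j (Finite.injective_iff_bijective.1 jinj)
  rcases Int.units_eq_one_or (sgn w) with h | h
  · exact ⟨⟨w, h⟩, σ, he⟩
  · refine ⟨⟨fr 0 * w, MonoidHom.mem_ker.2 (by rw [map_mul, (isRefl_fr 0).sgn_eq, h]; rfl)⟩, σ, fun i => ?_⟩
    show fr 0 * w * t i * (fr 0 * w)⁻¹ = fr (j i)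
    calc _ = fr 0 * (w * t i * w⁻¹) * (fr 0)⁻¹ := by group
      _ = _ := by rw [he, fr_comm, mul_inv_cancel_right]

/-- There are no nine commuting reflections. -/
theorem refl_nine {t : Fin 9 → W} (ht : ∀ i, IsRefl (t i)) (hinj : Function.Injective t)
    (hc : ∀ i j, CommZ (t i) (t j)) : False := by
  choose u hu hru using fun i => (ht i).exists_root
  have ho : ∀ i j, i ≠ j → bil (u i) (u j) = 0 := fun i j h =>
    (hc i j).orth (fun e => h (hinj e)) (hu i) (hu j) (hru i) (hru j)
  obtain ⟨w, hw⟩ := exists_frame (u := fun i : Fin 8 => u i.castSucc) (fun i => hu _)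
    (fun i j h => ho _ _ fun e => h (Fin.castSucc_injective _ e))
  choose j hj using hw
  have jinj : Function.Injective j := fun a b h => by
    by_contra hab
    have h0 : bil (rep w (u a.castSucc)) (rep w (u b.castSucc)) = 0 :=
      (bil_rep _ _ _).trans (ho _ _ fun e => hab (Fin.castSucc_injective _ e))
    rcases hj a with e | e <;> rcases hj b with e' | e' <;> rw [e, e', h] at h0 <;>
      simp [bil_smul_left, bil_smul_right, bil_fv] at h0
  have hz : rep w (u (Fin.last 8)) = ⟨0, 0, 0, 0, 0, 0, 0, 0⟩ := by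
    refine ext_crd fun k => ?_
    obtain ⟨a, rfl⟩ := (Finite.injective_iff_surjective.1 jinj) k
    have h0 : bil (rep w (u (Fin.last 8))) (rep w (u a.castSucc)) = 0 :=
      (bil_rep _ _ _).trans (ho _ _ (Fin.castSucc_lt_last a).ne')
    have : bil (rep w (u (Fin.last 8))) (fv (j a)) = 0 := by
      rcases hj a with e | e <;> rw [e] at h0
      · exact h0
      · rw [bil_smul_right] at h0; omega
    rw [crd, this]
    simp [crd, bil]
  have := ((hu (Fin.last 8)).rep w).norm
  rw [hz] at this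
  simp [bil] at this

end CfsgLib.StdO8
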