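import Cfsg.Agent.StdO8.Cover
import Cfsg.Agent.StdO8.Pull
import Cfsg.Agent.StdCo0.Cyclic
import Cfsg.Agent.Eq.Def_Local
import Cfsg.Agent.ZStar.Theorem

/-!
The setting of a standard subgroup isomorphic to the double cover of `Ω⁺₈(2)`: the centraliser of
the central involution acts through the Coxeter group of type `E₈`.
-/

set_option autoImplicit false
set_option maxRecDepth 8000

open scoped commutatorElement

namespace CfsgLib.StdO8

open CfsgLib.O8Mult (W cs Wp sgn sgn_simple)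

/-- An even element as an element of the even subgroup. -/
noncomputable def toWp (w : W) : Wp := if h : sgn w = 1 then ⟨w, h⟩ else 1

theorem coe_toWp {w : W} (h : sgn w = 1) : (toWp w : W) = w := by rw [toWp, dif_pos h]

theorem toWp_coe (x : Wp) : toWp (x : W) = x := Subtype.ext (coe_toWp x.2)

theorem toWp_one : toWp 1 = 1 := Subtype.ext (coe_toWp (map_one sgn))

theorem toWp_mul {a b : W} (ha : sgn a = 1) (hb : sgn b = 1) : toWp (a * b) = toWp a * toWp b :=
  Subtype.ext (by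
    rw [Subgroup.coe_mul, coe_toWp ha, coe_toWp hb, coe_toWp (by rw [map_mul, ha, hb, one_mul])])

theorem cW_toWp (w : W) {a : W} (ha : sgn a = 1) : cW w (toWp a) = toWp (w * a * w⁻¹) :=
  Subtype.ext (by
    rw [cW_apply, coe_toWp ha, coe_toWp (by rw [map_mul, map_mul, map_inv, mul_right_comm, mul_inv_cancel, one_mul, ha])])

theorem sgn_conj (v w : W) : sgn (v * w * v⁻¹) = sgn w := by
  rw [map_mul, map_mul, map_inv, mul_right_comm, mul_inv_cancel, one_mul]

theorem sgn_zW : sgn (zW : W) = 1 := zW.2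

theorem zW_mul_zW : (zW : W) * (zW : W) = 1 := by rw [zW_eq, dW_sq]

theorem sgn_eq_neg {w : W} (h : sgn w ≠ 1) : sgn w = -1 := (Int.units_eq_one_or _).resolve_left h

theorem cW_zW (w : W) : cW w zW = zW := Subtype.ext (by rw [cW_apply, zW_conj])

variable {G : Type*} [Group G]

/-- The hypotheses: a standard subgroup and its parametrisation. -/
structure Setup (L : Subgroup G) (ι : Wp →* G) : Prop where
  inj : Function.Injective ι
  range : ι.range = L
  tight : Cfsg.IsTightlyEmbedded (Subgroup.centralizer (L : Set G))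
  norm : Subgroup.normalizer (L : Set G) =
    Subgroup.normalizer (Subgroup.centralizer (L : Set G) : Set G)
  cyc : ∀ R : Sylow 2 ↥(Subgroup.centralizer (L : Set G)),
    IsCyclic ↥(R : Subgroup ↥(Subgroup.centralizer (L : Set G)))

/-- The action of an element on the parametrised subgroup. -/
def Act (ι : Wp →* G) (n : G) (w : W) : Prop := ∀ x : Wp, n * ι x = ι (cW w x) * n

/-- The central involution. -/
noncomputable def zG (ι : Wp →* G) : G := ι zW

/-- A conjugate of the central involution. -/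
def Conj (ι : Wp →* G) (x : G) : Prop := ∃ g : G, g * zG ι * g⁻¹ = x

/-- The parity of `x` seen from the conjugate `p`. -/
def Th (ι : Wp →* G) (p x : G) (c : ℤˣ) : Prop :=
  ∃ g w, g * zG ι * g⁻¹ = p ∧ Act ι (g⁻¹ * x * g) w ∧ sgn w = c

theorem Act.mul {ι : Wp →* G} {m n : G} {v w : W} (hm : Act ι m v) (hn : Act ι n w) : Act ι (m * n) (v * w) :=
  fun x => by rw [mul_assoc, hn, ← mul_assoc, hm, mul_assoc, map_mul, MulAut.mul_apply]

theorem act_one (ι : Wp →* G) : Act ι 1 1 := fun x => by rw [map_one, MulAut.one_apply, one_mul, mul_one]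

theorem Act.inv {ι : Wp →* G} {n : G} {w : W} (hn : Act ι n w) : Act ι n⁻¹ w⁻¹ := fun x => by
  have h1 := hn (cW w⁻¹ x)
  rw [← MulAut.mul_apply, ← map_mul, mul_inv_cancel, map_one, MulAut.one_apply] at h1
  calc n⁻¹ * ι x = n⁻¹ * (ι x * n) * n⁻¹ := by group
    _ = n⁻¹ * (n * ι (cW w⁻¹ x)) * n⁻¹ := by rw [h1]
    _ = _ := by group

theorem act_iota (ι : Wp →* G) (v : Wp) : Act ι (ι v) (v : W) := fun x => by
  rw [← map_mul, ← map_mul]
  congr 1
  apply Subtype.ext
  rw [Subgroup.coe_mul, Subgroup.coe_mul, cW_apply, inv_mul_cancel_right]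

theorem Act.conj {ι : Wp →* G} {n : G} {w : W} (hn : Act ι n w) (v : Wp) :
    Act ι (ι v * n * (ι v)⁻¹) ((v : W) * w * (v : W)⁻¹) :=
  ((act_iota ι v).mul hn).mul (act_iota ι v).inv

theorem Act.comm_z {ι : Wp →* G} {n : G} {w : W} (hn : Act ι n w) : n * zG ι = zG ι * n := by
  rw [zG, hn zW, cW_zW]

theorem Act.mul_z {ι : Wp →* G} {n : G} {w : W} (hn : Act ι n w) : Act ι n ((zW : W) * w) := fun x => by
  rw [hn, map_mul, MulAut.mul_apply]
  congr 2
  exact Subtype.ext (by rw [cW_apply (zW : W), zW_comm, mul_inv_cancel_right])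

namespace Setup

variable {L : Subgroup G} {ι : Wp →* G} (h : Setup L ι)
include h

theorem mem_L (x : Wp) : ι x ∈ L := h.range ▸ ⟨x, rfl⟩

theorem z_sq : zG ι * zG ι = 1 := by
  rw [zG, ← map_mul, show zW * zW = 1 from Subtype.ext zW_mul_zW, map_one]

theorem z_ne_one : zG ι ≠ 1 := fun e => zW_ne_one (by
  rw [h.inj (e.trans (map_one ι).symm)]; rfl)

theorem orderOf_z : orderOf (zG ι) = 2 := orderOf_eq_prime (by rw [pow_two, h.z_sq]) h.z_ne_one

theorem act_unique {n : G} {v w : W} (hv : Act ι n v) (hw : Act ι n w) : w = v ∨ w = (zW : W) * v := by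
  have hc : ∀ a : Wp, (v⁻¹ * w) * a = (a : W) * (v⁻¹ * w) := fun a => by
    have e := h.inj (mul_right_cancel ((hv a).symm.trans (hw a)))
    have e' := congrArg Subtype.val e
    simp only [cW_apply] at e'
    calc v⁻¹ * w * a = v⁻¹ * (w * a * w⁻¹) * w := by group
      _ = v⁻¹ * (v * a * v⁻¹) * w := by rw [e']
      _ = _ := by group
  rcases cent_Wp hc with e | e
  · exact Or.inl (inv_mul_eq_one.1 e).symm
  · exact Or.inr (by rw [inv_mul_eq_iff_eq_mul.1 e, zW_comm])

theorem sgn_unique {n : G} {v w : W} (hv : Act ι n v) (hw : Act ι n w) : sgn v = sgn w := by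
  rcases h.act_unique hv hw with rfl | rfl
  · rfl
  · rw [map_mul, sgn_zW, one_mul]

theorem act_one_iff {k : G} : Act ι k 1 ↔ k ∈ Subgroup.centralizer (L : Set G) := by
  constructor
  · intro hk a ha
    rw [SetLike.mem_coe, ← h.range] at ha
    obtain ⟨x, rfl⟩ := ha
    rw [hk x, map_one, MulAut.one_apply]
  · intro hk x
    rw [map_one, MulAut.one_apply]
    exact (hk (ι x) (h.mem_L x)).symm

theorem z_mem_K : zG ι ∈ Subgroup.centralizer (L : Set G) := by
  rw [← h.act_one_iff]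
  intro x
  rw [map_one, MulAut.one_apply, zG, ← map_mul, ← map_mul, Subgroup.mem_center_iff.1 zW_mem_center x]

theorem mem_L_center {a : G} (ha : a ∈ L) (hk : a ∈ Subgroup.centralizer (L : Set G)) : a = 1 ∨ a = zG ι := by
  rw [← h.range] at ha
  obtain ⟨x, rfl⟩ := ha
  rcases h.act_unique (h.act_one_iff.2 hk) (act_iota ι x) with e | e
  · exact Or.inl (by rw [show x = 1 from Subtype.ext e, map_one])
  · exact Or.inr (by rw [mul_one] at e; rw [show x = zW from Subtype.ext e]; rfl)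

variable [Finite G]

theorem eq_z {k : G} (hk : k ∈ Subgroup.centralizer (L : Set G)) (h2 : k * k = 1) :
    k = 1 ∨ k = zG ι := by
  by_contra hne
  push Not at hne
  have : Fact (Nat.Prime 2) := ⟨Nat.prime_two⟩
  set K := Subgroup.centralizer (L : Set G)
  let kK : K := ⟨k, hk⟩
  let zK : K := ⟨zG ι, h.z_mem_K⟩
  have hkk : kK * kK = 1 := Subtype.ext h2
  have hzz : zK * zK = 1 := Subtype.ext h.z_sq
  have hcom : kK * zK = zK * kK := Subtype.ext (h.act_one_iff.2 hk).comm_z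
  let P : Subgroup K := Subgroup.zpowers kK ⊔ Subgroup.zpowers zK
  have hpg : IsPGroup 2 P := by
    refine IsPGroup.to_sup_of_normal_right' ?_ ?_ ?_
    · exact IsPGroup.of_card (n := 1) (by
        rw [Nat.card_zpowers, pow_one]
        exact orderOf_eq_prime (by rw [pow_two, hkk]) fun e => hne.1 (congrArg Subtype.val e))
    · exact IsPGroup.of_card (n := 1) (by
        rw [Nat.card_zpowers, pow_one]
        exact orderOf_eq_prime (by rw [pow_two, hzz]) fun e => h.z_ne_one (congrArg Subtype.val e))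
    · rw [Subgroup.zpowers_le, Subgroup.mem_normalizer_iff]
      intro x
      have hcent : ∀ y ∈ Subgroup.zpowers zK, kK * y = y * kK := by
        rintro y ⟨t, rfl⟩; exact (Commute.zpow_right hcom t).eq
      constructor
      · intro hx; rw [hcent x hx, mul_inv_cancel_right]; exact hx
      · intro hx
        have := hcent _ hx
        rw [inv_mul_cancel_right] at this
        have e : x = kK * x * kK⁻¹ := mul_left_cancel this.symm
        rw [e]; exact hx
  obtain ⟨R, hR⟩ := hpg.exists_le_sylow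
  have := h.cyc R
  classical
  haveI : Fintype (R : Subgroup K) := Fintype.ofFinite _
  have hcard := IsCyclic.card_pow_eq_one_le (α := ↥(R : Subgroup K)) (n := 2) (by norm_num)
  have hkR : kK ∈ (R : Subgroup K) := hR (Subgroup.mem_sup_left (Subgroup.mem_zpowers _))
  have hzR : zK ∈ (R : Subgroup K) := hR (Subgroup.mem_sup_right (Subgroup.mem_zpowers _))
  have hsub : ({1, ⟨kK, hkR⟩, ⟨zK, hzR⟩} : Finset (R : Subgroup K)) ⊆
      Finset.univ.filter (fun a => a ^ 2 = 1) := by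
    intro a ha
    simp only [Finset.mem_insert, Finset.mem_singleton] at ha
    rw [Finset.mem_filter]
    refine ⟨Finset.mem_univ _, ?_⟩
    rcases ha with rfl | rfl | rfl
    · exact one_pow _
    · exact Subtype.ext (by rw [SubmonoidClass.coe_pow, pow_two]; exact hkk)
    · exact Subtype.ext (by rw [SubmonoidClass.coe_pow, pow_two]; exact hzz)
  have h3 : ({1, ⟨kK, hkR⟩, ⟨zK, hzR⟩} : Finset (R : Subgroup K)).card = 3 := by
    rw [Finset.card_eq_three]
    exact ⟨_, _, _, fun e => hne.1 (congrArg (fun r : (R : Subgroup K) => ((r : K) : G)) e).symm,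
      fun e => h.z_ne_one (congrArg (fun r : (R : Subgroup K) => ((r : K) : G)) e).symm,
      fun e => hne.2 (congrArg (fun r : (R : Subgroup K) => ((r : K) : G)) e), rfl⟩
  have := Finset.card_le_card hsub
  omega

omit [Finite G] in
theorem cent_le {g : G} (hg : g * zG ι = zG ι * g) : g ∈ Subgroup.normalizer (L : Set G) := by
  rw [h.norm]
  by_contra hgn
  have hodd := h.tight.2 g hgn
  have hz : zG ι ∈ Subgroup.centralizer (L : Set G) ⊓
      (Subgroup.centralizer (L : Set G)).map (MulAut.conj g).toMonoidHom := by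
    refine Subgroup.mem_inf.2 ⟨h.z_mem_K, Subgroup.mem_map.2 ⟨_, h.z_mem_K, ?_⟩⟩
    show g * zG ι * g⁻¹ = zG ι
    rw [hg, mul_inv_cancel_right]
  have h2 : 2 ∣ Nat.card ↥(Subgroup.centralizer (L : Set G) ⊓
      (Subgroup.centralizer (L : Set G)).map (MulAut.conj g).toMonoidHom) := by
    have := orderOf_dvd_natCard (G := ↥(Subgroup.centralizer (L : Set G) ⊓
      (Subgroup.centralizer (L : Set G)).map (MulAut.conj g).toMonoidHom)) ⟨zG ι, hz⟩
    rwa [Subgroup.orderOf_mk, h.orderOf_z] at this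
  exact (Nat.not_even_iff_odd.2 hodd) (even_iff_two_dvd.2 h2)

omit [Finite G] in
theorem exists_act {n : G} (hn : n * zG ι = zG ι * n) : ∃ w, Act ι n w := by
  have hN := h.cent_le hn
  have hmem : ∀ x, n * ι x * n⁻¹ ∈ ι.range := fun x => by
    rw [h.range]; exact (Subgroup.mem_normalizer_iff.1 hN _).1 (h.mem_L x)
  have hmem' : ∀ x, n⁻¹ * ι x * n ∈ ι.range := fun x => by
    rw [h.range]
    refine (Subgroup.mem_normalizer_iff.1 hN _).2 ?_
    rw [show n * (n⁻¹ * ι x * n) * n⁻¹ = ι x by group]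
    exact h.mem_L x
  choose f hf using hmem
  choose f' hf' using hmem'
  let φ : MulAut Wp :=
    { toFun := f
      invFun := f'
      left_inv := fun x => h.inj (by rw [hf', hf]; group)
      right_inv := fun x => h.inj (by rw [hf, hf']; group)
      map_mul' := fun x y => h.inj (by rw [map_mul, hf, hf, hf, map_mul]; group) }
  obtain ⟨w, hw⟩ := aut_Wp φ
  refine ⟨w, fun x => ?_⟩
  rw [show cW w x = φ x from Subtype.ext (hw x).symm, show ι (φ x) = n * ι x * n⁻¹ from hf x,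
    inv_mul_cancel_right]

omit [Finite G] in
theorem decomp {n : G} {w : W} (hw : Act ι n w) (hs : sgn w = 1) :
    ∃ k ∈ Subgroup.centralizer (L : Set G), n = ι (toWp w) * k := by
  refine ⟨(ι (toWp w))⁻¹ * n, h.act_one_iff.1 ?_, by group⟩
  have := (act_iota ι (toWp w)).inv.mul hw
  rwa [coe_toWp hs, inv_mul_cancel] at this

theorem even_invol {n : G} {w : W} (hw : Act ι n w) (hs : sgn w = 1) (h2 : n * n = 1) (hw2 : w * w = 1) :
    ∃ l : Wp, n = ι l ∧ l * l = 1 ∧ ((l : W) = w ∨ (l : W) = (zW : W) * w) := by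
  obtain ⟨k, hk, rfl⟩ := h.decomp hw hs
  have hll : toWp w * toWp w = 1 := by rw [← toWp_mul hs hs, hw2, toWp_one]
  have hkk : k * k = 1 := by
    calc k * k = ι (toWp w * toWp w) * (k * k) := by rw [hll, map_one, one_mul]
      _ = ι (toWp w) * (ι (toWp w) * k) * k := by rw [map_mul]; group
      _ = ι (toWp w) * (k * ι (toWp w)) * k := by rw [(hk _ (h.mem_L _))]
      _ = ι (toWp w) * k * (ι (toWp w) * k) := by group
      _ = 1 := h2
  rcases h.eq_z hk hkk with rfl | rfl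
  · exact ⟨toWp w, mul_one _, hll, Or.inl (coe_toWp hs)⟩
  · refine ⟨zW * toWp w, ?_, ?_, Or.inr ?_⟩
    · rw [map_mul, show ι zW = zG ι from rfl, ← h.z_mem_K _ (h.mem_L _)]
    · apply Subtype.ext
      have := congrArg Subtype.val hll
      simp only [Subgroup.coe_mul, Subgroup.coe_one] at this ⊢
      rw [mul_assoc, ← mul_assoc (toWp w : W), ← zW_comm, ← mul_assoc, ← mul_assoc, zW_mul_zW, one_mul, this]
    · rw [Subgroup.coe_mul, coe_toWp hs]

theorem comm_K_odd {a b : G} (ha : a ∈ Subgroup.centralizer (L : Set G))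
    (hb : b ∈ Subgroup.centralizer (L : Set G)) : Odd (orderOf ⁅a, b⁆) := by
  have : Fact (Nat.Prime 2) := ⟨Nat.prime_two⟩
  set K := Subgroup.centralizer (L : Set G)
  have h2 : 2 ∣ Nat.card K := by
    have := orderOf_dvd_natCard (G := K) ⟨zG ι, h.z_mem_K⟩
    rwa [Subgroup.orderOf_mk, h.orderOf_z] at this
  have hmin : (Nat.card K).minFac = 2 := Nat.minFac_eq_two_iff _ |>.2 h2
  let P : Sylow 2 K := default
  have hle := (h.cyc P).normalizer_le_centralizer hmin
  have hsurj : Function.Surjective (MonoidHom.transferSylow P hle) := by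
    have hf : Function.Bijective
        ((MonoidHom.transferSylow P hle).domRestrict (P : Subgroup K)) :=
      (MonoidHom.transferSylow_domRestrict_eq_pow P hle).symm ▸
        (P.2.powEquiv' P.not_dvd_index).bijective
    intro y
    obtain ⟨x, hx⟩ := hf.2 y
    exact ⟨x, hx⟩
  have hc := (MonoidHom.transferSylow P hle).ker.card_mul_index
  rw [Subgroup.index_ker, MonoidHom.range_eq_top.2 hsurj, Subgroup.card_top,
    ← (P : Subgroup K).card_mul_index, mul_comm] at hc
  have he : Nat.card (MonoidHom.transferSylow P hle).ker = (P : Subgroup K).index :=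
    Nat.eq_of_mul_eq_mul_left Nat.card_pos hc
  have hoddker : Odd (Nat.card (MonoidHom.transferSylow P hle).ker) := by
    rw [he, Nat.odd_iff]
    have := P.not_dvd_index
    omega
  have hm : ⁅(⟨a, ha⟩ : K), ⟨b, hb⟩⁆ ∈ (MonoidHom.transferSylow P hle).ker := by
    rw [MonoidHom.mem_ker, map_commutatorElement]
    haveI := (h.cyc P).isMulCommutative
    exact commutatorElement_eq_one_iff_mul_comm.2 (mul_comm' _ _)
  have hd := orderOf_dvd_natCard (G := (MonoidHom.transferSylow P hle).ker) ⟨_, hm⟩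
  rw [Subgroup.orderOf_mk] at hd
  have e : orderOf ⁅a, b⁆ = orderOf ⁅(⟨a, ha⟩ : ↥K), (⟨b, hb⟩ : ↥K)⁆ := by
    rw [← orderOf_injective K.subtype K.subtype_injective, map_commutatorElement]; rfl
  rw [e]
  exact Odd.of_dvd_nat hoddker hd

/-- Double commutators of order two in the centraliser of the central involution lie in the subgroup. -/
theorem comm_comm_mem {a b c d : G} (ha : a * zG ι = zG ι * a) (hb : b * zG ι = zG ι * b)
    (hc : c * zG ι = zG ι * c) (hd : d * zG ι = zG ι * d) (h2 : ⁅⁅a, b⁆, ⁅c, d⁆⁆ * ⁅⁅a, b⁆, ⁅c, d⁆⁆ = 1) :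
    ⁅⁅a, b⁆, ⁅c, d⁆⁆ ∈ L := by
  have hcm : ∀ {a b : G}, a * zG ι = zG ι * a → b * zG ι = zG ι * b →
      ∃ u : Wp, ∃ k ∈ Subgroup.centralizer (L : Set G), ⁅a, b⁆ = ι u * k := by
    intro a b ha hb
    obtain ⟨v, hv⟩ := h.exists_act ha
    obtain ⟨w, hw⟩ := h.exists_act hb
    have hact : Act ι ⁅a, b⁆ (v * w * v⁻¹ * w⁻¹) := by
      rw [commutatorElement_def]; exact ((hv.mul hw).mul hv.inv).mul hw.inv
    obtain ⟨k, hk, e⟩ := h.decomp hact (by
      simp only [map_mul, map_inv]; rw [mul_right_comm (sgn v), mul_inv_cancel, one_mul, mul_inv_cancel])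
    exact ⟨_, k, hk, e⟩
  obtain ⟨u, k, hk, e1⟩ := hcm ha hb
  obtain ⟨u', k', hk', e2⟩ := hcm hc hd
  have key : ⁅ι u * k, ι u' * k'⁆ = ι ⁅u, u'⁆ * ⁅k, k'⁆ := by
    have ck : ∀ {k : G}, k ∈ Subgroup.centralizer (L : Set G) → ∀ x, k * ι x = ι x * k :=
      fun hk x => (hk _ (h.mem_L x)).symm
    simp only [commutatorElement_def, map_mul, map_inv]
    calc ι u * k * (ι u' * k') * (ι u * k)⁻¹ * (ι u' * k')⁻¹
        = ι u * (k * ι u') * k' * (k⁻¹ * (ι u)⁻¹) * (k'⁻¹ * (ι u')⁻¹) := by group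
      _ = ι u * ι u' * (k * k' * k⁻¹ * ι u⁻¹) * (k'⁻¹ * (ι u')⁻¹) := by rw [ck hk, map_inv]; group
      _ = ι u * ι u' * ι u⁻¹ * (k * k' * k⁻¹ * k'⁻¹ * ι u'⁻¹) := by
        rw [ck (mul_mem (mul_mem hk hk') (inv_mem hk)), map_inv, map_inv]; group
      _ = ι u * ι u' * (ι u)⁻¹ * (ι u')⁻¹ * (k * k' * k⁻¹ * k'⁻¹) := by
        rw [ck (mul_mem (mul_mem (mul_mem hk hk') (inv_mem hk)) (inv_mem hk')), map_inv, map_inv]; group
  rw [e1, e2, key] at h2 ⊢
  set l := ι ⁅u, u'⁆ with hl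
  set m := ⁅k, k'⁆ with hm
  have hmK : m ∈ Subgroup.centralizer (L : Set G) :=
    mul_mem (mul_mem (mul_mem hk hk') (inv_mem hk)) (inv_mem hk')
  have hlL : l ∈ L := h.mem_L _
  have hmm : m * m = (l * l)⁻¹ := by
    refine (inv_eq_of_mul_eq_one_right ?_).symm
    calc l * l * (m * m) = l * (l * m) * m := by group
      _ = l * (m * l) * m := by rw [hmK _ hlL]
      _ = l * m * (l * m) := by group
      _ = 1 := h2
  have h4 : m ^ 4 = 1 := by
    have : m ^ 2 = 1 ∨ m ^ 2 = zG ι := by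
      refine h.mem_L_center ?_ (pow_mem hmK 2)
      rw [pow_two, hmm]
      exact inv_mem (mul_mem hlL hlL)
    rcases this with e | e <;> rw [show m ^ 4 = m ^ 2 * m ^ 2 by rw [← pow_add], e]
    · exact one_mul 1
    · exact h.z_sq
  have hone : m = 1 := by
    rw [← orderOf_eq_one_iff]
    have hd4 : orderOf m ∣ 4 := orderOf_dvd_of_pow_eq_one h4
    have hodd : Odd (orderOf m) := h.comm_K_odd hk hk'
    have : orderOf m ≤ 4 := Nat.le_of_dvd (by norm_num) hd4
    obtain ⟨t, ht⟩ := hodd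
    rw [ht] at hd4 this ⊢
    have : t ≤ 1 := by omega
    interval_cases t <;> simp_all
  rw [hone, mul_one]
  exact hlL

/-- Pulled elements. -/
theorem pull {g y : G} {w : W} (hy : g * zG ι * g⁻¹ = y) (hw : Act ι y w) {x : W} (hx : x ∈ Pull w) :
    sgn x = 1 ∧ g⁻¹ * ι (toWp x) * g ∈ L := by
  let S : Subgroup Wp := L.comap ((MulAut.conj g⁻¹).toMonoidHom.comp ι)
  have hS : ∀ x, x ∈ S ↔ g⁻¹ * ι x * g ∈ L := fun x => by
    show g⁻¹ * ι x * g⁻¹⁻¹ ∈ L ↔ _
    rw [inv_inv]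
  have hle : Pull w ≤ S.map Wp.subtype := by
    rw [Pull, Subgroup.closure_le]
    rintro _ ⟨a, b, c, d, hm, he2, rfl⟩
    have ha := hm a (by simp)
    have hb := hm b (by simp)
    have hc := hm c (by simp)
    have hd := hm d (by simp)
    let f : Wp →* G := (MulAut.conj g⁻¹).toMonoidHom.comp ι
    have hf : ∀ x, f x = g⁻¹ * ι x * g := fun x => by show g⁻¹ * ι x * g⁻¹⁻¹ = _; rw [inv_inv]
    have hcomm : ∀ t : W, sgn t = 1 ∧ t * w = w * t → f (toWp t) * zG ι = zG ι * f (toWp t) := by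
      intro t ht
      have h1 : ι (toWp t) * y = y * ι (toWp t) := by
        rw [hw, cW_toWp w ht.1, ← ht.2, mul_inv_cancel_right]
      rw [hf]
      calc g⁻¹ * ι (toWp t) * g * zG ι = g⁻¹ * (ι (toWp t) * (g * zG ι * g⁻¹)) * g := by group
        _ = g⁻¹ * (y * ι (toWp t)) * g := by rw [hy, h1]
        _ = zG ι * (g⁻¹ * ι (toWp t) * g) := by rw [← hy]; group
    have hcoe : ((⁅⁅toWp a, toWp b⁆, ⁅toWp c, toWp d⁆⁆ : Wp) : W) = ⁅⁅a, b⁆, ⁅c, d⁆⁆ := by
      simp only [commutatorElement_def, Subgroup.coe_mul, Subgroup.coe_inv, coe_toWp ha.1, coe_toWp hb.1,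
        coe_toWp hc.1, coe_toWp hd.1]
    refine ⟨⁅⁅toWp a, toWp b⁆, ⁅toWp c, toWp d⁆⁆, ?_, hcoe⟩
    show f ⁅⁅toWp a, toWp b⁆, ⁅toWp c, toWp d⁆⁆ ∈ L
    simp only [map_commutatorElement]
    refine h.comm_comm_mem (hcomm a ha) (hcomm b hb) (hcomm c hc) (hcomm d hd) ?_
    simp only [← map_commutatorElement, ← map_mul]
    rw [show ⁅⁅toWp a, toWp b⁆, ⁅toWp c, toWp d⁆⁆ * ⁅⁅toWp a, toWp b⁆, ⁅toWp c, toWp d⁆⁆ = 1 from
      Subtype.ext (by rw [Subgroup.coe_mul, hcoe, he2]; rfl), map_one]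
  obtain ⟨u, hu, rfl⟩ := hle hx
  exact ⟨u.2, by rw [show toWp (Wp.subtype u) = u from toWp_coe u]; exact (hS u).1 hu⟩

omit [Finite G] in
/-- Replacing the conjugating element. -/
theorem act_change {g g' : G} (hg : g * zG ι * g⁻¹ = g' * zG ι * g'⁻¹) {x : G} {w : W}
    (hw : Act ι (g⁻¹ * x * g) w) : ∃ v, Act ι (g'⁻¹ * x * g') (v * w * v⁻¹) := by
  have hn : (g'⁻¹ * g) * zG ι = zG ι * (g'⁻¹ * g) := by
    calc g'⁻¹ * g * zG ι = g'⁻¹ * (g * zG ι * g⁻¹) * g := by group
      _ = g'⁻¹ * (g' * zG ι * g'⁻¹) * g := by rw [hg]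
      _ = zG ι * (g'⁻¹ * g) := by group
  obtain ⟨v, hv⟩ := h.exists_act hn
  refine ⟨v, ?_⟩
  rw [show g'⁻¹ * x * g' = g'⁻¹ * g * (g⁻¹ * x * g) * (g'⁻¹ * g)⁻¹ by group]
  exact (hv.mul hw).mul hv.inv

omit [Finite G] in
theorem th_at {g p x : G} {c : ℤˣ} (hp : g * zG ι * g⁻¹ = p) (ht : Th ι p x c) :
    ∃ w, Act ι (g⁻¹ * x * g) w ∧ sgn w = c := by
  obtain ⟨g', w, hg', hw, hs⟩ := ht
  obtain ⟨v, hv⟩ := h.act_change (hg'.trans hp.symm) hw
  exact ⟨_, hv, by rw [sgn_conj, hs]⟩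

omit [Finite G] in
theorem th_unique {p x : G} {c c' : ℤˣ} (ht : Th ι p x c) (ht' : Th ι p x c') : c = c' := by
  obtain ⟨g, w, hg, hw, rfl⟩ := ht
  obtain ⟨w', hw', rfl⟩ := h.th_at hg ht'
  exact h.sgn_unique hw hw'

omit [Finite G] in
theorem th_mul {p x y : G} {c c' : ℤˣ} (ht : Th ι p x c) (ht' : Th ι p y c') : Th ι p (x * y) (c * c') := by
  obtain ⟨g, w, hg, hw, rfl⟩ := ht
  obtain ⟨w', hw', rfl⟩ := h.th_at hg ht'
  refine ⟨g, w * w', hg, ?_, map_mul _ _ _⟩
  rw [show g⁻¹ * (x * y) * g = g⁻¹ * x * g * (g⁻¹ * y * g) by group]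
  exact hw.mul hw'

omit [Finite G] in
theorem th_exists {p x : G} (hp : Conj ι p) (hx : x * p = p * x) : ∃ c, Th ι p x c := by
  obtain ⟨g, rfl⟩ := hp
  obtain ⟨w, hw⟩ := h.exists_act (n := g⁻¹ * x * g) (by
    calc g⁻¹ * x * g * zG ι = g⁻¹ * (x * (g * zG ι * g⁻¹)) * g := by group
      _ = g⁻¹ * (g * zG ι * g⁻¹ * x) * g := by rw [hx]
      _ = zG ι * (g⁻¹ * x * g) := by group)
  exact ⟨_, g, w, rfl, hw, rfl⟩

omit [Finite G] in
theorem th_self {p : G} (hp : Conj ι p) : Th ι p p 1 := by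
  obtain ⟨g, rfl⟩ := hp
  refine ⟨g, 1, rfl, ?_, map_one _⟩
  rw [show g⁻¹ * (g * zG ι * g⁻¹) * g = zG ι by group]
  exact h.act_one_iff.2 h.z_mem_K

omit h [Finite G] in
/-- Transport along conjugation. -/
theorem th_conj {p x : G} {c : ℤˣ} (ht : Th ι p x c) (k : G) : Th ι (k * p * k⁻¹) (k * x * k⁻¹) c := by
  obtain ⟨g, w, rfl, hw, hs⟩ := ht
  refine ⟨k * g, w, by group, ?_, hs⟩
  rwa [show (k * g)⁻¹ * (k * x * k⁻¹) * (k * g) = g⁻¹ * x * g by group]

omit h [Finite G] in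
theorem conj_conj {p : G} (hp : Conj ι p) (k : G) : Conj ι (k * p * k⁻¹) := by
  obtain ⟨g, rfl⟩ := hp
  exact ⟨k * g, by group⟩

end Setup

end CfsgLib.StdO8
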