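import Cfsg.Agent.StdO8.Kill

/-!
The homomorphism given by an outer involution, and the exclusion of the outer class of three
commuting reflections.
-/

set_option autoImplicit false
set_option maxRecDepth 8000

namespace CfsgLib.StdO8

open CfsgLib.O8Mult (W cs Wp sgn sgn_simple)

variable {G : Type*} [Group G]

/-- An outer involution with its action. -/
structure Odd0 (ι : Wp →* G) (y : G) (s : W) : Prop where
  act : Act ι y s
  sq : y * y = 1
  ss : s * s = 1
  odd : sgn s = -1

/-- The extension of the parametrisation by an outer involution. -/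
noncomputable def phi (ι : Wp →* G) (y : G) (s : W) (w : W) : G :=
  if sgn w = 1 then jw ι w else jw ι (w * s) * y

theorem phi_even (ι : Wp →* G) (y : G) (s : W) {w : W} (h : sgn w = 1) : phi ι y s w = jw ι w := by
  rw [phi, if_pos h]

theorem phi_zW (ι : Wp →* G) (y : G) (s : W) : phi ι y s (zW : W) = zG ι := by
  rw [phi_even ι y s sgn_zW, jw_zW]

theorem phi_one (ι : Wp →* G) (y : G) (s : W) : phi ι y s 1 = 1 := by
  rw [phi_even ι y s (map_one sgn), jw, toWp_one, map_one]

namespace Odd0

variable {ι : Wp →* G} {y : G} {s : W} (d : Odd0 ι y s)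
include d

theorem phi_self : phi ι y s s = y := by
  rw [phi, if_neg (by rw [d.odd]; decide), d.ss, jw, toWp_one, map_one, one_mul]

theorem y_jw {b : W} (hb : sgn b = 1) : y * jw ι b = jw ι (s * b * s⁻¹) * y := by
  rw [jw, d.act, cW_toWp s hb]; rfl

theorem mul (a b : W) : phi ι y s (a * b) = phi ι y s a * phi ι y s b := by
  have hsi : s⁻¹ = s := inv_eq_of_mul_eq_one_right d.ss
  by_cases ha : sgn a = 1 <;> by_cases hb : sgn b = 1
  · rw [phi, phi, phi, if_pos ha, if_pos hb, if_pos (by rw [map_mul, ha, hb, one_mul]), jw_mul ι ha hb]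
  · have hb' := sgn_eq_neg hb
    rw [phi, phi, phi, if_pos ha, if_neg hb, if_neg (by rw [map_mul, ha, one_mul]; exact hb), mul_assoc a b s,
      jw_mul ι ha (by rw [map_mul, hb', d.odd]; rfl), mul_assoc]
  · have ha' := sgn_eq_neg ha
    have has : sgn (a * s) = 1 := by rw [map_mul, ha', d.odd]; rfl
    rw [phi, phi, phi, if_neg ha, if_pos hb, if_neg (by rw [map_mul, hb, mul_one]; exact ha), mul_assoc _ y,
      d.y_jw hb, ← mul_assoc, ← jw_mul ι has (by rw [sgn_conj, hb]), hsi]
    congr 2
    calc a * b * s = a * (s * s) * b * s := by rw [d.ss, mul_one]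
      _ = _ := by group
  · have ha' := sgn_eq_neg ha
    have hb' := sgn_eq_neg hb
    have has : sgn (a * s) = 1 := by rw [map_mul, ha', d.odd]; rfl
    have hbs : sgn (b * s) = 1 := by rw [map_mul, hb', d.odd]; rfl
    rw [phi, phi, phi, if_neg ha, if_neg hb, if_pos (by rw [map_mul, ha', hb']; rfl), mul_assoc _ y,
      ← mul_assoc y, d.y_jw hbs, mul_assoc _ y y, d.sq, mul_one, ← jw_mul ι has (by rw [sgn_conj, hbs])]
    congr 1
    calc a * b = a * (s * s) * b * (s * s⁻¹) := by rw [d.ss, mul_one, mul_inv_cancel, mul_one]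
      _ = _ := by group

theorem act_phi (w : W) : Act ι (phi ι y s w) w := by
  rw [phi]
  by_cases h : sgn w = 1
  · rw [if_pos h]
    have := act_iota ι (toWp w)
    rwa [coe_toWp h] at this
  · rw [if_neg h]
    have hs : sgn (w * s) = 1 := by rw [map_mul, sgn_eq_neg h, d.odd]; rfl
    have := (act_iota ι (toWp (w * s))).mul d.act
    rwa [coe_toWp hs, mul_assoc, d.ss, mul_one] at this

theorem phi_conj (v : Wp) (w : W) :
    phi ι y s ((v : W) * w * (v : W)⁻¹) = ι v * phi ι y s w * (ι v)⁻¹ := by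
  have hv : sgn (v : W) = 1 := v.2
  have e : phi ι y s ((v : W)⁻¹) = (ι v)⁻¹ := by
    rw [phi_even ι y s (by rw [map_inv, hv, inv_one]), ← Subgroup.coe_inv, jw_coe, map_inv]
  rw [d.mul, d.mul, e, phi_even ι y s hv, jw_coe]

theorem commute {a b : W} (h : a * b = b * a) : phi ι y s a * phi ι y s b = phi ι y s b * phi ι y s a := by
  rw [← d.mul, ← d.mul, h]

theorem injective {L : Subgroup G} (h : Setup L ι) : Function.Injective (phi ι y s) := by
  intro a b e
  have e1 : phi ι y s (b⁻¹ * a) = 1 := by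
    have h1 : phi ι y s b⁻¹ * phi ι y s b = 1 := by rw [← d.mul, inv_mul_cancel, phi_one]
    rw [d.mul, e, h1]
  by_cases hs : sgn (b⁻¹ * a) = 1
  · rw [phi_even ι y s hs, jw, ← map_one ι] at e1
    have := congrArg Subtype.val (h.inj e1)
    rw [coe_toWp hs, Subgroup.coe_one] at this
    exact (inv_mul_eq_one.1 this).symm
  · exfalso
    have h1 := d.act_phi (b⁻¹ * a)
    rw [e1] at h1
    exact hs (h.sgn_unique h1 (act_one ι) ▸ map_one sgn)

end Odd0

/-- The masks of nine elements near a fixed one. -/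
def nineMasks : Fin 9 → ℕ := ![11, 19, 35, 67, 131, 13, 21, 37, 69]

theorem nineMasks_check : ∀ i, nineMasks i < 256 ∧ weight (nineMasks i) = 3 ∧ weight (nineMasks i ^^^ 7) = 2 ∧
    nineMasks i ≠ 7 ∧ ∀ j, i ≠ j → nineMasks i ≠ nineMasks j ∧ nineMasks i ^^^ nineMasks j ≠ 7 := by
  decide +kernel

theorem xor_lt {a b : ℕ} (ha : a < 256) (hb : b < 256) : a ^^^ b < 256 :=
  Nat.xor_lt_two_pow (n := 8) ha hb

namespace Setup

variable [Finite G] {L : Subgroup G} {ι : Wp →* G} (h : Setup L ι)
include h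

omit [Finite G] in
theorem conj_of_mask {y : G} {s : W} (d : Odd0 ι y s) {a b : ℕ} (ha : a < 256) (hb : b < 256)
    (hwa : weight a = 1 ∨ weight a = 2 ∨ weight a = 3) (hw : weight b = weight a)
    (hc : Conj ι (phi ι y s (dW a))) : Conj ι (phi ι y s (dW b)) := by
  obtain ⟨v, hv, ev⟩ := mask_conj ha hwa
  obtain ⟨u, hu, eu⟩ := mask_conj hb (hw ▸ hwa)
  rw [hw] at eu
  have e : dW b = ((toWp (u⁻¹ * v) : Wp) : W) * dW a * ((toWp (u⁻¹ * v) : Wp) : W)⁻¹ := by
    rw [coe_toWp (by rw [map_mul, map_inv, hu, hv, inv_one, one_mul])]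
    calc dW b = u⁻¹ * (u * dW b * u⁻¹) * u := by group
      _ = u⁻¹ * (v * dW a * v⁻¹) * u := by rw [eu, ev]
      _ = _ := by group
  rw [e, d.phi_conj]
  exact conj_conj hc _

omit [Finite G] in
theorem phi_two {y : G} {s : W} (hT : Two ι) {m : ℕ} (hm : m < 256) (hw : weight m = 2) :
    Conj ι (phi ι y s (dW m)) := by
  have hs : sgn (dW m) = 1 := sgn_dW_even (by rw [hw])
  obtain ⟨v, -, ev⟩ := mask_conj hm (Or.inr (Or.inl hw))
  rw [phi_even ι y s hs, jw]
  refine h.two_conj_mask (v := v) ?_ hT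
  rw [coe_toWp hs, ev, hw]
  rfl

/-- An element of the class of three reflections times the central involution is no conjugate. -/
theorem t_not_z {y : G} (hT : Two ι) (hy : Conj ι y) (ht : TType ι y) : ¬ Conj ι (y * zG ι) := by
  obtain ⟨w, v, hw, hv, ev⟩ := ht
  intro hyz
  have hw' := hw.conj (toWp v)
  rw [coe_toWp hv, ev] at hw'
  set y' := ι (toWp v) * y * (ι (toWp v))⁻¹ with hy'
  have hcy : Conj ι y' := conj_conj hy _
  have hyz' : Conj ι (y' * zG ι) := by
    have := conj_conj hyz (ι (toWp v))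
    convert this using 1
    have hz := (act_iota ι (toWp v)).inv.comm_z
    rw [hy']
    calc ι (toWp v) * y * (ι (toWp v))⁻¹ * zG ι = ι (toWp v) * y * ((ι (toWp v))⁻¹ * zG ι) := by group
      _ = _ := by rw [hz]; group
  have d : Odd0 ι y' (dW 7) := ⟨hw', conj_sq hcy, dW_sq 7, sgn_dW_odd (by decide +kernel)⟩
  set M : ℕ → G := fun m => phi ι y' (dW 7) (dW m) with hM
  have hmul : ∀ a b, M (a ^^^ b) = M a * M b := fun a b => by simp only [hM, ← dW_mul, d.mul]
  have hcom : ∀ a b, M a * M b = M b * M a := fun a b => d.commute (dW_comm a b)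
  have hinj : ∀ a b, a < 256 → b < 256 → a ≠ b → M a ≠ M b := fun a b ha hb hab e =>
    hab (dW_inj ha hb (d.injective h e))
  have h3 : ∀ m, m < 256 → weight m = 3 → Conj ι (M m) := fun m hm hw3 =>
    h.conj_of_mask d (a := 7) (by norm_num) hm (Or.inr (Or.inr (by decide +kernel)))
      (hw3.trans (show weight 7 = 3 by decide +kernel).symm) (by rw [d.phi_self]; exact hcy)
  have hneg : ∀ e, e < 256 → weight e = 2 → 200 ^^^ e < 256 → weight (200 ^^^ e) = 3 → Th ι (M 200) (M e) (-1) := by
    intro e he hw2 hlt hw3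
    have hc200 : Conj ι (M 200) := h3 200 (by norm_num) (by decide +kernel)
    obtain ⟨c, hc⟩ := h.th_exists hc200 (hcom e 200)
    rcases Int.units_eq_one_or c with rfl | rfl
    · exfalso
      refine h.inner_mul hc200 (h.phi_two hT he hw2) (hcom e 200) (hinj e 200 he (by norm_num) ?_) hc ?_
      · rintro rfl; revert hw2; decide +kernel
      · rw [← hmul]; exact h3 _ hlt hw3
    · exact hc
  have h1 := h.th_mul (hneg 24 (by norm_num) (by decide +kernel) (by decide +kernel) (by decide +kernel))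
    (hneg 40 (by norm_num) (by decide +kernel) (by decide +kernel) (by decide +kernel))
  rw [← hmul, show (24 ^^^ 40 : ℕ) = 48 by decide +kernel, show (-1 : ℤˣ) * -1 = 1 by decide] at h1
  refine h.inner_mul (h3 200 (by norm_num) (by decide +kernel)) (h.phi_two hT (by norm_num) (by decide +kernel))
    (hcom 48 200) (hinj 48 200 (by norm_num) (by norm_num) (by norm_num)) h1 ?_
  rw [← hmul]
  convert hyz' using 1
  rw [show (200 ^^^ 48 : ℕ) = 7 ^^^ 255 by decide +kernel, hmul]
  simp only [hM, d.phi_self, ← zW_eq, phi_zW]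

/-- Reflections from commuting elements. -/
theorem commZ_of_act {a b : G} {s t : W} (hs : Act ι a s) (ht : Act ι b t) (hc : a * b = b * a) : CommZ s t := by
  have h1 := hs.mul ht
  rw [hc] at h1
  exact h.act_unique (ht.mul hs) h1

/-- Commuting involutions with the same action. -/
theorem eq_of_act {a b : G} {s : W} (ha : Act ι a s) (hb : Act ι b s) (ha2 : a * a = 1) (hb2 : b * b = 1)
    (hc : a * b = b * a) : a = b ∨ a = zG ι * b := by
  have h1 : Act ι (a * b⁻¹) 1 := by
    have := ha.mul hb.inv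
    rwa [mul_inv_cancel] at this
  have hbi : b⁻¹ = b := inv_eq_of_mul_eq_one_right hb2
  rcases h.eq_z (h.act_one_iff.1 h1) (by
    rw [hbi]
    calc a * b * (a * b) = a * (b * a) * b := by group
      _ = a * a * (b * b) := by rw [← hc]; group
      _ = 1 := by rw [ha2, hb2, one_mul]) with e | e
  · exact Or.inl (mul_inv_eq_one.1 e)
  · exact Or.inr (mul_inv_eq_iff_eq_mul.1 e)

/-- There is no outer conjugate of the class of three reflections. -/
theorem no_TType {y : G} (hy : Conj ι y) (ht : TType ι y) : False := by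
  obtain ⟨w, v, hw, hv, ev⟩ := ht
  have hw' := hw.conj (toWp v)
  rw [coe_toWp hv, ev] at hw'
  set y' := ι (toWp v) * y * (ι (toWp v))⁻¹ with hy'
  have hcy : Conj ι y' := conj_conj hy _
  have d : Odd0 ι y' (dW 7) := ⟨hw', conj_sq hcy, dW_sq 7, sgn_dW_odd (by decide +kernel)⟩
  set M : ℕ → G := fun m => phi ι y' (dW 7) (dW m) with hM
  have hmul : ∀ a b, M (a ^^^ b) = M a * M b := fun a b => by simp only [hM, ← dW_mul, d.mul]
  have hcom : ∀ a b, M a * M b = M b * M a := fun a b => d.commute (dW_comm a b)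
  have hinj : ∀ a b, a < 256 → b < 256 → a ≠ b → M a ≠ M b := fun a b ha hb hab e =>
    hab (dW_inj ha hb (d.injective h e))
  have hM7 : M 7 = y' := d.phi_self
  have h3 : ∀ m, m < 256 → weight m = 3 → Conj ι (M m) := fun m hm hw3 =>
    h.conj_of_mask d (a := 7) (by norm_num) hm (Or.inr (Or.inr (by decide +kernel)))
      (hw3.trans (show weight 7 = 3 by decide +kernel).symm) (by rw [d.phi_self]; exact hcy)
  by_cases hT : Two ι
  · obtain ⟨g, hg⟩ := hcy
    let q : Fin 9 → G := fun i => g⁻¹ * M (nineMasks i) * g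
    have hm := nineMasks_check
    have hq : ∀ i, ∃ r, Act ι (q i) r ∧ IsRefl r := fun i => by
      obtain ⟨hlt, hw3, hw2, hne, -⟩ := hm i
      have hcq : Conj ι (q i) := by simpa [q] using conj_conj (h3 _ hlt hw3) g⁻¹
      have hqz : q i * zG ι = g⁻¹ * M (nineMasks i ^^^ 7) * g := by
        simp only [q, hmul, hM7, ← hg]; group
      have hcz : Conj ι (q i * zG ι) := by
        rw [hqz]
        simpa using conj_conj (h.phi_two (y := y') (s := dW 7) hT (xor_lt hlt (by norm_num)) hw2) g⁻¹
      have hqne : q i ≠ zG ι := fun e => hinj _ 7 hlt (by norm_num) hne (by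
        rw [hM7, ← hg, ← e]; simp only [q]; group)
      have hcomz : q i * zG ι = zG ι * q i := by
        rw [hqz, Nat.xor_comm, hmul, hM7, ← hg]; simp only [q]; group
      rcases h.classify hcq hqne hcomz with ⟨l, el, -⟩ | ⟨r, hr, -, hrefl⟩ | ⟨ht', -⟩
      · exfalso
        refine h.inner_mul (p := y') ⟨g, hg⟩ (h3 _ hlt hw3) (by rw [← hM7]; exact hcom _ _)
          (by rw [← hM7]; exact hinj _ 7 hlt (by norm_num) hne) ⟨g, (l : W), hg, ?_, l.2⟩ ?_
        · show Act ι (q i) _
          rw [el]; exact act_iota ι l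
        · rw [← hM7, ← hmul, Nat.xor_comm]; exact h.phi_two hT (xor_lt hlt (by norm_num)) hw2
      · exact ⟨r, hr, hrefl⟩
      · exact absurd hcz (h.t_not_z hT hcq ht')
    choose r hr hrefl using hq
    have hqc : ∀ i j, q i * q j = q j * q i := fun i j => by
      simp only [q]
      calc g⁻¹ * M (nineMasks i) * g * (g⁻¹ * M (nineMasks j) * g)
          = g⁻¹ * (M (nineMasks i) * M (nineMasks j)) * g := by group
        _ = g⁻¹ * (M (nineMasks j) * M (nineMasks i)) * g := by rw [hcom]
        _ = _ := by group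
    have hq2 : ∀ i, q i * q i = 1 := fun i =>
      conj_sq (ι := ι) (by simpa [q] using conj_conj (h3 _ (hm i).1 (hm i).2.1) g⁻¹)
    refine refl_nine hrefl (fun i j e => ?_) fun i j => h.commZ_of_act (hr i) (hr j) (hqc i j)
    by_contra hij
    obtain ⟨hne1, hne2⟩ := (hm i).2.2.2.2 j hij
    rcases h.eq_of_act (hr i) (e ▸ hr j) (hq2 i) (hq2 j) (hqc i j) with e' | e'
    · refine hinj _ _ (hm i).1 (hm j).1 hne1 ?_
      simpa [q] using e'
    · refine hinj (nineMasks i ^^^ nineMasks j) 7 (xor_lt (hm i).1 (hm j).1) (by norm_num) hne2 ?_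
      have e2 : M (nineMasks i) = y' * M (nineMasks j) := by
        calc M (nineMasks i) = g * q i * g⁻¹ := by simp only [q]; group
          _ = g * (zG ι * q j) * g⁻¹ := by rw [e']
          _ = _ := by rw [← hg]; simp only [q]; group
      rw [hmul, e2, mul_assoc, ← hmul, Nat.xor_self, hM7]
      simp [hM, dW_zero, phi_one]
  · have hneg : ∀ m, m < 256 → weight m = 3 → m ≠ 11 → Th ι (M 11) (M m) (-1) := by
      intro m hm hw3 hne
      have h11 : Conj ι (M 11) := h3 11 (by norm_num) (by decide +kernel)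
      obtain ⟨c, hc⟩ := h.th_exists h11 (hcom m 11)
      rcases Int.units_eq_one_or c with rfl | rfl
      · exact absurd (h.inner_two h11 (h3 m hm hw3) (hcom m 11) (hinj m 11 hm (by norm_num) hne) hc) hT
      · exact hc
    have h1 := h.th_mul (h.th_mul (h.th_self (h3 11 (by norm_num) (by decide +kernel)))
      (hneg 21 (by norm_num) (by decide +kernel) (by norm_num))) (hneg 25 (by norm_num) (by decide +kernel) (by norm_num))
    rw [← hmul, ← hmul, show ((11 ^^^ 21) ^^^ 25 : ℕ) = 7 by decide +kernel] at h1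
    have := h.th_unique h1 (hneg 7 (by norm_num) (by decide +kernel) (by norm_num))
    exact absurd this (by decide)

/-- The conjugates commuting with the central involution, sharpened. -/
theorem classify' {y : G} (hy : Conj ι y) (hne : y ≠ zG ι) (hc : y * zG ι = zG ι * y) :
    (∃ l : Wp, y = ι l ∧ ∃ v, sgn v = 1 ∧ v * (l : W) * v⁻¹ = dW 3) ∨
      (∃ w, Act ι y w ∧ sgn w = -1 ∧ IsRefl w) := by
  rcases h.classify hy hne hc with h' | h' | ⟨ht, -⟩
  · exact Or.inl h'
  · exact Or.inr h'
  · exact (h.no_TType hy ht).elim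

end Setup

end CfsgLib.StdO8
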