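import Cfsg.Agent.StdO8.Pull

/-!
Traces of elementary abelian 2-groups acting on the lattice: sums against characters are
nonnegative multiples of the order.
-/

set_option autoImplicit false
set_option maxRecDepth 8000

namespace CfsgLib.StdO8

open CfsgLib.O8Mult (W cs Wp sgn)

/-- A step of the search for possible traces. -/
inductive Step where
  | grow (vals : List ℤ)
  | test (B : List (ℕ × ℕ)) (chars : List ℕ)

/-- A character of the group of masks. -/
def chi (a m : ℕ) : ℤ :=
  ((List.finRange 8).map fun i => if a.testBit i.1 && m.testBit i.1 then (-1 : ℤ) else 1).prod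

theorem chi_xor (a m n : ℕ) : chi a (m ^^^ n) = chi a m * chi a n := by
  rw [chi, chi, chi, ← List.prod_map_mul]
  congr 1
  refine List.map_congr_left fun i _ => ?_
  rw [Nat.testBit_xor]
  cases a.testBit i.1 <;> cases m.testBit i.1 <;> cases n.testBit i.1 <;> rfl

/-- The test at one node. -/
def okB (B : List (ℕ × ℕ)) (chars : List ℕ) (t : List ℤ) : Bool :=
  chars.all fun a =>
    let s := (B.map fun b => chi a b.1 * t.getD b.2 0).sum
    decide (0 ≤ s) && decide (s % (B.length : ℤ) = 0)

/-- No assignment passes. -/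
def refute : List Step → List ℤ → Bool
  | [], _ => false
  | .grow vs :: r, t => vs.all fun v => refute r (t ++ [v])
  | .test B cs :: r, t => !okB B cs t || refute r t

/-- An assignment passes. -/
def Holds (f : ℕ → ℤ) : List Step → ℕ → Prop
  | [], _ => True
  | .grow vs :: r, n => f n ∈ vs ∧ Holds f r (n + 1)
  | .test B cs :: r, n => okB B cs ((List.range n).map f) = true ∧ Holds f r n

theorem refute_sound (f : ℕ → ℤ) : ∀ (steps : List Step) (n : ℕ),
    Holds f steps n → refute steps ((List.range n).map f) = false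
  | [], _, _ => rfl
  | .grow vs :: r, n, h => by
    rw [refute, List.all_eq_false]
    refine ⟨f n, h.1, ?_⟩
    have := refute_sound f r (n + 1) h.2
    rw [List.range_succ, List.map_append] at this
    simpa using this
  | .test B cs :: r, n, h => by rw [refute, h.1, refute_sound f r n h.2]; rfl

/-- The closure and range check of the tests. -/
def stepsB (masks : List ℕ) : List Step → ℕ → Bool
  | [], _ => true
  | .grow _ :: r, n => stepsB masks r (n + 1)
  | .test B _ :: r, n =>
    B.all (fun b => decide (b.2 < n) && masks.contains b.1) && decide ((B.map Prod.fst).Nodup) &&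
      (B.map Prod.fst).all (fun a => (B.map Prod.fst).all fun b => (B.map Prod.fst).contains (a ^^^ b)) &&
      !B.isEmpty && stepsB masks r n

theorem trace_avg (f : ℕ → W) (s : Finset ℕ) (hs : ∀ a ∈ s, ∀ b ∈ s, a ^^^ b ∈ s) (hne : s.Nonempty)
    (hmul : ∀ a ∈ s, ∀ b ∈ s, f (a ^^^ b) = f a * f b) (a : ℕ) :
    ∃ k : ℕ, ∑ m ∈ s, chi a m * (mat (f m)).trace = (s.card : ℤ) * k := by
  classical
  set E : Matrix (Fin 8) (Fin 8) ℤ := ∑ m ∈ s, chi a m • mat (f m) with hE
  have hsq : E * E = (s.card : ℤ) • E := by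
    have e : ∀ x ∈ s, (chi a x • mat (f x)) * E = E := by
      intro x hx
      rw [hE, Finset.mul_sum]
      refine Finset.sum_nbij' (fun y => x ^^^ y) (fun y => x ^^^ y) (fun y hy => hs x hx y hy)
        (fun y hy => hs x hx y hy) (fun y _ => by simp) (fun y _ => by simp) ?_
      intro y hy
      rw [hmul x hx y hy, mat_mul, chi_xor, smul_mul_smul_comm]
    calc E * E = ∑ x ∈ s, (chi a x • mat (f x)) * E := by rw [← Finset.sum_mul]
      _ = ∑ _x ∈ s, E := Finset.sum_congr rfl e
      _ = _ := by rw [Finset.sum_const, natCast_zsmul]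
  have hN : (s.card : ℚ) ≠ 0 := Nat.cast_ne_zero.2 (Finset.card_ne_zero.2 hne)
  set e : Matrix (Fin 8) (Fin 8) ℚ := (s.card : ℚ)⁻¹ • E.map (Int.castRingHom ℚ) with he
  have hee : e * e = e := by
    rw [he, smul_mul_smul_comm, ← Matrix.map_mul, hsq]
    ext i j
    simp only [Matrix.smul_apply, Matrix.map_apply, smul_eq_mul]
    simp
    field_simp
  have hp : LinearMap.IsProj (LinearMap.range (Matrix.toLin' e)) (Matrix.toLin' e) :=
    LinearMap.IsIdempotentElem.isProj_range _ (by
      show Matrix.toLin' e * Matrix.toLin' e = Matrix.toLin' e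
      rw [Module.End.mul_eq_comp, ← Matrix.toLin'_mul, hee])
  have ht := hp.trace
  rw [Matrix.trace_toLin'_eq] at ht
  refine ⟨Module.finrank ℚ (LinearMap.range (Matrix.toLin' e)), ?_⟩
  have hsum : ∑ m ∈ s, chi a m * (mat (f m)).trace = E.trace := by
    rw [hE, Matrix.trace_sum]
    exact Finset.sum_congr rfl fun m _ => by rw [Matrix.trace_smul]; rfl
  rw [hsum]
  have : ((E.trace : ℤ) : ℚ) = (s.card : ℚ) * e.trace := by
    rw [he, Matrix.trace_smul, smul_eq_mul, ← mul_assoc, mul_inv_cancel₀ hN, one_mul]
    simp [Matrix.trace]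
  rw [ht] at this
  exact_mod_cast this

theorem list_sum_trace (f : ℕ → W) (B : List (ℕ × ℕ)) (hd : (B.map Prod.fst).Nodup) (a : ℕ) (T : ℕ → ℤ)
    (hT : ∀ b ∈ B, T b.2 = (mat (f b.1)).trace) :
    (B.map fun b => chi a b.1 * T b.2).sum = ∑ m ∈ (B.map Prod.fst).toFinset, chi a m * (mat (f m)).trace := by
  rw [List.sum_toFinset _ hd, List.map_map]
  congr 1
  exact List.map_congr_left fun b hb => by rw [Function.comp_apply, hT b hb]

/-- The values attained by traces pass all tests. -/
theorem holds_of_hom (f : ℕ → W) (masks : List ℕ) (T : ℕ → ℤ)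
    (hmul : ∀ a ∈ masks, ∀ b ∈ masks, f (a ^^^ b) = f a * f b) :
    ∀ (steps : List Step) (n : ℕ), stepsB masks steps n = true →
      (∀ B cs, Step.test B cs ∈ steps → ∀ b ∈ B, T b.2 = (mat (f b.1)).trace) →
      (∀ (k : ℕ) (vs : List ℤ), (steps.filterMap fun s => match s with
        | .grow v => some v
        | .test _ _ => none)[k]? = some vs → T (n + k) ∈ vs) → Holds T steps n
  | [], _, _, _, _ => trivial
  | .grow vs :: r, n, hB, hT, hv => by
    refine ⟨by simpa using hv 0 vs (by simp), holds_of_hom f masks T hmul r (n + 1) hB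
      (fun B cs h => hT B cs (List.mem_cons_of_mem _ h)) fun k vs' hk => ?_⟩
    rw [show n + 1 + k = n + (k + 1) by omega]
    exact hv (k + 1) vs' (by simpa using hk)
  | .test B cs :: r, n, hB, hT, hv => by
    simp only [stepsB, Bool.and_eq_true, List.all_eq_true, decide_eq_true_eq, List.contains_iff_mem,
      Bool.not_eq_true', List.isEmpty_eq_false_iff] at hB
    obtain ⟨⟨⟨⟨h1, h2⟩, h3⟩, h4⟩, h5⟩ := hB
    refine ⟨?_, holds_of_hom f masks T hmul r n h5 (fun B cs h => hT B cs (List.mem_cons_of_mem _ h))
      fun k vs' hk => hv k vs' (by simpa using hk)⟩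
    simp only [okB, List.all_eq_true, Bool.and_eq_true, decide_eq_true_eq]
    intro a _
    have hget : (B.map fun b => chi a b.1 * ((List.range n).map T).getD b.2 0) =
        B.map fun b => chi a b.1 * T b.2 :=
      List.map_congr_left fun b hb => by
        rw [List.getD_eq_getElem _ _ (by simpa using (h1 b hb).1)]; simp
    rw [hget, list_sum_trace f B h2 a T (hT B cs List.mem_cons_self)]
    have hm : ∀ m ∈ (B.map Prod.fst).toFinset, m ∈ masks := fun m hm => by
      obtain ⟨b, hb, rfl⟩ := List.mem_map.1 (List.mem_toFinset.1 hm)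
      exact (h1 b hb).2
    obtain ⟨k, hk⟩ := trace_avg f (B.map Prod.fst).toFinset
      (fun x hx y hy => List.mem_toFinset.2 (h3 x (List.mem_toFinset.1 hx) y (List.mem_toFinset.1 hy)))
      (List.toFinset_nonempty_iff _ |>.2 (by simpa using h4))
      (fun x hx y hy => hmul x (hm x hx) y (hm y hy)) a
    rw [hk, List.toFinset_card_of_nodup h2, List.length_map]
    exact ⟨mul_nonneg (Int.natCast_nonneg _) (Int.natCast_nonneg _), Int.mul_emod_right _ _⟩

end CfsgLib.StdO8
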